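import Cfsg.Agent.H2.Generation

/-!
An explicit regular unipotent element of the symplectic group with prescribed small invariants,
and conjugacy of a regular unipotent to its translates by central long root elements.
-/

set_option autoImplicit false

namespace Cfsg.Agent.H1

open Matrix Cfsg.Agent.H2

variable {F : Type*} [Field F]

section Abstract

variable {m : ℕ}

local notation "V" => Fin m ⊕ Fin m → F
local notation "Sp" => Matrix.symplecticGroup (Fin m) F
local notation "ω" => Cfsg.sympForm m F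

lemma spBilin_expand (u v w : V) :
    ω (u + v) w = ω u w + ω v w ∧ ω u (v + w) = ω u v + ω u w ∧ ω (u - v) w = ω u w - ω v w ∧
      ω u (v - w) = ω u v - ω u w := by
  simp [← sympBilin_apply]

/-- The element `x ↦ x + ω(x,e) z + ω(x,z) e` of the unipotent radical at `e`. -/
def qRad (e z : V) : Sp := transv (e + z) 1 * transv e (-1) * transv z (-1)

lemma qRad_mulVec (e z x : V) (h : ω e z = 0) :
    (qRad e z : Matrix _ _ F) *ᵥ x = x + ω x e • z + ω x z • e := by
  have h' : ω z e = 0 := by rw [sympForm_swap, h, neg_zero]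
  simp only [qRad, Submonoid.coe_mul, coe_transv, ← Matrix.mulVec_mulVec, sympTransvection_mulVec]
  simp only [← sympBilin_apply, map_add, map_smul, LinearMap.add_apply, LinearMap.smul_apply,
    smul_eq_mul]
  simp only [sympBilin_apply, sympForm_self, h, h', smul_add, smul_smul]
  module

lemma conj_qRad (g : Sp) (e z : V) :
    g * qRad e z * g⁻¹ = qRad ((g : Matrix _ _ F) *ᵥ e) ((g : Matrix _ _ F) *ᵥ z) := by
  have h : g * qRad e z * g⁻¹ = (g * transv (e + z) 1 * g⁻¹) * (g * transv e (-1) * g⁻¹) *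
      (g * transv z (-1) * g⁻¹) := by simp only [qRad]; group
  rw [h, conj_transv, conj_transv, conj_transv, Matrix.mulVec_add]
  rfl

lemma qRad_inv (e z : V) (h : ω e z = 0) : (qRad e z)⁻¹ = qRad e (-z) := by
  have h' : ω z e = 0 := by rw [sympForm_swap, h, neg_zero]
  refine inv_eq_of_mul_eq_one_right (ext_of_mulVec fun x => ?_)
  rw [Submonoid.coe_mul, ← Matrix.mulVec_mulVec,
    qRad_mulVec e (-z) x (by simp [← sympBilin_apply, h]; simp [h]), qRad_mulVec e z _ h]
  simp only [Submonoid.coe_one, Matrix.one_mulVec]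
  simp only [← sympBilin_apply, map_add, map_smul, map_neg, LinearMap.add_apply,
    LinearMap.smul_apply, LinearMap.neg_apply, smul_eq_mul]
  simp only [sympBilin_apply, sympForm_self, h, h']
  module

/-- Conjugacy of `u` and `T(e,θ) u`, main case. -/
theorem exists_conj_eq_transv_mul {u : Sp} {e z w : V} {a κ θ : F}
    (hue : (u : Matrix _ _ F) *ᵥ e = e) (huz : (u : Matrix _ _ F) *ᵥ z = z + w)
    (huw : (u : Matrix _ _ F) *ᵥ w = w + a • e) (hez : ω e z = 0) (hew : ω e w = 0)
    (hzw : ω z w = κ) (ha : a ≠ 0) (hθ : θ = a + κ) :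
    ∃ g : Sp, g * u * g⁻¹ = transv e θ * u := by
  refine ⟨transv w (-a⁻¹) * qRad e z, ?_⟩
  have hze : ω z e = 0 := by rw [sympForm_swap, hez, neg_zero]
  have hwe : ω w e = 0 := by rw [sympForm_swap, hew, neg_zero]
  have hwz : ω w z = -κ := by rw [sympForm_swap, hzw]
  have hcomm : u * (transv w (-a⁻¹) * qRad e z)⁻¹ * u⁻¹ =
      qRad e (-(z + w)) * transv (w + a • e) a⁻¹ := by
    have h : u * (transv w (-a⁻¹) * qRad e z)⁻¹ * u⁻¹ =
        (u * (qRad e z)⁻¹ * u⁻¹) * (u * (transv w (-a⁻¹))⁻¹ * u⁻¹) := by group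
    rw [h, qRad_inv e z hez, transv_inv, conj_qRad, conj_transv, hue, huw, Matrix.mulVec_neg, huz,
      neg_neg]
  have key : transv w (-a⁻¹) * qRad e z * (qRad e (-(z + w)) * transv (w + a • e) a⁻¹) =
      transv e θ := by
    refine ext_of_mulVec fun x => ?_
    have he' : ω e (-(z + w)) = 0 := by simp [← sympBilin_apply]; simp [hez, hew]
    simp only [Submonoid.coe_mul, ← Matrix.mulVec_mulVec, qRad_mulVec e z _ hez,
      qRad_mulVec e (-(z + w)) _ he', coe_transv, sympTransvection_mulVec]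
    simp only [← sympBilin_apply, map_add, map_smul, map_neg, LinearMap.add_apply,
      LinearMap.smul_apply, LinearMap.neg_apply, smul_eq_mul]
    simp only [sympBilin_apply, sympForm_self, hez, hew, hze, hwe, hzw, hwz]
    subst hθ
    match_scalars <;> field_simp <;> ring
  calc transv w (-a⁻¹) * qRad e z * u * (transv w (-a⁻¹) * qRad e z)⁻¹
      = transv w (-a⁻¹) * qRad e z * (u * (transv w (-a⁻¹) * qRad e z)⁻¹ * u⁻¹) * u := by group
    _ = transv e θ * u := by rw [hcomm, key]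

/-- Conjugacy of `u` and `T(e,θ) u`, odd characteristic. -/
theorem exists_conj_eq_transv_mul_odd {u : Sp} {e w : V} {a θ : F} (h2 : (2 : F) ≠ 0)
    (hue : (u : Matrix _ _ F) *ᵥ e = e) (huw : (u : Matrix _ _ F) *ᵥ w = w + a • e)
    (hew : ω e w = 0) (ha : a ≠ 0) : ∃ g : Sp, g * u * g⁻¹ = transv e θ * u := by
  set w' : V := (-θ / (2 * a)) • w with hw'
  refine ⟨qRad e w', ?_⟩
  have hew' : ω e w' = 0 := by rw [hw']; simp [← sympBilin_apply]; simp [hew]
  have hwe' : ω w' e = 0 := by rw [sympForm_swap, hew', neg_zero]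
  have huw' : (u : Matrix _ _ F) *ᵥ w' = w' + (-θ / 2) • e := by
    rw [hw', Matrix.mulVec_smul, huw, smul_add, smul_smul]
    congr 2
    field_simp
  have he' : ω e (-(w' + (-θ / 2) • e)) = 0 := by
    simp [← sympBilin_apply]; simp [hew']
  have key : qRad e w' * qRad e (-(w' + (-θ / 2) • e)) = transv e θ := by
    refine ext_of_mulVec fun x => ?_
    simp only [Submonoid.coe_mul, ← Matrix.mulVec_mulVec, qRad_mulVec e w' _ hew',
      qRad_mulVec e _ _ he', coe_transv, sympTransvection_mulVec]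
    simp only [← sympBilin_apply, map_add, map_smul, map_neg, LinearMap.add_apply,
      LinearMap.smul_apply, LinearMap.neg_apply, smul_eq_mul]
    simp only [sympBilin_apply, sympForm_self, hew', hwe']
    match_scalars <;> field_simp <;> ring
  calc qRad e w' * u * (qRad e w')⁻¹ = qRad e w' * (u * (qRad e w')⁻¹ * u⁻¹) * u := by group
    _ = transv e θ * u := by
      rw [qRad_inv e w' hew', conj_qRad, hue, Matrix.mulVec_neg, huw', key]

lemma sub_one_mulVec (u : Matrix (Fin m ⊕ Fin m) (Fin m ⊕ Fin m) F) (x : V) :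
    (u - 1) *ᵥ x = u *ᵥ x - x := by rw [Matrix.sub_mulVec, Matrix.one_mulVec]

/-- Adjointness of `u - 1`. -/
lemma sympForm_sub_one_pow (u : Sp) (i : ℕ) (x y : V) :
    ω (((u : Matrix _ _ F) - 1) ^ i *ᵥ x) y =
      (-1) ^ i * ω (((u ^ i : Sp) : Matrix _ _ F) *ᵥ x) (((u : Matrix _ _ F) - 1) ^ i *ᵥ y) := by
  induction i generalizing x y with
  | zero => simp
  | succ i ih =>
    have one : ∀ a b : V, ω (((u : Matrix _ _ F) - 1) *ᵥ a) b =
        -ω ((u : Matrix _ _ F) *ᵥ a) (((u : Matrix _ _ F) - 1) *ᵥ b) := fun a b => by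
      rw [sub_one_mulVec, sub_one_mulVec, (spBilin_expand _ _ _).2.2.1, (spBilin_expand _ _ _).2.2.2,
        sympForm_mulVec]
      ring
    have hc : Commute (u : Matrix (Fin m ⊕ Fin m) (Fin m ⊕ Fin m) F)
        (((u : Matrix (Fin m ⊕ Fin m) (Fin m ⊕ Fin m) F) - 1) ^ i) :=
      ((Commute.refl (u : Matrix (Fin m ⊕ Fin m) (Fin m ⊕ Fin m) F)).sub_right
        (Commute.one_right _)).pow_right i
    rw [pow_succ', ← Matrix.mulVec_mulVec, one, Matrix.mulVec_mulVec _ (u : Matrix (Fin m ⊕ Fin m) (Fin m ⊕ Fin m) F), hc.eq,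
      ← Matrix.mulVec_mulVec, ih, Matrix.mulVec_mulVec, ← Submonoid.coe_mul, ← pow_succ,
      Matrix.mulVec_mulVec, ← pow_succ, ← pow_succ', pow_succ (-1 : F)]
    ring

end Abstract

section Model

variable {k : ℕ}

local notation "ι" => Fin (k + 2)

/-- The unipotent bidiagonal matrix. -/
def regA (k : ℕ) (F : Type*) [Field F] : Matrix (Fin (k + 2)) (Fin (k + 2)) F :=
  Matrix.of fun i j => if j = i ∨ (j : ℕ) = i + 1 then 1 else 0

/-- The nilpotent shift. -/
def shiftN (k : ℕ) (F : Type*) [Field F] : Matrix (Fin (k + 2)) (Fin (k + 2)) F :=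
  Matrix.of fun i j => if (j : ℕ) = i + 1 then 1 else 0

lemma regA_eq : regA k F = 1 + shiftN k F := by
  ext i j
  simp only [regA, shiftN, Matrix.of_apply, Matrix.add_apply, Matrix.one_apply]
  by_cases h : i = j
  · subst h; simp
  · simp [h, Ne.symm h]

lemma shiftN_pow (a : ℕ) :
    shiftN k F ^ a = Matrix.of fun i j : ι => if (j : ℕ) = i + a then 1 else 0 := by
  induction a with
  | zero => ext i j; simp [Matrix.one_apply, Fin.ext_iff, eq_comm]
  | succ a ih =>
    rw [pow_succ, ih]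
    ext i j
    simp only [Matrix.mul_apply, shiftN, Matrix.of_apply]
    by_cases h : (i : ℕ) + a < k + 2
    · rw [Finset.sum_eq_single (⟨i + a, h⟩ : ι)]
      · simp [add_assoc]
      · intro b _ hb
        rw [if_neg (fun hb' => hb (Fin.ext hb')), zero_mul]
      · simp
    · rw [Finset.sum_eq_zero (fun b _ => by rw [if_neg (by omega), zero_mul]),
        if_neg (by omega)]

lemma shiftN_pow_eq_zero {a : ℕ} (h : k + 2 ≤ a) : shiftN k F ^ a = 0 := by
  rw [shiftN_pow]; ext i j; simp only [Matrix.of_apply, Matrix.zero_apply]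
  rw [if_neg (by omega)]

lemma det_regA : (regA k F).det = 1 := by
  rw [Matrix.det_of_upperTriangular]
  · simp [regA]
  · intro i j (hij : j < i)
    simp only [regA, Matrix.of_apply]
    rw [if_neg]
    have : (j : ℕ) < i := hij
    rintro (rfl | h) <;> omega

lemma isUnit_det_regA : IsUnit (regA k F).det := by simp [det_regA]

lemma vecMul_regA (r : ι → F) (j : ι) :
    (r ᵥ* regA k F) j = r j + if h : (j : ℕ) = 0 then 0 else r ⟨j - 1, by omega⟩ := by
  simp only [Matrix.vecMul, dotProduct, regA, Matrix.of_apply]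
  split_ifs with h
  · rw [Finset.sum_eq_single j] <;> simp +contextual [Fin.ext_iff] <;> omega
  · rw [Finset.sum_eq_add_of_mem (a := j) (b := (⟨j - 1, by omega⟩ : ι)) (Finset.mem_univ _)
      (Finset.mem_univ _) (by simp [Fin.ext_iff]; omega)]
    · rw [if_pos (Or.inl rfl), if_pos (Or.inr (by simp; omega))]; ring
    · rintro b - ⟨hb1, hb2⟩
      rw [if_neg, mul_zero]
      rintro (rfl | hb)
      · exact hb1 rfl
      · exact hb2 (Fin.ext (by simp; omega))

lemma inv_transpose_mulVec_eq {r s : ι → F} (h : s ᵥ* regA k F = r) :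
    ((regA k F)⁻¹)ᵀ *ᵥ r = s := by
  rw [← h, Matrix.mulVec_transpose, Matrix.vecMul_vecMul,
    Matrix.mul_nonsing_inv _ isUnit_det_regA, Matrix.vecMul_one]

/-- The model regular unipotent. -/
noncomputable def spRegMat (s : ι → F) : Matrix (ι ⊕ ι) (ι ⊕ ι) F :=
  Matrix.fromBlocks (regA k F) (regA k F * Matrix.diagonal s) 0 ((regA k F)⁻¹)ᵀ

lemma spRegMat_mem (s : ι → F) : spRegMat s ∈ Matrix.symplecticGroup ι F := by
  rw [SymplecticGroup.mem_iff]
  have h1 : regA k F * (regA k F)⁻¹ = 1 := Matrix.mul_nonsing_inv _ isUnit_det_regA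
  have h2 : ((regA k F)⁻¹)ᵀ * (regA k F)ᵀ = 1 := by
    rw [← Matrix.transpose_mul, h1, Matrix.transpose_one]
  simp [spRegMat, Matrix.J, Matrix.fromBlocks_transpose, Matrix.fromBlocks_multiply,
    Matrix.mul_assoc, h1, h2]

/-- The model regular unipotent as a group element. -/
noncomputable def spReg (s : ι → F) : Matrix.symplecticGroup ι F := ⟨spRegMat s, spRegMat_mem s⟩

/-- The fixed vector. -/
def regE (k : ℕ) (F : Type*) [Field F] : Fin (k + 2) ⊕ Fin (k + 2) → F :=
  Pi.single (.inl 0) (-1)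

/-- The cyclic vector. -/
def regF (k : ℕ) (F : Type*) [Field F] : Fin (k + 2) ⊕ Fin (k + 2) → F := Pi.single (.inr 0) 1

lemma regF_eq : regF k F = Sum.elim (0 : ι → F) (Pi.single 0 1) := by
  ext (i | i) <;> simp [regF, Pi.single_apply]

lemma regE_eq : regE k F = Sum.elim (Pi.single 0 (-1)) (0 : ι → F) := by
  ext (i | i) <;> simp [regE, Pi.single_apply]

lemma regE_regF : Cfsg.sympForm (k + 2) F (regE k F) (regF k F) = 1 := by
  rw [sympForm_swap, regF, sympForm_single_inr]; simp [regE]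

lemma sympForm_regF (x : ι ⊕ ι → F) : Cfsg.sympForm (k + 2) F (regF k F) x = x (.inl 0) :=
  sympForm_single_inr 0 x

lemma spReg_mulVec (s : ι → F) (X Y : ι → F) :
    (spReg s : Matrix (ι ⊕ ι) (ι ⊕ ι) F) *ᵥ Sum.elim X Y =
      Sum.elim (regA k F *ᵥ (X + Matrix.diagonal s *ᵥ Y)) (((regA k F)⁻¹)ᵀ *ᵥ Y) := by
  show spRegMat s *ᵥ _ = _
  rw [spRegMat, Matrix.fromBlocks_mulVec]
  simp [Matrix.mulVec_add, Matrix.mulVec_mulVec]

lemma regA_mulVec_zero (X : ι → F) : (regA k F *ᵥ X) 0 = X 0 + X 1 := by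
  simp only [Matrix.mulVec, dotProduct, regA, Matrix.of_apply]
  rw [Finset.sum_eq_add_of_mem (a := (0 : ι)) (b := 1) (Finset.mem_univ _) (Finset.mem_univ _)
    (by simp)]
  · simp
  · rintro b - ⟨hb0, hb1⟩
    rw [if_neg, zero_mul]
    rintro (rfl | hb)
    · exact hb0 rfl
    · exact hb1 (Fin.ext (by simpa using hb))

lemma spReg_regE (s : ι → F) : (spReg s : Matrix (ι ⊕ ι) (ι ⊕ ι) F) *ᵥ regE k F = regE k F := by
  rw [regE_eq, spReg_mulVec]
  have : regA k F *ᵥ Pi.single (0 : ι) (-1 : F) = Pi.single 0 (-1) := by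
    ext i
    rw [Matrix.mulVec_single]
    simp only [Pi.smul_apply, Matrix.col_apply, regA, Matrix.of_apply, MulOpposite.smul_eq_mul_unop,
      MulOpposite.unop_op, Pi.single_apply, Fin.ext_iff, Fin.val_zero]
    by_cases h : (i : ℕ) = 0
    · simp [h]
    · simp [h, Ne.symm h]
  simp [this]

/-- First coordinates of the orbit of the cyclic vector. -/
def rowNegOne (k : ℕ) (F : Type*) [Field F] : Fin (k + 2) → F := fun i => (-1) ^ (i : ℕ)

/-- Second coordinates of the orbit of the cyclic vector. -/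
def rowNegTwo (k : ℕ) (F : Type*) [Field F] : Fin (k + 2) → F :=
  fun i => ((i : ℕ) + 1) * (-1) ^ (i : ℕ)

lemma regA_inv_single : ((regA k F)⁻¹)ᵀ *ᵥ Pi.single 0 1 = rowNegOne k F := by
  refine inv_transpose_mulVec_eq (funext fun j => ?_)
  rw [vecMul_regA]
  obtain ⟨j, hj⟩ := j
  rcases j with _ | j
  · simp [rowNegOne]
  · simp [rowNegOne, Fin.ext_iff, pow_succ, Pi.single_apply]

lemma regA_inv_rowNegOne : ((regA k F)⁻¹)ᵀ *ᵥ rowNegOne k F = rowNegTwo k F := by
  refine inv_transpose_mulVec_eq (funext fun j => ?_)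
  rw [vecMul_regA]
  obtain ⟨j, hj⟩ := j
  rcases j with _ | j
  · simp [rowNegOne, rowNegTwo]
  · simp [rowNegOne, rowNegTwo, pow_succ]; ring

lemma spReg_orbit_one (s : ι → F) :
    (spReg s : Matrix (ι ⊕ ι) (ι ⊕ ι) F) *ᵥ regF k F = Sum.elim (Pi.single 0 (s 0)) (rowNegOne k F) := by
  rw [regF_eq, spReg_mulVec, regA_inv_single]
  congr 1
  rw [zero_add, Matrix.diagonal_mulVec_single, mul_one]
  ext i
  rw [Matrix.mulVec_single]
  simp only [Pi.smul_apply, Matrix.col_apply, regA, Matrix.of_apply, MulOpposite.smul_eq_mul_unop,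
    MulOpposite.unop_op, Pi.single_apply, Fin.ext_iff, Fin.val_zero]
  by_cases h : (i : ℕ) = 0
  · simp [h]
  · simp [h, Ne.symm h]

lemma spReg_c1 (s : ι → F) :
    Cfsg.sympForm (k + 2) F (regF k F) ((spReg s : Matrix (ι ⊕ ι) (ι ⊕ ι) F) *ᵥ regF k F) = s 0 := by
  rw [sympForm_regF, spReg_orbit_one]; simp

lemma spReg_orbit_two (s : ι → F) :
    (spReg s : Matrix (ι ⊕ ι) (ι ⊕ ι) F) *ᵥ ((spReg s : Matrix (ι ⊕ ι) (ι ⊕ ι) F) *ᵥ regF k F) =
      Sum.elim (regA k F *ᵥ (Pi.single 0 (s 0) + fun i => s i * rowNegOne k F i))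
        (rowNegTwo k F) := by
  rw [spReg_orbit_one, spReg_mulVec, regA_inv_rowNegOne]
  congr 3
  ext i
  exact Matrix.mulVec_diagonal _ _ i

lemma spReg_c2 (s : ι → F) :
    Cfsg.sympForm (k + 2) F (regF k F)
      ((spReg s : Matrix (ι ⊕ ι) (ι ⊕ ι) F) *ᵥ ((spReg s : Matrix (ι ⊕ ι) (ι ⊕ ι) F) *ᵥ regF k F)) = 2 * s 0 - s 1 := by
  rw [sympForm_regF, spReg_orbit_two]
  simp [regA_mulVec_zero, rowNegOne]
  ring

lemma spReg_c3 (s : ι → F) (h : 1 ≤ k) (h2 : s ⟨2, by omega⟩ = 1) :
    Cfsg.sympForm (k + 2) F (regF k F)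
      ((spReg s : Matrix (ι ⊕ ι) (ι ⊕ ι) F) *ᵥ ((spReg s : Matrix (ι ⊕ ι) (ι ⊕ ι) F) *ᵥ
        ((spReg s : Matrix (ι ⊕ ι) (ι ⊕ ι) F) *ᵥ regF k F))) = 3 * s 0 - 4 * s 1 + 1 := by
  rw [sympForm_regF, spReg_orbit_two, spReg_mulVec]
  simp only [Sum.elim_inl]
  rw [regA_mulVec_zero]
  simp only [Pi.add_apply, Matrix.mulVec_diagonal, regA_mulVec_zero]
  have h1 : (regA k F *ᵥ (Pi.single 0 (s 0) + fun i => s i * rowNegOne k F i)) 1 =
      s 1 * rowNegOne k F 1 + s ⟨2, by omega⟩ * rowNegOne k F ⟨2, by omega⟩ := by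
    simp only [Matrix.mulVec, dotProduct, regA, Matrix.of_apply]
    rw [Finset.sum_eq_add_of_mem (a := (1 : ι)) (b := (⟨2, by omega⟩ : ι)) (Finset.mem_univ _)
      (Finset.mem_univ _) (by simp [Fin.ext_iff])]
    · simp [Pi.single_apply, Fin.ext_iff]
    · rintro b - ⟨hb0, hb1⟩
      rw [if_neg, zero_mul]
      rintro (rfl | hb)
      · exact hb0 rfl
      · exact hb1 (Fin.ext (by simpa using hb))
  rw [h1, h2]
  simp [rowNegOne, rowNegTwo]
  ring

lemma fromBlocks_upper_pow {α : Type*} [Fintype α] [DecidableEq α] (N X M : Matrix α α F) (a : ℕ) :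
    Matrix.fromBlocks N X 0 M ^ a =
      Matrix.fromBlocks (N ^ a) (∑ i ∈ Finset.range a, N ^ i * X * M ^ (a - 1 - i)) 0 (M ^ a) := by
  induction a with
  | zero => simp [Matrix.fromBlocks_one]
  | succ a ih =>
    rw [pow_succ, ih, Matrix.fromBlocks_multiply]
    simp only [mul_zero, add_zero, zero_mul, zero_add, ← pow_succ, Finset.sum_range_succ]
    congr 1
    rw [add_comm, Matrix.sum_mul]
    congr 1
    · refine Finset.sum_congr rfl fun i hi => ?_
      rw [Finset.mem_range] at hi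
      rw [mul_assoc, ← pow_succ]
      congr 2
      omega
    · simp

lemma spRegMat_sub_one (s : ι → F) :
    spRegMat s - 1 = Matrix.fromBlocks (shiftN k F) (regA k F * Matrix.diagonal s) 0
      (-(shiftN k F * (regA k F)⁻¹))ᵀ := by
  rw [spRegMat, ← Matrix.fromBlocks_one, sub_eq_add_neg, Matrix.fromBlocks_neg,
    Matrix.fromBlocks_add]
  have h : (regA k F)⁻¹ - 1 = -(shiftN k F * (regA k F)⁻¹) := by
    have hI := Matrix.mul_nonsing_inv _ (isUnit_det_regA (k := k) (F := F))
    have hs : shiftN k F = regA k F - 1 := by rw [regA_eq]; abel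
    rw [hs, sub_mul, hI, one_mul]; abel
  congr 1
  · rw [regA_eq]; abel
  · simp
  · simp
  · rw [← h, Matrix.transpose_sub, Matrix.transpose_one, sub_eq_add_neg]

lemma shift_pow_mul_regA {a : ℕ} (h : k + 1 ≤ a) : shiftN k F ^ a * regA k F = shiftN k F ^ a := by
  rw [regA_eq, mul_add, mul_one, ← pow_succ, shiftN_pow_eq_zero (by omega : k + 2 ≤ a + 1), add_zero]

lemma shift_pow_mul_inv {a : ℕ} (h : k + 1 ≤ a) (b : ℕ) :
    shiftN k F ^ a * ((regA k F)⁻¹) ^ b = shiftN k F ^ a := by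
  induction b with
  | zero => simp
  | succ b ih =>
    rw [pow_succ, ← mul_assoc, ih]
    nth_rewrite 1 [← shift_pow_mul_regA h]
    rw [mul_assoc, Matrix.mul_nonsing_inv _ isUnit_det_regA, mul_one]

lemma shift_comm_inv : Commute (shiftN k F) ((regA k F)⁻¹) := by
  have hc : regA k F * shiftN k F = shiftN k F * regA k F := by
    rw [regA_eq, add_mul, mul_add, one_mul, mul_one]
  have h1 := Matrix.nonsing_inv_mul _ (isUnit_det_regA (k := k) (F := F))
  have h2 := Matrix.mul_nonsing_inv _ (isUnit_det_regA (k := k) (F := F))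
  show shiftN k F * (regA k F)⁻¹ = (regA k F)⁻¹ * shiftN k F
  calc shiftN k F * (regA k F)⁻¹
      = ((regA k F)⁻¹ * regA k F) * (shiftN k F * (regA k F)⁻¹) := by rw [h1, one_mul]
    _ = (regA k F)⁻¹ * (regA k F * shiftN k F) * (regA k F)⁻¹ := by simp only [mul_assoc]
    _ = (regA k F)⁻¹ * shiftN k F * (regA k F * (regA k F)⁻¹) := by rw [hc]; simp only [mul_assoc]
    _ = (regA k F)⁻¹ * shiftN k F := by rw [h2, mul_one]

lemma right_block_pow (a : ℕ) :
    (-(shiftN k F * (regA k F)⁻¹))ᵀ ^ a =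
      ((-1 : F) ^ a • (shiftN k F ^ a * ((regA k F)⁻¹) ^ a))ᵀ := by
  rw [← Matrix.transpose_pow, ← neg_one_smul F (shiftN k F * (regA k F)⁻¹), smul_pow,
    shift_comm_inv.mul_pow]

lemma spReg_pow_full (s : ι → F) : (spRegMat s - 1) ^ (2 * k + 4) = 0 := by
  rw [spRegMat_sub_one, fromBlocks_upper_pow, right_block_pow, shiftN_pow_eq_zero (by omega),
    zero_mul, smul_zero, Matrix.transpose_zero, Finset.sum_eq_zero, Matrix.fromBlocks_zero]
  intro i hi
  rcases Nat.lt_or_ge i (k + 2) with hi' | hi'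
  · rw [right_block_pow, shiftN_pow_eq_zero (a := 2 * k + 4 - 1 - i) (by omega), zero_mul,
      smul_zero, Matrix.transpose_zero, mul_zero]
  · rw [shiftN_pow_eq_zero hi', zero_mul, zero_mul]

lemma spReg_nilpotent (s : ι → F) : IsNilpotent (spRegMat s - 1) :=
  ⟨2 * k + 4, spReg_pow_full s⟩

/-- The leading coefficient `a₀`. -/
def regLead (s : ι → F) : F := (-1) ^ k * s (Fin.last (k + 1))

lemma spReg_top (s : ι → F) :
    (spRegMat s - 1) ^ (2 * k + 3) *ᵥ regF k F = regLead s • regE k F := by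
  rw [spRegMat_sub_one, fromBlocks_upper_pow, Finset.sum_eq_single (k + 1)]
  · rw [regF_eq, Matrix.fromBlocks_mulVec, shiftN_pow_eq_zero (a := 2 * k + 3) (by omega),
      show 2 * k + 3 - 1 - (k + 1) = k + 1 by omega, right_block_pow, right_block_pow,
      shiftN_pow_eq_zero (a := 2 * k + 3) (by omega), shift_pow_mul_inv le_rfl, regE_eq]
    simp only [Sum.elim_inl, Sum.elim_inr, zero_mul, smul_zero, Matrix.transpose_zero,
      Matrix.zero_mulVec, Matrix.mulVec_zero, zero_add, Sum.elim_comp_inl, Sum.elim_comp_inr]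
    rw [← mul_assoc, shift_pow_mul_regA le_rfl]
    ext (i | i)
    · simp only [Sum.elim_inl, Pi.smul_apply, Matrix.transpose_smul, Matrix.mul_smul,
        Matrix.smul_mulVec, smul_eq_mul, Matrix.mulVec_single_one, Matrix.col_apply,
        Pi.single_apply, regLead]
      rw [Matrix.smul_apply, Matrix.mul_apply, Finset.sum_eq_single (Fin.last (k + 1)), smul_eq_mul]
      · simp only [Matrix.mul_diagonal, Matrix.transpose_apply, shiftN_pow, Matrix.of_apply,
          Fin.val_last, Fin.val_zero, zero_add]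
        by_cases hi : i = 0
        · subst hi; simp [pow_succ]
        · have : (i : ℕ) ≠ 0 := fun h => hi (Fin.ext h)
          simp [hi, this]
      · intro b _ hb
        simp only [Matrix.transpose_apply, shiftN_pow, Matrix.of_apply, Fin.val_zero, zero_add]
        rw [if_neg (fun h => hb (Fin.ext (by simpa using h))), mul_zero]
      · simp
    · simp
  · intro i hi hne
    rw [Finset.mem_range] at hi
    rcases Nat.lt_or_ge i (k + 1) with hi' | hi'
    · rw [right_block_pow, shiftN_pow_eq_zero (a := 2 * k + 3 - 1 - i) (by omega), zero_mul,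
        smul_zero, Matrix.transpose_zero, mul_zero]
    · rw [shiftN_pow_eq_zero (a := i) (by omega), zero_mul, zero_mul]
  · intro h; exact absurd (Finset.mem_range.mpr (by omega)) h

lemma regE_ne_zero : regE k F ≠ 0 := by
  simp [regE]

lemma spReg_top_ne_zero {s : ι → F} (hs : s (Fin.last (k + 1)) ≠ 0) :
    (spRegMat s - 1) ^ (2 * k + 3) ≠ 0 := by
  intro h
  have := spReg_top s
  rw [h, Matrix.zero_mulVec] at this
  exact smul_ne_zero (mul_ne_zero (pow_ne_zero _ (by simp)) hs) regE_ne_zero this.symm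

end Model

end Cfsg.Agent.H1
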