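import Cfsg.Agent.H1.SpThreeGen

/-!
Parameter choices for three conjugate regular unipotents generating the symplectic group.
-/

set_option autoImplicit false

namespace Cfsg.Agent.H1

open Matrix Cfsg.Agent.H2

variable {F : Type*} [Field F] {k : ℕ}

local notation "ι" => Fin (k + 2)

/-- The conclusion of the generation theorem. -/
def SpThreeProp (k : ℕ) (F : Type*) [Field F] : Prop :=
  ∃ u g h : Matrix.symplecticGroup (Fin (k + 2)) F,
    IsNilpotent ((u : Matrix (Fin (k + 2) ⊕ Fin (k + 2)) (Fin (k + 2) ⊕ Fin (k + 2)) F) - 1) ∧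
    ((u : Matrix (Fin (k + 2) ⊕ Fin (k + 2)) (Fin (k + 2) ⊕ Fin (k + 2)) F) - 1) ^ (2 * (k + 2) - 1) ≠ 0 ∧
    Subgroup.closure ({u, g * u * g⁻¹, h * u * h⁻¹} : Set (Matrix.symplecticGroup (Fin (k + 2)) F)) = ⊤

/-- Diagonal parameters of the model element. -/
def regParam (k : ℕ) {F : Type*} [Field F] (c b : F) : Fin (k + 2) → F :=
  fun i => if (i : ℕ) = 0 then c else if (i : ℕ) = 1 then b else 1

lemma regParam_zero (c b : F) : regParam k c b 0 = c := by simp [regParam]

lemma regParam_one (c b : F) : regParam k c b 1 = b := by simp [regParam]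

lemma regParam_last (c b : F) (h : 1 ≤ k ∨ b ≠ 0) : regParam k c b (Fin.last (k + 1)) ≠ 0 := by
  rcases Nat.eq_zero_or_pos k with rfl | hk
  · simpa [regParam] using h.resolve_left (by omega)
  · simp [regParam, Nat.pos_iff_ne_zero.mp hk]

/-- Generation from a pair of full points in the plane of `e` and `f`. -/
theorem spThree_of_plane [Finite F] (h3 : ∃ z : F, z ≠ 0 ∧ z ≠ 1) (c m θ : F) (hc : c ≠ 0)
    (hb : 1 ≤ k ∨ 2 * c - c ^ 3 + m ≠ 0)
    (hconj : ∃ g, g * spReg (regParam k c (2 * c - c ^ 3 + m)) * g⁻¹ =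
      transv (regE k F) θ * spReg (regParam k c (2 * c - c ^ 3 + m)))
    (hplane : ∀ H : Subgroup (Matrix.symplecticGroup ι F), transv (regE k F) θ ∈ H →
      transv (regF k F) (θ * c ^ 2) ∈ H → transv (regE k F + m • regF k F) θ ∈ H →
      SpFull H (regE k F) ∧ SpFull H (regF k F)) :
    SpThreeProp k F := by
  set s := regParam k c (2 * c - c ^ 3 + m) with hs
  have hlast : s (Fin.last (k + 1)) ≠ 0 := regParam_last c _ hb
  obtain ⟨g, hg⟩ := hconj
  have hc1 : Cfsg.sympForm (k + 2) F (regF k F)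
      ((spReg s : Matrix (ι ⊕ ι) (ι ⊕ ι) F) *ᵥ regF k F) = c := by
    rw [spReg_c1, hs, regParam_zero]
  have hc2 : Cfsg.sympForm (k + 2) F (regF k F) ((spReg s : Matrix (ι ⊕ ι) (ι ⊕ ι) F) *ᵥ
      ((spReg s : Matrix (ι ⊕ ι) (ι ⊕ ι) F) *ᵥ regF k F)) = c ^ 3 - m := by
    rw [spReg_c2, hs, regParam_zero, regParam_one]; ring
  obtain ⟨g₀, hg₀⟩ := exists_plane_transvs (spReg_regE s) regE_regF hc1 hc2 hc (li_e_f_uf s)
    (li_f_uf_uuf s hlast)
  refine ⟨spReg s, g, g₀, spReg_nilpotent s, ?_, ?_⟩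
  · rw [show 2 * (k + 2) - 1 = 2 * k + 3 by omega]
    exact spReg_top_ne_zero hlast
  set H := Subgroup.closure ({spReg s, g * spReg s * g⁻¹, g₀ * spReg s * g₀⁻¹} :
    Set (Matrix.symplecticGroup ι F)) with hH
  have hu : spReg s ∈ H := Subgroup.subset_closure (by simp)
  have hv : g₀ * spReg s * g₀⁻¹ ∈ H := Subgroup.subset_closure (by simp)
  have he : transv (regE k F) θ ∈ H := by
    have h : g * spReg s * g⁻¹ ∈ H := Subgroup.subset_closure (by simp)
    have := mul_mem h (inv_mem hu)
    rwa [hg, mul_inv_cancel_right] at this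
  obtain ⟨hf, hR⟩ := hg₀ H θ hu hv he
  rw [show c ^ 3 - (c ^ 3 - m) = m by ring] at hR
  obtain ⟨fe, ff⟩ := hplane H he hf hR
  have hef := regE_regF (k := k) (F := F)
  refine sp_eq_top_of_full hu (spReg_regE s) hef (cyclic_top s hlast)
    (Submodule.span F {regE k F, regF k F}) ?_ (Submodule.subset_span (by simp))
    (Submodule.subset_span (by simp)) ?_
  · intro x hx
    obtain ⟨a, b, rfl⟩ := Submodule.mem_span_pair.mp hx
    exact fe.pair ff (by rw [hef]; exact one_ne_zero) a b
  · rintro S hle hS q hq ⟨r, hr, hqr⟩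
    exact spFull_extend h3 S hS (hle (Submodule.subset_span (by simp)))
      (hle (Submodule.subset_span (by simp))) hef hq hr hqr

lemma spFull_other_left {m : ℕ} {H : Subgroup (Matrix.symplecticGroup (Fin m) F)}
    {e f : Fin m ⊕ Fin m → F} {θ : F} (hef : Cfsg.sympForm m F e f = 1) (hθ : θ ≠ 0)
    (he : transv e θ ∈ H) (hf : SpFull H f) : SpFull H e := by
  have h1 := hf.conj he
  rw [coe_transv, sympTransvection_mulVec, sympForm_swap e f, hef] at h1
  have := hf.pair h1 (by rw [sf_add_right, sympForm_self, sf_smul_right, sympForm_swap e f, hef]; simpa using hθ)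
    θ⁻¹ (-θ⁻¹)
  have e' : θ⁻¹ • f + -θ⁻¹ • (f + (θ * -1) • e) = e := by
    match_scalars <;> field_simp <;> ring
  rwa [e'] at this

lemma spFull_other_right {m : ℕ} {H : Subgroup (Matrix.symplecticGroup (Fin m) F)}
    {e f : Fin m ⊕ Fin m → F} {θ : F} (hef : Cfsg.sympForm m F e f = 1) (hθ : θ ≠ 0)
    (hf : transv f θ ∈ H) (he : SpFull H e) : SpFull H f := by
  have h1 := he.conj hf
  rw [coe_transv, sympTransvection_mulVec, hef] at h1
  have := he.pair h1 (by rw [sf_add_right, sympForm_self, sf_smul_right, hef]; simpa using hθ)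
    (-θ⁻¹) θ⁻¹
  have e' : -θ⁻¹ • e + θ⁻¹ • (e + (θ * 1) • f) = f := by
    match_scalars <;> field_simp <;> ring
  rwa [e'] at this

variable [Fintype F]

lemma exists_sign {c m : F} (h2 : (2 : F) ≠ 0) (hc : c ≠ 0) (hm : m ≠ 0) :
    ∃ c' : F, c' ≠ 0 ∧ c' ^ 2 = c ^ 2 ∧ 2 * c' - c' ^ 3 + m ≠ 0 := by
  by_cases h : 2 * c - c ^ 3 + m = 0
  · refine ⟨-c, neg_ne_zero.mpr hc, by ring, fun h' => ?_⟩
    exact mul_ne_zero h2 hm (by linear_combination h + h')
  · exact ⟨c, hc, rfl, h⟩

lemma exists_three (hq : 3 ≤ Fintype.card F) : ∃ z : F, z ≠ 0 ∧ z ≠ 1 := by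
  classical
  obtain ⟨z, hz⟩ : ((Finset.univ : Finset F) \ {0, 1}).Nonempty := by
    rw [← Finset.card_pos, Finset.card_sdiff, Finset.card_univ]
    have : (({0, 1} : Finset F) ∩ Finset.univ).card ≤ 2 := by
      rw [Finset.inter_univ]; exact Finset.card_le_two
    omega
  exact ⟨z, by simpa using hz⟩

/-- Odd prime fields. -/
lemma spThree_prime (hp : (Fintype.card F).Prime) (hq : 3 ≤ Fintype.card F) :
    SpThreeProp k F := by
  have h2 : (2 : F) ≠ 0 := by
    intro h
    have : (((2 : ℕ) : F)) = 0 := by exact_mod_cast h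
    obtain ⟨p, hpc⟩ := CharP.exists F
    obtain ⟨n, hprime, hcard⟩ := FiniteField.card F p
    have hpd := (CharP.cast_eq_zero_iff F p 2).mp this
    have hp2 : p = 2 := (Nat.prime_dvd_prime_iff_eq hprime Nat.prime_two).mp hpd
    rw [hcard, hp2] at hp hq
    have : (n : ℕ) = 1 := Nat.Prime.pow_eq_iff hp |>.mp rfl |>.2
    rw [this] at hq
    omega
  obtain ⟨c, hc, hcc, hb⟩ := exists_sign (c := (1 : F)) (m := 1) h2 one_ne_zero one_ne_zero
  refine spThree_of_plane (exists_three hq) c 1 1 hc (Or.inr hb)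
    (spReg_conj_odd h2 _ (regParam_last _ _ (Or.inr hb)) 1) fun H he hf _ => ?_
  have hp' : (Nat.card F).Prime := by rwa [Nat.card_eq_fintype_card]
  exact ⟨spFull_iff.mpr (addSubgroup_top_of_prime_card hp' _ (a := (1 : F)) he one_ne_zero),
    spFull_iff.mpr (addSubgroup_top_of_prime_card hp' _ hf (by simp [hc]))⟩

/-- The field with four elements. -/
lemma spThree_four (hq : Fintype.card F = 4) : SpThreeProp k F := by
  obtain ⟨p, hpc⟩ := CharP.exists F
  obtain ⟨n, hprime, hcard⟩ := FiniteField.card F p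
  have hp2 : p = 2 := by
    have : p ∣ 2 ^ 2 := by rw [show (2 : ℕ) ^ 2 = p ^ (n : ℕ) by omega]; exact dvd_pow_self p n.pos.ne'
    exact (Nat.prime_dvd_prime_iff_eq hprime Nat.prime_two).mp (hprime.dvd_of_dvd_pow this)
  subst hp2
  have h2 : (2 : F) = 0 := by exact_mod_cast CharP.cast_eq_zero F 2
  obtain ⟨w, hw0, hw1⟩ := exists_three (F := F) (by omega)
  have hw : w ^ 2 + w + 1 = 0 := by
    have h4 : w ^ 4 = w := by rw [← hq]; exact FiniteField.pow_card w
    have : (w * (w - 1)) * (w ^ 2 + w + 1) = 0 := by linear_combination h4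
    exact (mul_eq_zero.mp this).resolve_left (mul_ne_zero hw0 (sub_ne_zero.mpr hw1))
  have hb : 2 * w ^ 2 - (w ^ 2) ^ 3 + w = w ^ 2 := by
    linear_combination (-(w ^ 4) + w ^ 3 - w + 2) * hw - h2
  have hw2 : w ^ 2 ≠ 0 := pow_ne_zero _ hw0
  refine spThree_of_plane (exists_three (by omega)) (w ^ 2) w (w ^ 2) hw2
    (Or.inr (by rw [hb]; exact hw2)) ?_
    fun H he hf hR => ?_
  · rw [hb]
    rcases Nat.eq_zero_or_pos k with rfl | hk
    · exact spReg_conj_two _ (by rw [regParam_one]; exact hw2) w _ hw0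
        (by rw [regParam_one]; linear_combination (-(w ^ 2)) * hw + (w ^ 2) * h2)
    · exact spReg_conj_large hk _ (regParam_last _ _ (Or.inl hk)) hw2
  have hef := regE_regF (k := k) (F := F)
  have h6 : w ^ 2 * (w ^ 2) ^ 2 = 1 := by linear_combination (w ^ 4 - w ^ 3 + w - 1) * hw
  rw [h6] at hf
  have h := mul_mem (mul_mem he hR) (inv_mem he)
  rw [conj_transv, coe_transv, sympTransvection_mulVec, sf_add_left, sympForm_self, sf_smul_left,
    sympForm_swap (regE k F) (regF k F), hef] at h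
  have e' : regE k F + w • regF k F + (w ^ 2 * (0 + w * -1)) • regE k F = w • regF k F := by
    match_scalars
    · linear_combination (-(w - 1)) * hw
    · ring
  rw [e', transv_smul] at h
  have hff : SpFull H (regF k F) := spFull_iff.mpr
    (addSubgroup_top_of_card_sq Nat.prime_two (by rw [Nat.card_eq_fintype_card, hq]; norm_num) _
      (a := (1 : F)) hf one_ne_zero h (by exact_mod_cast CharP.cast_eq_zero F 2) (by
        intro i hi
        have h4 : w * w * w ^ 2 = w := by linear_combination (w ^ 2 - w) * hw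
        interval_cases i <;> simp [h4, hw0, hw1]))
  exact ⟨spFull_other_left hef hw2 he hff, hff⟩

/-- The field with nine elements. -/
lemma spThree_nine (hq : Fintype.card F = 9) : SpThreeProp k F := by
  obtain ⟨p, hpc⟩ := CharP.exists F
  obtain ⟨n, hprime, hcard⟩ := FiniteField.card F p
  have hp3 : p = 3 := by
    have : p ∣ 3 ^ 2 := by rw [show (3 : ℕ) ^ 2 = p ^ (n : ℕ) by omega]; exact dvd_pow_self p n.pos.ne'
    exact (Nat.prime_dvd_prime_iff_eq hprime Nat.prime_three).mp (hprime.dvd_of_dvd_pow this)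
  subst hp3
  have h3 : (3 : F) = 0 := by exact_mod_cast CharP.cast_eq_zero F 3
  have h2 : (2 : F) ≠ 0 := by
    intro h; exact one_ne_zero (show (1 : F) = 0 by linear_combination h3 - h)
  obtain ⟨η, hη⟩ := IsCyclic.exists_ofOrder_eq_natCard (α := Fˣ)
  have hη8 : orderOf η = 8 := by
    classical
    rw [hη, Nat.card_eq_fintype_card, Fintype.card_units, hq]
  set c : F := (η : F) with hcdef
  have hc0 : c ≠ 0 := η.ne_zero
  have hc4 : c ^ 4 = -1 := by
    have h8 : c ^ 8 = 1 := by
      have := congrArg Units.val (pow_orderOf_eq_one η)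
      rwa [hη8, Units.val_pow_eq_pow_val] at this
    have hne : c ^ 4 ≠ 1 := by
      intro h
      have : η ^ 4 = 1 := Units.ext (by rwa [Units.val_pow_eq_pow_val])
      have := orderOf_dvd_of_pow_eq_one this
      rw [hη8] at this
      norm_num at this
    have : (c ^ 4 - 1) * (c ^ 4 + 1) = 0 := by linear_combination h8
    exact eq_neg_of_add_eq_zero_left ((mul_eq_zero.mp this).resolve_left (sub_ne_zero.mpr hne))
  set i : F := c ^ 2 with hi
  have hii : i * i = -1 := by rw [hi]; linear_combination hc4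
  have hi1 : 1 - i ≠ 0 := by
    intro h
    have : i = 1 := by linear_combination -h
    rw [this] at hii
    exact h2 (by linear_combination hii)
  set m : F := -i / (1 - i) with hm
  have hm0 : m ≠ 0 := div_ne_zero (neg_ne_zero.mpr (pow_ne_zero _ hc0)) hi1
  obtain ⟨c', hc', hcc, hb⟩ := exists_sign h2 hc0 hm0
  refine spThree_of_plane (exists_three (by omega)) c' m 1 hc' (Or.inr hb)
    (spReg_conj_odd h2 _ (regParam_last _ _ (Or.inr hb)) 1) fun H he hf hR => ?_
  rw [hcc, ← hi, one_mul] at hf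
  have hef := regE_regF (k := k) (F := F)
  have h := mul_mem (mul_mem he hR) (inv_mem he)
  rw [conj_transv, coe_transv, sympTransvection_mulVec, sf_add_left, sympForm_self, sf_smul_left,
    sympForm_swap (regE k F) (regF k F), hef] at h
  have h' := mul_mem (mul_mem hf h) (inv_mem hf)
  rw [conj_transv, coe_transv, sympTransvection_mulVec, sf_add_left, sf_add_left, sf_smul_left,
    sf_smul_left, sympForm_self, hef] at h'
  have hm' : m * (1 - i) = -i := div_mul_cancel₀ _ hi1
  have e' : regE k F + m • regF k F + (1 * (0 + m * -1)) • regE k F +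
      (i * (1 + m * 0 + 1 * (0 + m * -1) * 1)) • regF k F = (1 - m) • regE k F := by
    match_scalars
    · ring
    · linear_combination hm'
  rw [e', transv_smul] at h'
  have hv : (1 - m) * (1 - m) * 1 = -i := by
    have hq' : (1 - m) * (1 - i) = 1 := by linear_combination -hm'
    have : (1 - m) * (1 - m) * (-(2 * i)) = 1 := by
      linear_combination ((1 - m) * (1 - i) + 1) * hq' - (1 - m) * (1 - m) * hii
    linear_combination -i * this - 2 * (1 - m) * (1 - m) * hii + (1 - m) * (1 - m) * h3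
  rw [hv] at h'
  have hfe : SpFull H (regE k F) := spFull_iff.mpr
    (addSubgroup_top_of_card_sq Nat.prime_three (by rw [Nat.card_eq_fintype_card, hq]; norm_num) _
      (a := (1 : F)) he one_ne_zero h' (by exact_mod_cast CharP.cast_eq_zero F 3) (by
        intro j hj hji
        rw [nsmul_one] at hji
        interval_cases j
        · simp at hji; rw [hji] at hii; simp at hii
        · simp at hji
          exact h2 (by linear_combination hii + (i - 1) * hji)
        · simp at hji
          exact h2 (by linear_combination hii + (i - 2) * hji - h3)))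
  exact ⟨hfe, spFull_other_right hef (pow_ne_zero _ hc0) hf hfe⟩

/-- Generation through a torus element, given the parameters. -/
lemma spThree_torus (hq : 3 ≤ Fintype.card F) (θ c ζ m : F) (hθ : θ ≠ 0) (hc : c ≠ 0) (hζ : ζ ≠ 0)
    (hζ1 : ζ ≠ 1) (hb : 1 ≤ k ∨ 2 * c - c ^ 3 + m ≠ 0)
    (hconj : ∃ g, g * spReg (regParam k c (2 * c - c ^ 3 + m)) * g⁻¹ =
      transv (regE k F) θ * spReg (regParam k c (2 * c - c ^ 3 + m)))
    (h1 : θ ^ 2 * c ^ 2 * ζ = (ζ - 1) ^ 2) (h2 : θ * m * ζ = 1 - ζ)
    (hgen : ∀ K : Subfield F, ζ ^ 2 ∈ K → K = ⊤) : SpThreeProp k F := by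
  refine spThree_of_plane (exists_three hq) c m θ hc hb hconj fun H he hf hR => ?_
  have hm : m ≠ 0 := by
    intro h; rw [h] at h2; exact hζ1 (by linear_combination h2)
  exact spFull_plane_of_point regE_regF hθ hm he
    (spFull_torus regE_regF hζ hθ h1 h2 hgen he hf hR)

lemma subfield_card (K : Subfield F) (hK : K ≠ ⊤) :
    ∃ d : ℕ, 2 ≤ d ∧ Nat.card K ^ d = Fintype.card F := by
  have hcard : Nat.card F = Nat.card K ^ Module.finrank K F := Module.natCard_eq_pow_finrank
  refine ⟨Module.finrank K F, ?_, by rw [← hcard, Nat.card_eq_fintype_card]⟩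
  have hpos : 0 < Module.finrank K F := Module.finrank_pos
  by_contra h
  have h1 : Module.finrank K F = 1 := by omega
  rw [h1, pow_one] at hcard
  refine hK (SetLike.ext' (Set.eq_univ_iff_forall.mpr fun x => ?_))
  have hbij : Function.Bijective (fun y : K => (y : F)) :=
    (Nat.bijective_iff_injective_and_card _).mpr ⟨Subtype.val_injective, hcard.symm⟩
  obtain ⟨y, rfl⟩ := hbij.2 x
  exact y.2

lemma pow_card_subfield (K : Subfield F) {x : F} (hx : x ∈ K) : x ^ Nat.card K = x := by
  classical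
  have h := FiniteField.pow_card (⟨x, hx⟩ : K)
  rw [← Nat.card_eq_fintype_card] at h
  exact congrArg Subtype.val h

/-- The generic case. -/
lemma spThree_general (h4 : Fintype.card F ≠ 4) (h9 : Fintype.card F ≠ 9)
    (hp : ¬ (Fintype.card F).Prime) (hk : 1 ≤ k ∨ (2 : F) ≠ 0) : SpThreeProp k F := by
  classical
  have hq : 5 ≤ Fintype.card F := by
    have := Fintype.one_lt_card (α := F)
    by_contra h
    interval_cases hh : Fintype.card F <;> simp_all (config := {decide := true})
  obtain ⟨η, hη⟩ := IsCyclic.exists_ofOrder_eq_natCard (α := Fˣ)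
  rw [Nat.card_eq_fintype_card, Fintype.card_units] at hη
  have he0 : (η : F) ≠ 0 := η.ne_zero
  have hne : ∀ a : ℕ, 0 < a → a < Fintype.card F - 1 → (η : F) ^ a ≠ 1 := by
    intro a ha0 ha h
    have : η ^ a = 1 := Units.ext (by rwa [Units.val_pow_eq_pow_val])
    exact absurd (Nat.le_of_dvd ha0 (orderOf_dvd_of_pow_eq_one this)) (by omega)
  set ζ : F := (η : F) ^ 2 with hζdef
  have hζ : ζ ≠ 0 := pow_ne_zero _ he0
  have hζ1 : ζ ≠ 1 := hne 2 (by omega) (by omega)
  have hgen : ∀ K : Subfield F, ζ ^ 2 ∈ K → K = ⊤ := by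
    intro K hK
    by_contra hne'
    obtain ⟨d, hd, hdc⟩ := subfield_card K hne'
    have hr := pow_card_subfield K hK
    rw [hζdef, ← pow_mul, ← pow_mul] at hr
    have hr1 : 1 < Nat.card K := Finite.one_lt_card
    generalize hrr : Nat.card K = r at hr hr1 hdc
    have h1 : (η : F) ^ (4 * (r - 1)) = 1 := by
      apply mul_left_cancel₀ (pow_ne_zero 4 he0)
      rw [mul_one, ← pow_add]
      have : 4 + 4 * (r - 1) = 4 * r := by omega
      rw [this, show 4 * r = 2 * (2 * r) by ring, hr]; ring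
    have h2 : η ^ (4 * (r - 1)) = 1 := Units.ext (by rwa [Units.val_pow_eq_pow_val])
    have hdiv := Nat.le_of_dvd (by omega) (orderOf_dvd_of_pow_eq_one h2)
    rw [hη] at hdiv
    have hrd : r ^ 2 ≤ Fintype.card F := hdc ▸ Nat.pow_le_pow_right (by omega) hd
    have hr3 : r ≤ 3 := by
      have h5 : Fintype.card F + 3 ≤ 4 * r := by omega
      by_contra hc
      have : 4 * r ≤ r * r := Nat.mul_le_mul_right r (by omega)
      rw [pow_two] at hrd
      omega
    have hd4 : d < 4 := by
      by_contra hd4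
      have : r ^ 4 ≤ r ^ d := Nat.pow_le_pow_right (by omega) (by omega)
      interval_cases r <;> omega
    interval_cases r <;> interval_cases d <;> omega
  set c₀ : F := (η : F) - (η : F)⁻¹ with hc₀
  have hc0 : c₀ ≠ 0 := by
    rw [hc₀]
    intro h
    apply hζ1
    rw [hζdef]
    have := sub_eq_zero.mp h
    field_simp at this
    linear_combination this
  have hm0 : ζ⁻¹ - 1 ≠ 0 := by rw [sub_ne_zero]; simpa using hζ1
  have h1 : ∀ c : F, c ^ 2 = c₀ ^ 2 → (1 : F) ^ 2 * c ^ 2 * ζ = (ζ - 1) ^ 2 := by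
    intro c hc; rw [hc, hc₀, hζdef]; field_simp
  have h2 : (1 : F) * (ζ⁻¹ - 1) * ζ = 1 - ζ := by field_simp
  rcases hk with hk | hk
  · exact spThree_torus (by omega) 1 c₀ ζ _ one_ne_zero hc0 hζ hζ1 (Or.inl hk)
      (spReg_conj_large hk _ (regParam_last _ _ (Or.inl hk)) one_ne_zero) (h1 _ rfl) h2 hgen
  · obtain ⟨c, hc, hcc, hb⟩ := exists_sign hk hc0 hm0
    exact spThree_torus (by omega) 1 c ζ _ one_ne_zero hc hζ hζ1 (Or.inr hb)
      (spReg_conj_odd hk _ (regParam_last _ _ (Or.inr hb)) 1) (h1 _ hcc) h2 hgen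

/-- Rank two in characteristic two, at least eight elements. -/
lemma spThree_rank_two (h2 : (2 : F) = 0) (hq : 8 ≤ Fintype.card F) : SpThreeProp 0 F := by
  classical
  obtain ⟨p, hpc⟩ := CharP.exists F
  obtain ⟨n, hprime, hcard⟩ := FiniteField.card F p
  have hp2 : p = 2 := (Nat.prime_dvd_prime_iff_eq hprime Nat.prime_two).mp
    ((CharP.cast_eq_zero_iff F p 2).mp (by exact_mod_cast h2))
  subst hp2
  haveI := Fact.mk Nat.prime_two
  set e : ℕ := (n : ℕ) with he
  have he3 : 3 ≤ e := by
    by_contra h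
    have : Fintype.card F ≤ 2 ^ 2 := hcard ▸ Nat.pow_le_pow_right (by norm_num) (by omega)
    omega
  -- elements of proper subfields
  let U : Finset F := (Finset.Icc 1 (e / 2)).biUnion fun i =>
    Finset.univ.filter fun x : F => x ^ 2 ^ i = x
  let T : Finset F := Finset.univ.image fun j : F => j ^ 2 + j + 1
  have hU : U.card < 2 ^ (e / 2 + 1) := by
    refine lt_of_le_of_lt Finset.card_biUnion_le (lt_of_le_of_lt (Finset.sum_le_sum fun i hi => ?_)
      (show ∑ i ∈ Finset.Icc 1 (e / 2), 2 ^ i < 2 ^ (e / 2 + 1) from ?_))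
    · have hi1 : 1 ≤ i := (Finset.mem_Icc.mp hi).1
      have hlt : 1 < 2 ^ i := Nat.one_lt_two_pow (by omega)
      have hsub : (Finset.univ.filter fun x : F => x ^ 2 ^ i = x) ⊆
          (Polynomial.X ^ 2 ^ i - Polynomial.X : Polynomial F).roots.toFinset := by
        intro x hx
        rw [Finset.mem_filter] at hx
        rw [Multiset.mem_toFinset, Polynomial.mem_roots
          (FiniteField.X_pow_card_sub_X_ne_zero F hlt)]
        simp [hx.2]
      refine (Finset.card_le_card hsub).trans (((Polynomial.roots _).toFinset_card_le).trans ?_)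
      refine (Polynomial.card_roots' _).trans ?_
      rw [FiniteField.X_pow_card_sub_X_natDegree_eq F hlt]
    · have := Nat.geomSum_lt (le_refl 2) (s := Finset.Icc 1 (e / 2)) (n := e / 2 + 1)
        (fun i hi => by rw [Finset.mem_Icc] at hi; omega)
      exact this
  have hT : 2 ^ (e - 1) ≤ T.card := by
    have h := Finset.card_le_mul_card_image (f := fun j : F => j ^ 2 + j + 1) Finset.univ 2
      (fun b hb => by
        obtain ⟨a, -, rfl⟩ := Finset.mem_image.mp hb
        refine le_trans (Finset.card_le_card (t := {a, a + 1}) ?_) Finset.card_le_two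
        intro x hx
        rw [Finset.mem_filter] at hx
        have h0 : (x - a) * (x - (a + 1)) = 0 := by linear_combination hx.2 - (x + a * x - a * a - a) * h2 + (0:F) * h2
        rcases mul_eq_zero.mp h0 with h | h <;> simp [sub_eq_zero.mp h])
    rw [Finset.card_univ, hcard] at h
    have : 2 ^ e = 2 ^ (e - 1) * 2 := by rw [← pow_succ]; congr 1; omega
    show 2 ^ (e - 1) ≤ (Finset.univ.image fun j : F => j ^ 2 + j + 1).card
    omega
  have hUT : ¬ T ⊆ U := by
    intro h
    have := Finset.card_le_card h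
    have : 2 ^ (e / 2 + 1) ≤ 2 ^ (e - 1) := Nat.pow_le_pow_right (by norm_num) (by omega)
    omega
  obtain ⟨η, hηT, hηU⟩ := Finset.not_subset.mp hUT
  obtain ⟨j, -, hj⟩ := Finset.mem_image.mp hηT
  have hprop : ∀ i, 1 ≤ i → i ≤ e / 2 → η ^ 2 ^ i ≠ η := by
    intro i hi1 hi2 h
    exact hηU (Finset.mem_biUnion.mpr ⟨i, Finset.mem_Icc.mpr ⟨hi1, hi2⟩, by simp [h]⟩)
  have hη0 : η ≠ 0 := by
    rintro rfl; exact hprop 1 le_rfl (by omega) (by simp)
  have hη1 : η ≠ 1 := by
    rintro rfl; exact hprop 1 le_rfl (by omega) (by simp)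
  have hj0 : j ≠ 0 := by
    rintro rfl; exact hη1 (by rw [← hj]; ring)
  have hη1' : η + 1 ≠ 0 := fun h => hη1 (by linear_combination h - h2)
  set σ := η + η⁻¹ with hσ
  have hσ' : σ * η = (η + 1) ^ 2 := by
    rw [hσ, add_mul, inv_mul_cancel₀ hη0]; linear_combination (-η) * h2
  have hσ0 : σ ≠ 0 := by
    intro h; rw [h, zero_mul] at hσ'; exact pow_ne_zero 2 hη1' hσ'.symm
  set t := η ^ 2 + η with ht
  have ht0 : t ≠ 0 := by
    rw [ht, show η ^ 2 + η = η * (η + 1) by ring]; exact mul_ne_zero hη0 hη1'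
  obtain ⟨θ, hθ⟩ : ∃ θ : F, θ ^ 2 = σ * t * j / η := by
    have hbij : Function.Bijective (fun x : F => x ^ 2) := Finite.injective_iff_bijective.mp
      fun a b (h : a ^ 2 = b ^ 2) => by
        have : (a - b) ^ 2 = 0 := by linear_combination h + (b ^ 2 - a * b) * h2
        exact sub_eq_zero.mp (pow_eq_zero_iff two_ne_zero |>.mp this)
    exact hbij.2 _
  have hθ0 : θ ≠ 0 := by
    intro h; rw [h, zero_pow two_ne_zero] at hθ
    exact div_ne_zero (mul_ne_zero (mul_ne_zero hσ0 ht0) hj0) hη0 hθ.symm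
  set c := σ / θ with hcdef
  set m := σ / (η * θ) with hmdef
  have hC : θ = t * (c ^ 3 + m) := by
    have key : θ ^ 4 * η = t * σ * (σ ^ 2 * η + θ ^ 2) := by
      have hX : θ ^ 2 * η = σ * t * j := by rw [hθ, div_mul_cancel₀ _ hη0]
      apply mul_left_cancel₀ hη0
      linear_combination (θ ^ 2 * η + σ * t * j - t * σ) * hX + t * σ ^ 2 * t * hj
        - t * σ ^ 2 * η * hσ' - t * σ ^ 2 * (t * j + η * (η + 1)) * h2 + t * σ ^ 2 * (η - 1) * ht
    rw [hcdef, hmdef]
    field_simp
    linear_combination key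
  have hb : 2 * c - c ^ 3 + m = c ^ 3 + m := by linear_combination (c - c ^ 3) * h2
  have hC0 : c ^ 3 + m ≠ 0 := by
    intro h; rw [h, mul_zero] at hC; exact hθ0 hC
  refine spThree_torus (k := 0) (by omega) θ c (η ^ 2) m hθ0 (div_ne_zero hσ0 hθ0) (pow_ne_zero _ hη0)
    ?_ (Or.inr (hb ▸ hC0)) ?_ ?_ ?_ ?_
  · intro h
    have : (η + 1) ^ 2 = 0 := by linear_combination h + (η + 1) * h2
    exact pow_ne_zero 2 hη1' this
  · rw [hb]
    exact spReg_conj_two _ (by rw [regParam_one]; exact hC0) η θ hη0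
      (by rw [regParam_one, hC, ht]; ring)
  · rw [hcdef, div_pow, hσ]
    field_simp
    linear_combination (2 * η ^ 2) * h2
  · rw [hmdef]
    field_simp
    rw [hσ]; field_simp
    linear_combination (η ^ 2) * h2
  · intro K hK
    by_contra hne
    obtain ⟨d, hd, hdc⟩ := subfield_card K hne
    have hr := pow_card_subfield K hK
    obtain ⟨i, hi, hri⟩ := (Nat.dvd_prime_pow Nat.prime_two).mp
      (hcard ▸ hdc ▸ dvd_pow_self (Nat.card K) (by omega) : Nat.card K ∣ 2 ^ e)
    have hK1 : 1 < Nat.card K := Finite.one_lt_card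
    rw [hri] at hdc hK1 hr
    rw [hcard, ← pow_mul] at hdc
    have hid : i * d = e := Nat.pow_right_injective (le_refl 2) hdc
    have hi1 : 1 ≤ i := by
      rcases i with _ | i
      · simp at hK1
      · omega
    have hinj : Function.Injective (fun x : F => x ^ 4) := by
      intro a b (h : a ^ 4 = b ^ 4)
      have : (a - b) ^ 4 = 0 := by
        linear_combination h + (b ^ 4 - 2 * a ^ 3 * b + 3 * a ^ 2 * b ^ 2 - 2 * a * b ^ 3) * h2
      exact sub_eq_zero.mp (pow_eq_zero_iff (by norm_num) |>.mp this)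
    refine hprop i hi1 (by nlinarith [Nat.div_add_mod e 2, Nat.mod_lt e (show 0 < 2 by norm_num)]) (hinj ?_)
    show (η ^ 2 ^ i) ^ 4 = η ^ 4
    rw [← pow_mul, mul_comm, pow_mul]
    calc (η ^ 4) ^ 2 ^ i = ((η ^ 2) ^ 2) ^ 2 ^ i := by ring_nf
      _ = (η ^ 2) ^ 2 := hr
      _ = η ^ 4 := by ring

/-- The field with two elements. -/
lemma spThree_two (hq : Fintype.card F = 2) (hk : 1 ≤ k) : SpThreeProp k F := by
  classical
  have hF : ∀ z : F, z = 0 ∨ z = 1 := by
    intro z
    by_contra h
    push Not at h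
    have : ({z, 0, 1} : Finset F).card ≤ 2 := by rw [← hq]; exact Finset.card_le_univ _
    simp [h.1, h.2] at this
  have h2 : (2 : F) = 0 := by
    rcases hF (2 : F) with h | h
    · exact h
    · exact absurd (show (1 : F) = 0 by linear_combination h) one_ne_zero
  set s := regParam k (1 : F) 0 with hs
  have hlast : s (Fin.last (k + 1)) ≠ 0 := regParam_last _ _ (Or.inl hk)
  have hA : regLead s = 1 := (hF _).resolve_left (mul_ne_zero (pow_ne_zero _ (by simp)) hlast)
  obtain ⟨g, hg⟩ := spReg_conj_large hk s hlast (one_ne_zero (α := F))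
  set e := regE k F with hedef
  set f := regF k F with hfdef
  set M : Matrix (ι ⊕ ι) (ι ⊕ ι) F :=
    ((spReg s : Matrix.symplecticGroup ι F) : Matrix (ι ⊕ ι) (ι ⊕ ι) F) with hM
  set p := M *ᵥ f with hp
  set r := M *ᵥ p with hr
  set q := M *ᵥ r with hqdef
  have hue : M *ᵥ e = e := spReg_regE s
  have hinv : ∀ x y, Cfsg.sympForm (k + 2) F (M *ᵥ x) (M *ᵥ y) = Cfsg.sympForm (k + 2) F x y :=
    sympForm_mulVec (spReg s)
  have hef : Cfsg.sympForm (k + 2) F e f = 1 := regE_regF
  have hep : Cfsg.sympForm (k + 2) F e p = 1 := by rw [← hue, hp, hinv, hef]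
  have her : Cfsg.sympForm (k + 2) F e r = 1 := by rw [← hue, hr, hinv, hep]
  have heq : Cfsg.sympForm (k + 2) F e q = 1 := by rw [← hue, hqdef, hinv, her]
  have hfp : Cfsg.sympForm (k + 2) F f p = 1 := by
    rw [hp, hfdef, hM, spReg_c1, hs, regParam_zero]
  have hfr : Cfsg.sympForm (k + 2) F f r = 0 := by
    rw [hr, hp, hfdef, hM, spReg_c2, hs, regParam_zero, regParam_one]; linear_combination h2
  have hfq : Cfsg.sympForm (k + 2) F f q = 0 := by
    rw [hqdef, hr, hp, hfdef, hM, spReg_c3 s hk (by rw [hs]; simp [regParam]), hs, regParam_zero,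
      regParam_one]
    linear_combination 2 * h2
  have hpq : Cfsg.sympForm (k + 2) F p q = 0 := by
    rw [hp, hqdef, hinv, hfr]
  have hpr : Cfsg.sympForm (k + 2) F p r = 1 := by rw [hp, hr, hinv, hfp]
  have li1 : LinearIndependent F ![f, p, r] := li_f_uf_uuf s hlast
  have li2 : LinearIndependent F ![e, f, p + q] := by
    rw [Fintype.linearIndependent_iff]
    intro a ha
    set D := spRegMat s - 1 with hD
    have hMD : ∀ x, M *ᵥ x = x + D *ᵥ x := fun x => by
      rw [hD, sub_one_mulVec, hM, spReg_coe]; abel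
    have he' : e = D ^ (2 * k + 3) *ᵥ f := by rw [hD, spReg_top, hA, one_smul]
    have hpq' : p + q = D ^ 2 *ᵥ f + D ^ 3 *ᵥ f := by
      simp only [hqdef, hr, hp, hMD, Matrix.mulVec_add, pow_succ, pow_zero, one_mul,
        ← Matrix.mulVec_mulVec]
      ext i
      simp only [Pi.add_apply]
      linear_combination (f i + 2 * (D *ᵥ f) i + (D *ᵥ (D *ᵥ f)) i) * h2
    simp only [Fin.sum_univ_three, Matrix.cons_val_zero, Matrix.cons_val_one, Matrix.cons_val] at ha
    rw [he', hpq'] at ha
    have e1 : a 1 = 0 := peel s hlast (j := 0) (by omega)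
      (x := a 2 • (D ^ 1 *ᵥ f + D ^ 2 *ᵥ f) + a 0 • (D ^ (2 * k + 2) *ᵥ f)) (by
        rw [pow_zero, Matrix.one_mulVec, ← hD, ← ha]
        simp only [Matrix.mulVec_add, Matrix.mulVec_smul, Matrix.mulVec_mulVec, ← pow_add]
        rw [show 0 + 1 + 1 = 2 by omega, show 0 + 1 + 2 = 3 by omega,
          show 0 + 1 + (2 * k + 2) = 2 * k + 3 by omega]
        module)
    have e2 : a 2 = 0 := peel s hlast (j := 2) (by omega)
      (x := a 2 • f + a 0 • (D ^ (2 * k) *ᵥ f)) (by
        rw [← hD]
        refine Eq.trans ?_ ha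
        simp only [Matrix.mulVec_add, Matrix.mulVec_smul, Matrix.mulVec_mulVec, ← pow_add, e1]
        rw [show 2 + 1 + 2 * k = 2 * k + 3 by omega, show 2 + 1 = 3 by omega]
        module)
    have e0 : a 0 = 0 := by
      rw [e1, e2, ← he'] at ha
      simp at ha
      exact ha.resolve_right regE_ne_zero
    intro i
    fin_cases i <;> assumption
  obtain ⟨g₀, hg₀⟩ := exists_map_tuple ![f, p, r] ![e, f, p + q] li1 li2 (by
    intro i j
    fin_cases i <;> fin_cases j <;>
      simp [sf_add_left, sf_add_right, sympForm_swap f p, sympForm_swap f r, sympForm_swap p r,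
        sympForm_swap e f, sympForm_swap e p, sympForm_swap e q, sympForm_swap f q,
        sympForm_swap p q, hef, hfp, hfr, hpr, hep, heq, hfq, hpq] <;>
      (first
        | linear_combination h2 | linear_combination -h2
        | linear_combination 2 * h2 | linear_combination -2 * h2))
  have g0 : (g₀ : Matrix (ι ⊕ ι) (ι ⊕ ι) F) *ᵥ f = e := by simpa using hg₀ 0
  have g1 : (g₀ : Matrix (ι ⊕ ι) (ι ⊕ ι) F) *ᵥ p = f := by simpa using hg₀ 1
  have g2 : (g₀ : Matrix (ι ⊕ ι) (ι ⊕ ι) F) *ᵥ r = p + q := by simpa using hg₀ 2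
  refine ⟨spReg s, g, g₀, spReg_nilpotent s, ?_, ?_⟩
  · rw [show 2 * (k + 2) - 1 = 2 * k + 3 by omega]
    exact spReg_top_ne_zero hlast
  set H := Subgroup.closure ({spReg s, g * spReg s * g⁻¹, g₀ * spReg s * g₀⁻¹} :
    Set (Matrix.symplecticGroup ι F)) with hH
  have hu : spReg s ∈ H := Subgroup.subset_closure (by simp)
  have hv : g₀ * spReg s * g₀⁻¹ ∈ H := Subgroup.subset_closure (by simp)
  have he : transv e 1 ∈ H := by
    have h : g * spReg s * g⁻¹ ∈ H := Subgroup.subset_closure (by simp)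
    have := mul_mem h (inv_mem hu)
    rwa [hg, mul_inv_cancel_right] at this
  have fe : SpFull H e := fun c => by
    rcases hF c with rfl | rfl
    · rw [transv_zero]; exact one_mem H
    · exact he
  have ff : SpFull H f := by
    have h := fe.conj hv
    rw [conj_mulVec] at h
    nth_rewrite 1 [← g0] at h
    rw [inv_mulVec_self] at h
    rwa [← hM, ← hp, g1] at h
  have fp : SpFull H p := ff.conj hu
  have fr : SpFull H r := fp.conj hu
  have fq : SpFull H q := fr.conj hu
  have fpq : SpFull H (p + q) := by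
    have h := ff.conj hv
    rw [conj_mulVec] at h
    nth_rewrite 1 [← g1] at h
    rw [inv_mulVec_self] at h
    rwa [← hM, ← hr, g2] at h
  have N : ∀ {x y}, SpFull H x → SpFull H y → Cfsg.sympForm (k + 2) F x y = 1 → SpFull H (x + y) :=
    fun hx hy h => hx.add hy (h ▸ one_ne_zero)
  have o : (1 : F) + 1 = 0 := by linear_combination h2
  have hfe : Cfsg.sympForm (k + 2) F f e = 1 := by
    rw [sympForm_swap, hef]; linear_combination -h2
  have hpf : Cfsg.sympForm (k + 2) F p f = 1 := by
    rw [sympForm_swap, hfp]; linear_combination -h2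
  have f_ef := N fe ff hef
  have f_ep := N fe fp hep
  have f_eq := N fe fq heq
  have f_fp := N ff fp hfp
  have f_fq : SpFull H (f + q) := by
    have h := N f_fp fpq (by simp [sf_add_left, sf_add_right, hfp, hfq, hpq])
    convert h using 1
    ext i; simp only [Pi.add_apply]; linear_combination (-p i) * h2
  have f_epq : SpFull H (e + p + q) :=
    N f_ep fq (by simp [sf_add_left, heq, hpq])
  have f_efp : SpFull H (e + f + p) := by
    have h := N f_fq f_epq (by
      simp [sf_add_left, sf_add_right, hfe, hfp, hfq, sympForm_swap e q, sympForm_swap p q, heq, hpq])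
    convert h using 1
    ext i; simp only [Pi.add_apply]; linear_combination (-q i) * h2
  have f_efq : SpFull H (e + f + q) := N f_ef fq (by simp [sf_add_left, heq, hfq])
  have f_fpq : SpFull H (f + p + q) := by
    rw [add_assoc]; exact N ff fpq (by simp [sf_add_right, hfp, hfq])
  have f_efpq : SpFull H (e + f + p + q) := by
    rw [add_assoc (e + f)]
    exact N f_ef fpq (by simp [sf_add_left, sf_add_right, hep, heq, hfp, hfq]; linear_combination h2)
  refine sp_eq_top_of_full hu hue hef (cyclic_top s hlast)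
    (Submodule.span F {e, f, p, q}) ?_ (Submodule.subset_span (by simp))
    (Submodule.subset_span (by simp)) ?_
  · intro x hx
    obtain ⟨a, y, hy, rfl⟩ := Submodule.mem_span_insert.mp hx
    obtain ⟨b, z, hz, rfl⟩ := Submodule.mem_span_insert.mp hy
    obtain ⟨c, d, rfl⟩ := Submodule.mem_span_pair.mp hz
    have zero : SpFull H (0 : ι ⊕ ι → F) := by simpa using fe.smul 0
    rcases hF a with rfl | rfl <;> rcases hF b with rfl | rfl <;> rcases hF c with rfl | rfl <;>
      rcases hF d with rfl | rfl <;> simp [← add_assoc] <;> assumption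
  · rintro S hle hS x hx ⟨w, hw, hxw⟩
    have mem : ∀ v ∈ ({e, f, p, q} : Set (ι ⊕ ι → F)), v ∈ S := fun v hv =>
      hle (Submodule.subset_span hv)
    exact spFull_extend_two hF S hS hx hw hxw (g := p) (h := q) (mem p (by simp)) (mem q (by simp))
      hpq ⟨e, mem e (by simp), by rw [hep]; exact one_ne_zero⟩
      ⟨e, mem e (by simp), by rw [heq]; exact one_ne_zero⟩
      ⟨f, mem f (by simp), by rw [sf_add_right, hfp, hfq, add_zero]; exact one_ne_zero⟩

/-- All cases. -/
theorem spThree_all (h22 : ¬ (k = 0 ∧ Fintype.card F = 2)) : SpThreeProp k F := by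
  by_cases hp : (Fintype.card F).Prime
  · rcases hp.two_le.eq_or_lt with h | h
    · exact spThree_two h.symm (Nat.one_le_iff_ne_zero.mpr fun hk => h22 ⟨hk, h.symm⟩)
    · exact spThree_prime hp h
  by_cases h4 : Fintype.card F = 4
  · exact spThree_four h4
  by_cases h9 : Fintype.card F = 9
  · exact spThree_nine h9
  by_cases hk : 1 ≤ k ∨ (2 : F) ≠ 0
  · exact spThree_general h4 h9 hp hk
  push Not at hk
  obtain rfl : k = 0 := by omega
  refine spThree_rank_two hk.2 ?_
  obtain ⟨p, hpc⟩ := CharP.exists F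
  obtain ⟨n, hprime, hcard⟩ := FiniteField.card F p
  have hp2 : p = 2 := (Nat.prime_dvd_prime_iff_eq hprime Nat.prime_two).mp
    ((CharP.cast_eq_zero_iff F p 2).mp (by exact_mod_cast hk.2))
  subst hp2
  rw [hcard] at hp h4 ⊢
  have : 3 ≤ (n : ℕ) := by
    by_contra h
    have := n.pos
    interval_cases (n : ℕ)
    · exact hp (by norm_num)
    · exact h4 (by norm_num)
  exact le_trans (by norm_num) (Nat.pow_le_pow_right (by norm_num) this)

end Cfsg.Agent.H1
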