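import Cfsg.Agent.H1.SpTransvClosure
import Cfsg.Agent.H1.SpRegular

/-!
Generation of the symplectic group by three conjugate regular unipotent elements.
-/

set_option autoImplicit false

namespace Cfsg.Agent.H1

open Matrix Cfsg.Agent.H2

variable {F : Type*} [Field F]

section Plane

variable {m : ℕ}

local notation "V" => Fin m ⊕ Fin m → F
local notation "Sp" => Matrix.symplecticGroup (Fin m) F
local notation "ω" => Cfsg.sympForm m F
local notation "↟" g:max => ((g : Sp) : Matrix (Fin m ⊕ Fin m) (Fin m ⊕ Fin m) F)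

/-- Scalars of the transvections with centre `p` in `H`. -/
def spScalars (H : Subgroup Sp) (p : V) : AddSubgroup F where
  carrier := {c | transv p c ∈ H}
  add_mem' {a b} ha hb := by
    show transv p (a + b) ∈ H
    rw [← transv_mul]; exact mul_mem ha hb
  zero_mem' := by show transv p 0 ∈ H; rw [transv_zero]; exact one_mem H
  neg_mem' {a} ha := by show transv p (-a) ∈ H; rw [← transv_inv]; exact inv_mem ha

lemma spFull_iff {H : Subgroup Sp} {p : V} : SpFull H p ↔ spScalars H p = ⊤ :=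
  ⟨fun h => eq_top_iff.mpr fun c _ => h c, fun h c => (eq_top_iff.mp h) (AddSubgroup.mem_top c)⟩

lemma inv_mulVec_self (g : Sp) (x : V) : ↟g⁻¹ *ᵥ (↟g *ᵥ x) = x := by
  rw [Matrix.mulVec_mulVec, ← Submonoid.coe_mul, inv_mul_cancel, Submonoid.coe_one,
    Matrix.one_mulVec]

lemma self_mulVec_inv (g : Sp) (x : V) : ↟g *ᵥ (↟g⁻¹ *ᵥ x) = x := by
  rw [Matrix.mulVec_mulVec, ← Submonoid.coe_mul, mul_inv_cancel, Submonoid.coe_one,
    Matrix.one_mulVec]

lemma conj_mulVec (g u : Sp) (x : V) :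
    ↟(g * u * g⁻¹) *ᵥ x = ↟g *ᵥ (↟u *ᵥ (↟g⁻¹ *ᵥ x)) := by
  simp only [Submonoid.coe_mul, Matrix.mulVec_mulVec, mul_assoc]

/-- The two further transvections in the plane of `e` and `f`. -/
theorem exists_plane_transvs {u : Sp} {e f : V} {c c₂ : F} (hue : ↟u *ᵥ e = e) (hef : ω e f = 1)
    (hc1 : ω f (↟u *ᵥ f) = c) (hc2 : ω f (↟u *ᵥ (↟u *ᵥ f)) = c₂) (hc : c ≠ 0)
    (li1 : LinearIndependent F ![e, f, ↟u *ᵥ f])
    (li2 : LinearIndependent F ![f, ↟u *ᵥ f, ↟u *ᵥ (↟u *ᵥ f)]) :
    ∃ g : Sp, ∀ (H : Subgroup Sp) (θ : F), u ∈ H → g * u * g⁻¹ ∈ H → transv e θ ∈ H →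
      transv f (θ * c ^ 2) ∈ H ∧ transv (e + (c ^ 3 - c₂) • f) θ ∈ H := by
  set f' := ↟u⁻¹ *ᵥ f with hf'def
  have huf' : ↟u *ᵥ f' = f := self_mulVec_inv u f
  set μ := c₂ / c ^ 2 - c with hμ
  have heuf : ω e (↟u *ᵥ f) = 1 := by
    have h := sympForm_mulVec u e f
    rwa [hue, hef] at h
  have hff' : ω f f' = -c := by
    rw [← sympForm_mulVec u, huf', sympForm_swap, hc1]
  have huff' : ω (↟u *ᵥ f) f' = -c₂ := by
    rw [← sympForm_mulVec u, huf', sympForm_swap, hc2]
  have huff : ω (↟u *ᵥ f) f = -c := by rw [sympForm_swap, hc1]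
  set y : Fin 3 → V := ![f, c⁻¹ • (↟u *ᵥ f), -c⁻¹ • f' + μ • f] with hy
  have liy : LinearIndependent F y := by
    rw [Fintype.linearIndependent_iff]
    intro a ha
    have h := congrArg (fun x => ↟u *ᵥ x) ha
    simp only [hy, Fin.sum_univ_three, Matrix.mulVec_add, Matrix.mulVec_smul,
      Matrix.mulVec_zero, Matrix.cons_val_zero, Matrix.cons_val_one, Matrix.cons_val,
      huf'] at h
    have h' : (-(a 2 * c⁻¹)) • f + (a 0 + a 2 * μ) • (↟u *ᵥ f) +
        (a 1 * c⁻¹) • (↟u *ᵥ (↟u *ᵥ f)) = 0 := by rw [← h]; module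
    have := Fintype.linearIndependent_iff.mp li2 ![-(a 2 * c⁻¹), a 0 + a 2 * μ, a 1 * c⁻¹]
      (by simpa [Fin.sum_univ_three] using h')
    have h0 := this 0; have h1 := this 1; have h2 := this 2
    simp [hc] at h0 h1 h2
    intro i
    fin_cases i
    · simpa [h0] using h1
    · simpa using h2
    · simpa using h0
  obtain ⟨g, hg⟩ := exists_map_tuple y ![e, f, ↟u *ᵥ f] liy li1 (by
    intro i j
    fin_cases i <;> fin_cases j
    all_goals simp only [hy, Matrix.cons_val_zero, Matrix.cons_val_one, Matrix.cons_val, Fin.isValue,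
        Fin.zero_eta, Fin.mk_one, Fin.reduceFinMk, sf_add_left, sf_add_right, sf_smul_left,
        sf_smul_right, sympForm_self, hc1, huff, hff', huff', hef, heuf,
        sympForm_swap f f', sympForm_swap (↟u *ᵥ f) f', sympForm_swap e f,
        sympForm_swap e (↟u *ᵥ f)]
    all_goals (try simp [hμ])
    all_goals (try field_simp)
    all_goals ring)
  have g0 : ↟g *ᵥ f = e := by simpa [hy] using hg 0
  have g1 : ↟g *ᵥ (c⁻¹ • (↟u *ᵥ f)) = f := by simpa [hy] using hg 1
  have g2 : ↟g *ᵥ (-c⁻¹ • f' + μ • f) = ↟u *ᵥ f := by simpa [hy] using hg 2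
  have g1' : ↟g *ᵥ (↟u *ᵥ f) = c • f := by
    have := congrArg (fun x => c • x) g1
    simpa [Matrix.mulVec_smul, smul_smul, mul_inv_cancel₀ hc] using this
  have ve : ↟(g * u * g⁻¹) *ᵥ e = c • f := by
    rw [conj_mulVec]; nth_rewrite 1 [← g0]; rw [inv_mulVec_self, g1']
  have vuf : ↟(g * u * g⁻¹) *ᵥ (↟u *ᵥ f) = -c⁻¹ • (e + (c ^ 3 - c₂) • f) := by
    rw [conj_mulVec]; nth_rewrite 1 [← g2]
    rw [inv_mulVec_self, Matrix.mulVec_add, Matrix.mulVec_smul, huf', Matrix.mulVec_add,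
      Matrix.mulVec_smul, Matrix.mulVec_smul, Matrix.mulVec_smul, g0, g1', smul_add, smul_smul,
      smul_smul]
    congr 2
    rw [hμ]; field_simp; ring
  refine ⟨g, fun H θ hu hv he => ?_⟩
  have hf : transv f (θ * c ^ 2) ∈ H := by
    have h := mul_mem (mul_mem hv he) (inv_mem hv)
    rw [conj_transv, ve, transv_smul] at h
    convert h using 2; ring
  refine ⟨hf, ?_⟩
  have h := mul_mem (mul_mem hu hf) (inv_mem hu)
  rw [conj_transv] at h
  have h' := mul_mem (mul_mem hv h) (inv_mem hv)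
  rw [conj_transv, vuf, transv_smul] at h'
  convert h' using 2; field_simp

lemma spFull_plane_of_point {H : Subgroup Sp} {e f : V} {θ t : F} (hef : ω e f = 1) (hθ : θ ≠ 0)
    (ht : t ≠ 0) (he : transv e θ ∈ H) (hR : SpFull H (e + t • f)) :
    SpFull H e ∧ SpFull H f := by
  have hRe : ω (e + t • f) e = -t := by
    rw [sf_add_left, sf_smul_left, sympForm_self, sympForm_swap e f, hef]; ring
  have h1 := hR.conj he
  rw [coe_transv, sympTransvection_mulVec, hRe] at h1
  have hp : ω (e + t • f) (e + t • f + (θ * -t) • e) ≠ 0 := by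
    rw [sf_add_right, sympForm_self, sf_smul_right, hRe, zero_add]
    simp [hθ, ht]
  have hd : θ * -t ≠ 0 := by simp [hθ, ht]
  have hfe : SpFull H e := by
    have := hR.pair h1 hp (-(θ * -t)⁻¹) (θ * -t)⁻¹
    have e' : -(θ * -t)⁻¹ • (e + t • f) + (θ * -t)⁻¹ • (e + t • f + (θ * -t) • e) = e := by
      rw [smul_add ((θ * -t)⁻¹) (e + t • f), smul_smul, inv_mul_cancel₀ hd]; module
    rwa [e'] at this
  refine ⟨hfe, ?_⟩
  have := hR.pair hfe (by rw [hRe]; simpa using ht) t⁻¹ (-t⁻¹)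
  have e' : t⁻¹ • (e + t • f) + -t⁻¹ • e = f := by
    rw [smul_add, smul_smul, inv_mul_cancel₀ ht]; module
  rwa [e'] at this

/-- A full root group at an eigenline of a product of two root elements. -/
lemma spFull_torus [Finite F] {H : Subgroup Sp} {e f : V} {θ c ζ t : F} (hef : ω e f = 1)
    (hζ : ζ ≠ 0) (hθ : θ ≠ 0) (hc : θ ^ 2 * c ^ 2 * ζ = (ζ - 1) ^ 2)
    (ht : θ * t * ζ = 1 - ζ)
    (hgen : ∀ K : Subfield F, ζ ^ 2 ∈ K → K = ⊤)
    (he : transv e θ ∈ H) (hf : transv f (θ * c ^ 2) ∈ H) (hR : transv (e + t • f) θ ∈ H) :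
    SpFull H (e + t • f) := by
  set R := e + t • f with hRdef
  have hf' : transv f (-(θ * c ^ 2)) ∈ H := by rw [← transv_inv]; exact inv_mem hf
  set P := transv e θ * transv f (-(θ * c ^ 2)) with hP
  have hPH : P ∈ H := mul_mem he hf'
  have hRf : ω R f = 1 := by rw [hRdef, sf_add_left, sf_smul_left, sympForm_self, hef]; ring
  have hfe : ω f e = -1 := by rw [sympForm_swap, hef]
  have hRe : ω R e = -t := by
    rw [hRdef, sf_add_left, sf_smul_left, sympForm_self, hfe]; ring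
  have hPR : ↟P *ᵥ R = ζ • R := by
    rw [hP, Submonoid.coe_mul, ← Matrix.mulVec_mulVec, coe_transv, coe_transv,
      sympTransvection_mulVec, sympTransvection_mulVec, hRf, sf_add_left, sf_smul_left, hfe, hRe,
      hRdef]
    match_scalars
    · field_simp
      apply mul_right_cancel₀ hζ
      linear_combination hc - ht
    · apply mul_right_cancel₀ (mul_ne_zero hθ hζ)
      linear_combination (1 - ζ) * ht - hc
  have step : ∀ a ∈ spScalars H R, a * ζ ^ 2 ∈ spScalars H R := by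
    intro a ha
    have := mul_mem (mul_mem hPH (show transv R a ∈ H from ha)) (inv_mem hPH)
    rw [conj_transv, hPR, transv_smul] at this
    show transv R (a * ζ ^ 2) ∈ H
    convert this using 2; ring
  let B : Subring F :=
    { carrier := {x | ∀ a ∈ spScalars H R, a * x ∈ spScalars H R}
      one_mem' := fun a ha => by rwa [mul_one]
      mul_mem' := fun {x y} hx hy a ha => by rw [← mul_assoc]; exact hy _ (hx a ha)
      zero_mem' := fun a _ => by rw [mul_zero]; exact zero_mem _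
      add_mem' := fun {x y} hx hy a ha => by rw [mul_add]; exact add_mem (hx a ha) (hy a ha)
      neg_mem' := fun {x} hx a ha => by rw [mul_neg]; exact neg_mem (hx a ha) }
  let K : Subfield F :=
    { B with
      inv_mem' := fun x hx => by
        by_cases hx0 : x = 0
        · subst hx0; rw [_root_.inv_zero]; exact B.zero_mem
        · have hfin : IsOfFinOrder (Units.mk0 x hx0) := isOfFinOrder_of_finite _
          obtain ⟨n, hn⟩ : ∃ n : ℕ, x⁻¹ = x ^ n := by
            refine ⟨orderOf (Units.mk0 x hx0) - 1, ?_⟩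
            have h1 : x ^ orderOf (Units.mk0 x hx0) = 1 := by
              have := congrArg Units.val (pow_orderOf_eq_one (Units.mk0 x hx0))
              rwa [Units.val_pow_eq_pow_val] at this
            refine inv_eq_of_mul_eq_one_right ?_
            rw [← pow_succ', Nat.sub_add_cancel hfin.orderOf_pos, h1]
          rw [hn]
          have hx' : x ∈ B := hx
          exact pow_mem hx' n }
  have hK : K = ⊤ := hgen K (fun a ha => step a ha)
  rw [spFull_iff, eq_top_iff]
  intro b _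
  have hb : b / θ ∈ K := hK ▸ trivial
  simpa [mul_div_cancel₀ b hθ] using hb θ hR

lemma addSubgroup_top_of_prime_card [Finite F] (hp : (Nat.card F).Prime) (A : AddSubgroup F) {a : F}
    (ha : a ∈ A) (ha0 : a ≠ 0) : A = ⊤ := by
  rcases (Nat.dvd_prime hp).mp A.card_addSubgroup_dvd_card with h | h
  · exact absurd ((AddSubgroup.eq_bot_of_card_eq A h) ▸ ha) (by simpa using ha0)
  · exact AddSubgroup.eq_top_of_card_eq A h

lemma addSubgroup_top_of_card_sq [Finite F] {p : ℕ} (hp : p.Prime) (hcard : Nat.card F = p ^ 2)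
    (A : AddSubgroup F) {a b : F} (ha : a ∈ A) (ha0 : a ≠ 0) (hb : b ∈ A)
    (hchar : (p : F) = 0) (hab : ∀ i : ℕ, i < p → b ≠ i • a) : A = ⊤ := by
  have h := hcard ▸ A.card_addSubgroup_dvd_card
  obtain ⟨i, hi, hAi⟩ := (Nat.dvd_prime_pow hp).mp h
  haveI := Fact.mk hp
  have hle : AddSubgroup.zmultiples a ≤ A := AddSubgroup.zmultiples_le_of_mem ha
  have hza : Nat.card (AddSubgroup.zmultiples a) = p := by
    rw [Nat.card_zmultiples]
    refine addOrderOf_eq_prime ?_ ha0
    rw [nsmul_eq_mul, hchar, zero_mul]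
  interval_cases i
  · exact absurd ((AddSubgroup.eq_bot_of_card_eq A (by simpa using hAi)) ▸ ha) (by simpa using ha0)
  · exfalso
    have := AddSubgroup.eq_of_le_of_card_ge hle (by rw [hza, hAi, pow_one])
    rw [← this] at hb
    obtain ⟨z, hz⟩ := AddSubgroup.mem_zmultiples_iff.mp hb
    refine hab (z % p).toNat ?_ ?_
    · have h1 := Int.emod_lt_of_pos z (by exact_mod_cast hp.pos : (0 : ℤ) < p)
      have h2 := Int.emod_nonneg z (by exact_mod_cast hp.ne_zero : (p : ℤ) ≠ 0)
      exact (Int.toNat_lt h2).mpr h1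
    · have hnn : ((z % p).toNat : ℤ) = z % p :=
        Int.toNat_of_nonneg (Int.emod_nonneg _ (by exact_mod_cast hp.ne_zero))
      rw [← hz, zsmul_eq_mul, nsmul_eq_mul, ← Int.cast_natCast ((z % p).toNat), hnn]
      congr 1
      conv_lhs => rw [← Int.emod_add_mul_ediv z p]
      push_cast
      rw [hchar]; ring
  · exact AddSubgroup.eq_top_of_card_eq A (by rw [hAi, hcard])

end Plane

section Regular

variable {k : ℕ}

local notation "ι" => Fin (k + 2)
local notation "𝕍" => Fin (k + 2) ⊕ Fin (k + 2) → F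

/-- The nilpotent part of the model element. -/
local notation "𝔇" s:max => (spRegMat s - 1)

lemma spReg_coe (s : ι → F) :
    ((spReg s : Matrix.symplecticGroup ι F) : Matrix (ι ⊕ ι) (ι ⊕ ι) F) = spRegMat s := rfl

lemma pow_high_mulVec (s : ι → F) {j : ℕ} (hj : 2 * k + 4 ≤ j) (x : 𝕍) :
    𝔇 s ^ j *ᵥ x = 0 := by
  rw [← Nat.sub_add_cancel hj, pow_add, spReg_pow_full, mul_zero, Matrix.zero_mulVec]

lemma peel (s : ι → F) (hs : s (Fin.last (k + 1)) ≠ 0) {j : ℕ} (hj : j ≤ 2 * k + 3) {a : F} {x : 𝕍}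
    (h : a • (𝔇 s ^ j *ᵥ regF k F) + 𝔇 s ^ (j + 1) *ᵥ x = 0) : a = 0 := by
  have h1 := congrArg (fun v => 𝔇 s ^ (2 * k + 3 - j) *ᵥ v) h
  simp only [Matrix.mulVec_add, Matrix.mulVec_smul, Matrix.mulVec_mulVec, ← pow_add,
    Matrix.mulVec_zero] at h1
  rw [show 2 * k + 3 - j + j = 2 * k + 3 by omega, spReg_top, pow_high_mulVec s (by omega),
    add_zero, smul_smul, smul_eq_zero] at h1
  rcases h1 with h1 | h1
  · exact (mul_eq_zero.mp h1).resolve_right
      (mul_ne_zero (pow_ne_zero _ (by simp)) hs)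
  · exact absurd h1 regE_ne_zero

lemma cyclic_top (s : ι → F) (hs : s (Fin.last (k + 1)) ≠ 0) (S : Submodule F 𝕍)
    (hf : regF k F ∈ S) (hinv : ∀ x ∈ S, spRegMat s *ᵥ x ∈ S) : S = ⊤ := by
  let w : Fin (2 * k + 4) → 𝕍 := fun i => 𝔇 s ^ (i : ℕ) *ᵥ regF k F
  have hw : ∀ i, w i ∈ S := by
    suffices ∀ i : ℕ, 𝔇 s ^ i *ᵥ regF k F ∈ S from fun i => this i
    intro i
    induction i with
    | zero => simpa using hf
    | succ i ih =>
      rw [pow_succ', ← Matrix.mulVec_mulVec, sub_one_mulVec]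
      exact S.sub_mem (hinv _ ih) ih
  have li : LinearIndependent F w := by
    rw [Fintype.linearIndependent_iff]
    classical
    intro a ha
    by_contra hne
    push Not at hne
    obtain ⟨i, hi, hmin⟩ := (Finset.univ.filter fun i => a i ≠ 0).exists_min_image
      (fun i : Fin (2 * k + 4) => (i : ℕ)) ⟨hne.choose, by simp [hne.choose_spec]⟩
    rw [Finset.mem_filter] at hi
    apply hi.2
    have ha' := (Finset.add_sum_erase Finset.univ (fun l => a l • w l) (Finset.mem_univ i)).trans ha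
    refine peel s hs (j := i) (by omega)
      (x := ∑ l ∈ Finset.univ.erase i, a l • (𝔇 s ^ ((l : ℕ) - (i + 1)) *ᵥ regF k F)) ?_
    rw [Matrix.mulVec_sum]
    refine Eq.trans ?_ ha'
    congr 1
    refine Finset.sum_congr rfl fun l hl => ?_
    by_cases hal : a l = 0
    · simp [hal]
    · have h1 := hmin l (by simp [hal])
      have h2 : (l : ℕ) ≠ i := fun h => (Finset.mem_erase.mp hl).1 (Fin.ext h)
      rw [Matrix.mulVec_smul, Matrix.mulVec_mulVec, ← pow_add]
      congr 3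
      omega
  apply Submodule.eq_top_of_finrank_eq
  refine le_antisymm (Submodule.finrank_le S) ?_
  have h1 : Module.finrank F (Submodule.span F (Set.range w)) = 2 * k + 4 := by
    rw [finrank_span_eq_card li, Fintype.card_fin]
  have h2 : Submodule.span F (Set.range w) ≤ S :=
    Submodule.span_le.mpr (Set.range_subset_iff.mpr hw)
  have h3 := Submodule.finrank_mono h2
  rw [Module.finrank_fintype_fun_eq_card, Fintype.card_sum, Fintype.card_fin]
  omega

lemma spReg_two (s : ι → F) :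
    spRegMat s *ᵥ (spRegMat s *ᵥ regF k F) =
      regF k F + (2 : F) • (𝔇 s *ᵥ regF k F) + 𝔇 s ^ 2 *ᵥ regF k F := by
  simp only [pow_two, ← Matrix.mulVec_mulVec, sub_one_mulVec, Matrix.mulVec_sub]
  module

lemma li_f_uf_uuf (s : ι → F) (hs : s (Fin.last (k + 1)) ≠ 0) :
    LinearIndependent F
      ![regF k F, spRegMat s *ᵥ regF k F, spRegMat s *ᵥ (spRegMat s *ᵥ regF k F)] := by
  rw [Fintype.linearIndependent_iff]
  intro a ha
  simp only [Fin.sum_univ_three, Matrix.cons_val_zero, Matrix.cons_val_one, Matrix.cons_val] at ha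
  rw [spReg_two, show spRegMat s *ᵥ regF k F = regF k F + 𝔇 s *ᵥ regF k F by
      rw [sub_one_mulVec]; abel] at ha
  have e1 : a 0 + a 1 + a 2 = 0 := peel s hs (j := 0) (by omega)
    (x := (a 1 + 2 * a 2) • regF k F + a 2 • (𝔇 s *ᵥ regF k F)) (by
      rw [pow_zero, zero_add, pow_one, Matrix.one_mulVec, Matrix.mulVec_add, Matrix.mulVec_smul,
        Matrix.mulVec_smul, Matrix.mulVec_mulVec, ← pow_two]
      rw [← ha]; module)
  have e2 : a 1 + 2 * a 2 = 0 := peel s hs (j := 1) (by omega) (x := a 2 • regF k F) (by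
    rw [Matrix.mulVec_smul, pow_one]
    refine Eq.trans ?_ ha
    have h0 : a 0 = -a 1 - a 2 := by linear_combination e1
    rw [h0]; module)
  have e3 : a 2 = 0 := peel s hs (j := 2) (by omega) (x := 0) (by
    rw [Matrix.mulVec_zero, add_zero]
    refine Eq.trans ?_ ha
    have h1 : a 1 = -2 * a 2 := by linear_combination e2
    have h0 : a 0 = a 2 := by linear_combination e1 - e2
    rw [h0, h1]; module)
  intro i
  fin_cases i
  · show a 0 = 0; linear_combination e1 - e2 + e3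
  · show a 1 = 0; linear_combination e2 - 2 * e3
  · exact e3

lemma li_e_f_uf (s : ι → F) :
    LinearIndependent F ![regE k F, regF k F, spRegMat s *ᵥ regF k F] := by
  rw [Fintype.linearIndependent_iff]
  intro a ha
  have h := spReg_orbit_one (k := k) s
  rw [spReg_coe] at h
  simp only [Fin.sum_univ_three, Matrix.cons_val_zero, Matrix.cons_val_one, Matrix.cons_val] at ha
  rw [h, regE_eq, regF_eq] at ha
  have h2 := congrFun ha (.inr 1)
  have h1 := congrFun ha (.inr 0)
  have h0 := congrFun ha (.inl 0)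
  simp [rowNegOne] at h0 h1 h2
  intro i
  fin_cases i
  · show a 0 = 0; linear_combination -h0 + s 0 * h2
  · show a 1 = 0; linear_combination h1 - h2
  · show a 2 = 0; exact h2

lemma pow_step (s : ι → F) (j : ℕ) :
    spRegMat s *ᵥ (𝔇 s ^ j *ᵥ regF k F) = 𝔇 s ^ j *ᵥ regF k F + 𝔇 s ^ (j + 1) *ᵥ regF k F := by
  rw [pow_succ', ← Matrix.mulVec_mulVec, sub_one_mulVec]; abel

lemma regE_orth_pow (s : ι → F) {j : ℕ} (hj : 1 ≤ j) :
    Cfsg.sympForm (k + 2) F (regE k F) (𝔇 s ^ j *ᵥ regF k F) = 0 := by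
  obtain ⟨j, rfl⟩ := Nat.exists_eq_add_of_le hj
  rw [show 1 + j = j + 1 by omega, pow_succ', ← Matrix.mulVec_mulVec, sub_one_mulVec,
    sf_sub_right, sub_eq_zero]
  have h := sympForm_mulVec (spReg s) (regE k F) (𝔇 s ^ j *ᵥ regF k F)
  rwa [spReg_regE, spReg_coe] at h

lemma pow_orth (s : ι → F) {i j : ℕ} (h : 2 * k + 4 ≤ i + j) :
    Cfsg.sympForm (k + 2) F (𝔇 s ^ i *ᵥ regF k F) (𝔇 s ^ j *ᵥ regF k F) = 0 := by
  have h1 := sympForm_sub_one_pow (spReg s) i (regF k F) (𝔇 s ^ j *ᵥ regF k F)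
  rw [spReg_coe] at h1
  rw [h1, Matrix.mulVec_mulVec (regF k F) (𝔇 s ^ i), ← pow_add, pow_high_mulVec s h]
  simp [← sympBilin_apply]

/-- Conjugacy for rank at least three. -/
lemma spReg_conj_large (hk : 1 ≤ k) (s : ι → F) (hs : s (Fin.last (k + 1)) ≠ 0) {θ : F}
    (hθ : θ ≠ 0) : ∃ g, g * spReg s * g⁻¹ = transv (regE k F) θ * spReg s := by
  have ha : regLead s ≠ 0 := mul_ne_zero (pow_ne_zero _ (by simp)) hs
  set l := θ / regLead s with hl
  refine exists_conj_eq_transv_mul (z := l • (𝔇 s ^ (2 * k + 1) *ᵥ regF k F))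
    (w := l • (𝔇 s ^ (2 * k + 2) *ᵥ regF k F)) (a := θ) (κ := 0) (spReg_regE s) ?_ ?_ ?_ ?_ ?_ hθ
    (add_zero θ).symm
  · rw [spReg_coe, Matrix.mulVec_smul, pow_step, smul_add]
  · rw [spReg_coe, Matrix.mulVec_smul, pow_step, spReg_top, smul_add, smul_smul, hl,
      div_mul_cancel₀ θ ha]
  · rw [sf_smul_right, regE_orth_pow s (by omega), mul_zero]
  · rw [sf_smul_right, regE_orth_pow s (by omega), mul_zero]
  · rw [sf_smul_left, sf_smul_right, pow_orth s (by omega), mul_zero, mul_zero]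

/-- Conjugacy in odd characteristic. -/
lemma spReg_conj_odd (h2 : (2 : F) ≠ 0) (s : ι → F) (hs : s (Fin.last (k + 1)) ≠ 0) (θ : F) :
    ∃ g, g * spReg s * g⁻¹ = transv (regE k F) θ * spReg s := by
  have ha : regLead s ≠ 0 := mul_ne_zero (pow_ne_zero _ (by simp)) hs
  refine exists_conj_eq_transv_mul_odd h2 (w := 𝔇 s ^ (2 * k + 2) *ᵥ regF k F) (a := regLead s)
    (spReg_regE s) ?_ (regE_orth_pow s (by omega)) ha
  rw [spReg_coe, pow_step, spReg_top]

/-- Conjugacy for rank two in characteristic two. -/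
lemma spReg_conj_two (s : Fin 2 → F) (hs : s 1 ≠ 0) (l θ : F) (hl : l ≠ 0)
    (hθ : θ = l * s 1 + l ^ 2 * s 1) :
    ∃ g, g * spReg (k := 0) s * g⁻¹ = transv (regE 0 F) θ * spReg (k := 0) s := by
  have e3 : (spRegMat (k := 0) s - 1) ^ 3 *ᵥ regF 0 F = s 1 • regE 0 F := by
    have h := spReg_top (k := 0) s
    simpa [regLead] using h
  refine exists_conj_eq_transv_mul (z := l • ((spRegMat (k := 0) s - 1) ^ 1 *ᵥ regF 0 F))
    (w := l • ((spRegMat (k := 0) s - 1) ^ 2 *ᵥ regF 0 F)) (a := l * s 1) (κ := l ^ 2 * s 1)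
    (spReg_regE s) ?_ ?_ ?_ ?_ ?_ (mul_ne_zero hl hs) hθ
  · rw [spReg_coe, Matrix.mulVec_smul, pow_step, smul_add]
  · rw [spReg_coe, Matrix.mulVec_smul, pow_step, e3, smul_add, smul_smul]
  · rw [sf_smul_right, regE_orth_pow s (by omega), mul_zero]
  · rw [sf_smul_right, regE_orth_pow s (by omega), mul_zero]
  · have h1 := sympForm_sub_one_pow (spReg (k := 0) s) 1 (regF 0 F)
      ((spRegMat (k := 0) s - 1) ^ 2 *ᵥ regF 0 F)
    rw [spReg_coe, pow_one (spReg (k := 0) s), spReg_coe,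
      Matrix.mulVec_mulVec (regF 0 F) ((spRegMat (k := 0) s - 1) ^ 1), ← pow_add, e3,
      sf_smul_right] at h1
    have h2 := sympForm_mulVec (spReg (k := 0) s) (regF 0 F) (regE 0 F)
    rw [spReg_regE, spReg_coe] at h2
    rw [h2, sympForm_swap (regE 0 F) (regF 0 F), regE_regF] at h1
    rw [sf_smul_left, sf_smul_right, h1]
    ring

end Regular

end Cfsg.Agent.H1
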