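import Cfsg.Agent.H2.Generation

/-!
A criterion for a subgroup of the symplectic group to contain all symplectic transvections:
growing a subspace all of whose vectors carry full transvection groups inside the subgroup.
-/

set_option autoImplicit false

namespace Cfsg.Agent.H1

open Matrix Cfsg.Agent.H2

variable {m : ℕ} {F : Type*} [Field F]

local notation "V" => Fin m ⊕ Fin m → F

/-- All transvections with centre `p` lie in `H`. -/
def SpFull (H : Subgroup (Matrix.symplecticGroup (Fin m) F)) (p : V) : Prop :=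
  ∀ c : F, transv p c ∈ H

variable {H : Subgroup (Matrix.symplecticGroup (Fin m) F)}

lemma sf_add_left (u v w : V) :
    Cfsg.sympForm m F (u + v) w = Cfsg.sympForm m F u w + Cfsg.sympForm m F v w := by
  simp [← sympBilin_apply]

lemma sf_add_right (u v w : V) :
    Cfsg.sympForm m F u (v + w) = Cfsg.sympForm m F u v + Cfsg.sympForm m F u w := by
  simp [← sympBilin_apply]

lemma sf_smul_left (a : F) (u v : V) :
    Cfsg.sympForm m F (a • u) v = a * Cfsg.sympForm m F u v := by
  simp [← sympBilin_apply]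

lemma sf_smul_right (a : F) (u v : V) :
    Cfsg.sympForm m F u (a • v) = a * Cfsg.sympForm m F u v := by
  simp [← sympBilin_apply]

lemma sf_neg_left (u v : V) : Cfsg.sympForm m F (-u) v = -Cfsg.sympForm m F u v := by
  simp [← sympBilin_apply]

lemma sf_neg_right (u v : V) : Cfsg.sympForm m F u (-v) = -Cfsg.sympForm m F u v := by
  simp [← sympBilin_apply]

lemma sf_sub_left (u v w : V) :
    Cfsg.sympForm m F (u - v) w = Cfsg.sympForm m F u w - Cfsg.sympForm m F v w := by
  simp [← sympBilin_apply]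

lemma sf_sub_right (u v w : V) :
    Cfsg.sympForm m F u (v - w) = Cfsg.sympForm m F u v - Cfsg.sympForm m F u w := by
  simp [← sympBilin_apply]

lemma SpFull.smul {p : V} (hp : SpFull H p) (a : F) : SpFull H (a • p) := fun c => by
  rw [transv_smul]
  exact hp _

lemma SpFull.conj {p : V} (hp : SpFull H p) {g : Matrix.symplecticGroup (Fin m) F} (hg : g ∈ H) :
    SpFull H ((g : Matrix (Fin m ⊕ Fin m) (Fin m ⊕ Fin m) F) *ᵥ p) := fun c => by
  rw [← conj_transv]
  exact mul_mem (mul_mem hg (hp c)) (inv_mem hg)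

lemma SpFull.pair {p q : V} (hp : SpFull H p) (hq : SpFull H q)
    (h : Cfsg.sympForm m F p q ≠ 0) (a b : F) : SpFull H (a • p + b • q) := by
  by_cases ha : a = 0
  · subst ha
    simpa using hq.smul b
  · have h1 : SpFull H ((transv q (b / a / Cfsg.sympForm m F p q) :
        Matrix (Fin m ⊕ Fin m) (Fin m ⊕ Fin m) F) *ᵥ p) := hp.conj (hq _)
    rw [coe_transv, sympTransvection_mulVec, div_mul_cancel₀ _ h] at h1
    have h2 := h1.smul a
    rwa [smul_add, smul_smul, mul_div_cancel₀ _ ha] at h2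

lemma SpFull.add {p q : V} (hp : SpFull H p) (hq : SpFull H q)
    (h : Cfsg.sympForm m F p q ≠ 0) : SpFull H (p + q) := by
  simpa using hp.pair hq h 1 1

/-- Product of transvections whose centres are congruent modulo `r`. -/
lemma transv_split {r t : V} (h : Cfsg.sympForm m F r t = 0) (a b k l : F) (hkl : a * k + b * l = 0) :
    transv t (a + b) =
      transv (k • r + t) a * transv (l • r + t) b * transv r (-(a * k * k + b * l * l)) := by
  have h' : Cfsg.sympForm m F t r = 0 := by rw [sympForm_swap, h, neg_zero]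
  refine ext_of_mulVec fun x => ?_
  simp only [Submonoid.coe_mul, coe_transv, ← Matrix.mulVec_mulVec, sympTransvection_mulVec,
    sf_add_left, sf_add_right, sf_smul_left, sf_smul_right, sympForm_self, h, h', mul_zero,
    add_zero, zero_add, smul_add, smul_smul]
  ext i
  simp only [Pi.add_apply, Pi.smul_apply, smul_eq_mul]
  linear_combination (-(Cfsg.sympForm m F x r * t i + Cfsg.sympForm m F x t * r i)) * hkl

/-- In characteristic two the centre of a singular line is reached from a totally isotropic triple. -/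
lemma transv_split_two (h2 : (2 : F) = 0) {r s t : V} (hrs : Cfsg.sympForm m F r s = 0)
    (hrt : Cfsg.sympForm m F r t = 0) (hst : Cfsg.sympForm m F s t = 0) (c : F) :
    transv t c =
      transv (r + s + t) c * transv (r + t) c * transv (s + t) c *
        transv r c * transv s c * transv (r + s) c := by
  have hsr : Cfsg.sympForm m F s r = 0 := by rw [sympForm_swap, hrs, neg_zero]
  have htr : Cfsg.sympForm m F t r = 0 := by rw [sympForm_swap, hrt, neg_zero]
  have hts : Cfsg.sympForm m F t s = 0 := by rw [sympForm_swap, hst, neg_zero]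
  refine ext_of_mulVec fun x => ?_
  simp only [Submonoid.coe_mul, coe_transv, ← Matrix.mulVec_mulVec, sympTransvection_mulVec,
    sf_add_left, sf_add_right, sf_smul_left, sf_smul_right, sympForm_self, hrs, hrt, hst, hsr,
    htr, hts, mul_zero, add_zero, zero_add, smul_add, smul_smul]
  ext i
  simp only [Pi.add_apply, Pi.smul_apply, smul_eq_mul]
  linear_combination (-c * (2 * Cfsg.sympForm m F x r * r i + 2 * Cfsg.sympForm m F x s * s i +
    Cfsg.sympForm m F x t * t i + Cfsg.sympForm m F x r * s i + Cfsg.sympForm m F x s * r i +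
    Cfsg.sympForm m F x r * t i + Cfsg.sympForm m F x t * r i + Cfsg.sympForm m F x s * t i +
    Cfsg.sympForm m F x t * s i)) * h2

/-- Two vectors with a common full non-orthogonal neighbour span full vectors. -/
lemma SpFull.triangle (h3 : ∃ z : F, z ≠ 0 ∧ z ≠ 1) {p q r : V} (hp : SpFull H p) (hq : SpFull H q)
    (hr : SpFull H r) (hrp : Cfsg.sympForm m F r p ≠ 0) (hrq : Cfsg.sympForm m F r q ≠ 0)
    (β γ : F) : SpFull H (β • p + γ • q) := by
  by_cases hpq : Cfsg.sympForm m F p q ≠ 0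
  · exact hp.pair hq hpq β γ
  push Not at hpq
  set t := β • p + γ • q with ht
  have key : ∀ α : F, α ≠ 0 → SpFull H (α • r + t) := by
    intro α hα
    have hx : Cfsg.sympForm m F (α • r + β • p) q ≠ 0 := by
      rw [sf_add_left, sf_smul_left, sf_smul_left, hpq, mul_zero, add_zero]
      exact mul_ne_zero hα hrq
    have := (hr.pair hp hrp α β).pair hq hx 1 γ
    rwa [one_smul, add_assoc, ← ht] at this
  by_cases hrt : Cfsg.sympForm m F r t = 0
  · obtain ⟨z, hz0, hz1⟩ := h3
    intro c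
    have hd : z - 1 ≠ 0 := sub_ne_zero.mpr hz1
    have hab : c * z / (z - 1) + -c / (z - 1) = c := by field_simp; ring
    have hkl : c * z / (z - 1) * 1 + -c / (z - 1) * z = 0 := by field_simp; ring
    rw [← hab, transv_split hrt _ _ 1 z hkl]
    exact mul_mem (mul_mem (key 1 one_ne_zero _) (key z hz0 _)) (hr _)
  · have h := hr.pair (key 1 one_ne_zero) (by simpa [sf_add_right, sf_smul_right] using hrt) (-1) 1
    have e : (-1 : F) • r + (1 : F) • ((1 : F) • r + t) = t := by module
    rwa [e] at h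

/-- Extending a full subspace by a full vector, fields with at least three elements. -/
lemma spFull_extend (h3 : ∃ z : F, z ≠ 0 ∧ z ≠ 1) (S : Submodule F (Fin m ⊕ Fin m → F))
    (hS : ∀ x ∈ S, SpFull H x) {e f : V} (he : e ∈ S) (hf : f ∈ S)
    (hef : Cfsg.sympForm m F e f = 1) {q : V} (hq : SpFull H q) {r₀ : V} (hr₀ : r₀ ∈ S)
    (hqr : Cfsg.sympForm m F q r₀ ≠ 0) :
    ∀ x ∈ S ⊔ Submodule.span F {q}, SpFull H x := by
  have nonrad : ∀ p ∈ S, ∀ r ∈ S, Cfsg.sympForm m F p r ≠ 0 → ∀ β γ : F,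
      SpFull H (β • p + γ • q) := by
    intro p hp r hr hpr β γ
    have hrp : Cfsg.sympForm m F r p ≠ 0 := by rwa [sympForm_swap, neg_ne_zero]
    have hr₀q : Cfsg.sympForm m F r₀ q ≠ 0 := by rwa [sympForm_swap, neg_ne_zero]
    obtain ⟨w, hw, hw1, hw2⟩ : ∃ w ∈ S, Cfsg.sympForm m F w p ≠ 0 ∧ Cfsg.sympForm m F w q ≠ 0 := by
      by_cases h1 : Cfsg.sympForm m F r q ≠ 0
      · exact ⟨r, hr, hrp, h1⟩
      by_cases h2 : Cfsg.sympForm m F r₀ p ≠ 0
      · exact ⟨r₀, hr₀, h2, hr₀q⟩
      push Not at h1 h2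
      refine ⟨r + r₀, S.add_mem hr hr₀, ?_, ?_⟩
      · rw [sf_add_left, h2, add_zero]; exact hrp
      · rw [sf_add_left, h1, zero_add]; exact hr₀q
    exact SpFull.triangle h3 (hS p hp) hq (hS w hw) hw1 hw2 β γ
  intro x hx
  obtain ⟨p, hp, y, hy, rfl⟩ := Submodule.mem_sup.mp hx
  obtain ⟨β, rfl⟩ := Submodule.mem_span_singleton.mp hy
  by_cases hrad : ∃ r ∈ S, Cfsg.sympForm m F p r ≠ 0
  · obtain ⟨r, hr, hpr⟩ := hrad
    simpa using nonrad p hp r hr hpr 1 β
  push Not at hrad
  obtain ⟨k, hk0, hk⟩ : ∃ k : F, k ≠ 0 ∧ k + β * Cfsg.sympForm m F q f ≠ 0 := by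
    by_cases h : (1 : F) + β * Cfsg.sympForm m F q f = 0
    · obtain ⟨z, hz0, hz1⟩ := h3
      exact ⟨z, hz0, fun h' => hz1 (by linear_combination h' - h)⟩
    · exact ⟨1, one_ne_zero, h⟩
  have hpk : p + k • e ∈ S := S.add_mem hp (S.smul_mem k he)
  have hval : Cfsg.sympForm m F (p + k • e) f = k := by
    rw [sf_add_left, sf_smul_left, hrad f hf, hef]; ring
  have h1 : SpFull H ((1 : F) • (p + k • e) + β • q) :=
    nonrad _ hpk f hf (by rw [hval]; exact hk0) 1 β
  have h2 : SpFull H (-(k • e)) := hS _ (S.neg_mem (S.smul_mem k he))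
  have h := SpFull.triangle h3 h1 h2 (hS f hf)
    (by
      rw [sympForm_swap, neg_ne_zero, sf_add_left, sf_smul_left, sf_smul_left, hval, one_mul]
      exact hk)
    (by
      rw [sympForm_swap, neg_ne_zero, sf_neg_left, sf_smul_left, hef, mul_one, neg_ne_zero]
      exact hk0) 1 1
  have e' : (1 : F) • ((1 : F) • (p + k • e) + β • q) + (1 : F) • (-(k • e)) = p + β • q := by
    module
  rwa [e'] at h

/-- Extending a full subspace by a full vector over the field with two elements. -/
lemma spFull_extend_two (hF : ∀ z : F, z = 0 ∨ z = 1) (S : Submodule F (Fin m ⊕ Fin m → F))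
    (hS : ∀ x ∈ S, SpFull H x) {q : V} (hq : SpFull H q) {r₀ : V} (hr₀ : r₀ ∈ S)
    (hqr : Cfsg.sympForm m F q r₀ ≠ 0)
    {g h : V} (hg : g ∈ S) (hh : h ∈ S) (hgh : Cfsg.sympForm m F g h = 0)
    (hgn : ∃ a ∈ S, Cfsg.sympForm m F a g ≠ 0) (hhn : ∃ a ∈ S, Cfsg.sympForm m F a h ≠ 0)
    (hghn : ∃ a ∈ S, Cfsg.sympForm m F a (g + h) ≠ 0) :
    ∀ x ∈ S ⊔ Submodule.span F {q}, SpFull H x := by
  have h2 : (2 : F) = 0 := by
    rcases hF (2 : F) with h | h
    · exact h
    · exact absurd (show (1 : F) = 0 by linear_combination h) one_ne_zero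
  have one : ∀ z : F, z ≠ 0 → z = 1 := fun z hz => (hF z).resolve_left hz
  have hr₀q : Cfsg.sympForm m F r₀ q = 1 :=
    one _ (by rwa [sympForm_swap, neg_ne_zero])
  -- translates with different restrictions
  have diff : ∀ s ∈ S, (∃ a ∈ S, Cfsg.sympForm m F a q = 1 ∧ Cfsg.sympForm m F a s = 0) →
      SpFull H (s + q) := by
    rintro s hs ⟨a, ha, haq, has⟩
    by_cases hsq : Cfsg.sympForm m F s q ≠ 0
    · exact (hS s hs).add hq hsq
    push Not at hsq
    have h1 : SpFull H ((a + s) + q) :=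
      (hS _ (S.add_mem ha hs)).add hq (by rw [sf_add_left, haq, hsq, add_zero]; exact one_ne_zero)
    have h3 := (hS a ha).add h1 (by
      rw [sf_add_right, sf_add_right, sympForm_self, has, haq]; simp)
    have e : a + (a + s + q) = s + q := by
      ext i; simp only [Pi.add_apply]; linear_combination a i * h2
    rwa [e] at h3
  have tot : ∀ s ∈ S, SpFull H (s + q) := by
    intro s hs
    by_cases hex : ∃ a ∈ S, Cfsg.sympForm m F a q = 1 ∧ Cfsg.sympForm m F a s = 0
    · exact diff s hs hex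
    push Not at hex
    have heq : ∀ a ∈ S, Cfsg.sympForm m F a s = Cfsg.sympForm m F a q := by
      intro a ha
      rcases hF (Cfsg.sympForm m F a q) with h | h
      · rw [h]
        by_contra hne
        have h' := hex (a + r₀) (S.add_mem ha hr₀) (by rw [sf_add_left, h, hr₀q, zero_add])
        have hr₀s : Cfsg.sympForm m F r₀ s = 1 := one _ (hex r₀ hr₀ hr₀q)
        rw [sf_add_left, hr₀s, one _ hne] at h'
        exact h' (by linear_combination h2)
      · rw [h]; exact one _ (hex a ha h)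
    have orth : ∀ a ∈ S, Cfsg.sympForm m F a (s + q) = 0 := fun a ha => by
      rw [sf_add_right, heq a ha]; linear_combination Cfsg.sympForm m F a q * h2
    have shift : ∀ σ ∈ S, (∃ a ∈ S, Cfsg.sympForm m F a σ ≠ 0) → SpFull H (σ + (s + q)) := by
      rintro σ hσ ⟨a, ha, haσ⟩
      rw [← add_assoc]
      refine diff _ (S.add_mem hσ hs) ?_
      have fin : ∀ b ∈ S, Cfsg.sympForm m F b q = 1 → Cfsg.sympForm m F b σ = 1 →
          ∃ a ∈ S, Cfsg.sympForm m F a q = 1 ∧ Cfsg.sympForm m F a (σ + s) = 0 := fun b hb h1 h2' =>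
        ⟨b, hb, h1, by rw [sf_add_right, heq b hb, h1, h2']; linear_combination h2⟩
      rcases hF (Cfsg.sympForm m F a q) with h' | h'
      · rcases hF (Cfsg.sympForm m F r₀ σ) with h'' | h''
        · exact fin (a + r₀) (S.add_mem ha hr₀) (by rw [sf_add_left, h', hr₀q, zero_add])
            (by rw [sf_add_left, h'', one _ haσ, add_zero])
        · exact fin r₀ hr₀ hr₀q h''
      · exact fin a ha h' (one _ haσ)
    intro c
    rw [transv_split_two h2 hgh (orth g hg) (orth h hh) c]
    exact mul_mem (mul_mem (mul_mem (mul_mem (mul_mem (shift _ (S.add_mem hg hh) hghn c)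
      (shift g hg hgn c)) (shift h hh hhn c)) (hS g hg c)) (hS h hh c)) (hS _ (S.add_mem hg hh) c)
  intro x hx
  obtain ⟨p, hp, y, hy, rfl⟩ := Submodule.mem_sup.mp hx
  obtain ⟨β, rfl⟩ := Submodule.mem_span_singleton.mp hy
  rcases hF β with rfl | rfl
  · simpa using hS p hp
  · simpa using tot p hp

/-- Generation criterion: a full subspace containing a hyperbolic pair `e, f`, with a regular
unipotent fixing `e`, in a subgroup where full subspaces extend, gives the whole group. -/
theorem sp_eq_top_of_full [Finite F] {u : Matrix.symplecticGroup (Fin m) F} (hu : u ∈ H)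
    {e f : V} (hue : (u : Matrix (Fin m ⊕ Fin m) (Fin m ⊕ Fin m) F) *ᵥ e = e)
    (hef : Cfsg.sympForm m F e f = 1)
    (hcyc : ∀ S : Submodule F (Fin m ⊕ Fin m → F), f ∈ S →
      (∀ x ∈ S, (u : Matrix (Fin m ⊕ Fin m) (Fin m ⊕ Fin m) F) *ᵥ x ∈ S) → S = ⊤)
    (S₀ : Submodule F (Fin m ⊕ Fin m → F)) (hS₀ : ∀ x ∈ S₀, SpFull H x) (he : e ∈ S₀) (hf : f ∈ S₀)
    (hext : ∀ S : Submodule F (Fin m ⊕ Fin m → F), S₀ ≤ S → (∀ x ∈ S, SpFull H x) → ∀ q, SpFull H q →
      (∃ r ∈ S, Cfsg.sympForm m F q r ≠ 0) → ∀ x ∈ S ⊔ Submodule.span F {q}, SpFull H x) :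
    H = ⊤ := by
  obtain ⟨S, ⟨hle, hS⟩, hmax⟩ := (wellFounded_gt (α := Submodule F (Fin m ⊕ Fin m → F))).has_min
    {S | S₀ ≤ S ∧ ∀ x ∈ S, SpFull H x} ⟨S₀, le_rfl, hS₀⟩
  have grow : ∀ q, SpFull H q → (∃ r ∈ S, Cfsg.sympForm m F q r ≠ 0) → q ∈ S := by
    intro q hq hr
    by_contra hqS
    exact hmax (S ⊔ Submodule.span F {q}) ⟨hle.trans le_sup_left, hext S hle hS q hq hr⟩
      (lt_of_le_of_ne le_sup_left fun h =>
        hqS (h ▸ Submodule.mem_sup_right (Submodule.mem_span_singleton_self q)))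
  have inv : ∀ x ∈ S, Cfsg.sympForm m F x e ≠ 0 →
      (u : Matrix (Fin m ⊕ Fin m) (Fin m ⊕ Fin m) F) *ᵥ x ∈ S := by
    intro x hx hxe
    refine grow _ ((hS x hx).conj hu) ⟨e, hle he, ?_⟩
    rwa [← sympForm_mulVec u x e, hue] at hxe
  have hfe : Cfsg.sympForm m F f e ≠ 0 := by rw [sympForm_swap, hef]; simp
  have htop : S = ⊤ := by
    refine hcyc S (hle hf) fun x hx => ?_
    by_cases hxe : Cfsg.sympForm m F x e ≠ 0
    · exact inv x hx hxe
    push Not at hxe
    have h1 := inv (x + f) (S.add_mem hx (hle hf)) (by rwa [sf_add_left, hxe, zero_add])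
    rw [Matrix.mulVec_add] at h1
    simpa using S.sub_mem h1 (inv f (hle hf) hfe)
  rw [eq_top_iff, ← closure_transv_eq_top, Subgroup.closure_le]
  rintro g ⟨v, c, rfl⟩
  exact hS v (htop ▸ trivial) c

end Cfsg.Agent.H1
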