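import Cfsg.Agent.H1.SuRegular

/-!
Regular unipotent elements of odd-dimensional special unitary groups with prescribed invariants.
-/

set_option autoImplicit false

namespace Cfsg.Agent.H1

open Matrix Cfsg.Agent.H3

variable {F : Type*} [Field F] [Fintype F] {q : ℕ} (hF : Fintype.card F = q ^ 2)

local notation "σ" => conjQ hF

attribute [-simp] conjQ_apply

include hF

lemma suA_mulVec_zero_of {k : ℕ} (hk : 1 ≤ k) (X : Fin (k + 1) → F) :
    (suA k F *ᵥ X) 0 = X 0 + X ⟨1, by omega⟩ := by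
  simp only [Matrix.mulVec, dotProduct, suA, Matrix.of_apply]
  rw [Finset.sum_eq_add_of_mem (a := (0 : Fin (k + 1))) (b := (⟨1, by omega⟩ : Fin (k + 1)))
    (Finset.mem_univ _) (Finset.mem_univ _) (by simp [Fin.ext_iff])]
  · simp
  · rintro b - ⟨hb0, hb1⟩
    rw [if_neg, zero_mul]
    rintro (rfl | hb)
    · exact hb0 rfl
    · exact hb1 (Fin.ext (by simpa using hb))

lemma suA_mulVec_one_of {k : ℕ} (hk : 2 ≤ k) (X : Fin (k + 1) → F) :
    (suA k F *ᵥ X) ⟨1, by omega⟩ = X ⟨1, by omega⟩ + X ⟨2, by omega⟩ := by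
  simp only [Matrix.mulVec, dotProduct, suA, Matrix.of_apply]
  rw [Finset.sum_eq_add_of_mem (a := (⟨1, by omega⟩ : Fin (k + 1)))
    (b := (⟨2, by omega⟩ : Fin (k + 1)))
    (Finset.mem_univ _) (Finset.mem_univ _) (by simp [Fin.ext_iff])]
  · simp
  · rintro b - ⟨hb0, hb1⟩
    rw [if_neg, zero_mul]
    rintro (rfl | hb)
    · exact hb0 rfl
    · exact hb1 (Fin.ext (by simpa using hb))

/-- `b` is supported on the indices `0`, `1` and the last one. -/
def SuppThree {k : ℕ} (b : Fin (k + 1) → F) : Prop :=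
  ∀ i : Fin (k + 1), (i : ℕ) ≠ 0 → (i : ℕ) ≠ 1 → (i : ℕ) ≠ k → b i = 0

lemma suS_row {k : ℕ} (b s v : Fin (k + 1) → F) (i : Fin (k + 1)) :
    (suS hF b s *ᵥ v) i =
      s i * v i - b i * ∑ j, (if i < j then σ (b j) * v j else 0) := by
  simp only [Matrix.mulVec, dotProduct, suS, Matrix.of_apply]
  rw [← Finset.add_sum_erase Finset.univ _ (Finset.mem_univ i), if_pos rfl, sub_eq_add_neg]
  congr 1
  rw [Finset.mul_sum, ← Finset.sum_neg_distrib,
    ← Finset.add_sum_erase Finset.univ (fun j => -(b i * if i < j then σ (b j) * v j else 0))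
      (Finset.mem_univ i), if_neg (lt_irrefl _), mul_zero, neg_zero, zero_add]
  refine Finset.sum_congr rfl fun j hj => ?_
  rw [if_neg (Finset.ne_of_mem_erase hj).symm]
  split_ifs <;> ring

lemma sum_upper_zero {k : ℕ} (hk : 1 ≤ k) {b : Fin (k + 1) → F} (hb : SuppThree b)
    (v : Fin (k + 1) → F) :
    (∑ j, if (0 : Fin (k + 1)) < j then σ (b j) * v j else 0) =
      σ (b ⟨1, by omega⟩) * v ⟨1, by omega⟩ +
        if 2 ≤ k then σ (b (Fin.last k)) * v (Fin.last k) else 0 := by
  by_cases h2 : 2 ≤ k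
  · rw [if_pos h2, Finset.sum_eq_add_of_mem (a := (⟨1, by omega⟩ : Fin (k + 1))) (b := Fin.last k)
      (Finset.mem_univ _) (Finset.mem_univ _) (by simp [Fin.ext_iff]; omega)]
    · simp [Fin.lt_def]
      intro h; omega
    · rintro j - ⟨h1, hl⟩
      by_cases h0 : (j : ℕ) = 0
      · rw [if_neg]; simp [Fin.lt_def, h0]
      · rw [hb j h0 (fun h => h1 (Fin.ext h)) (fun h => hl (Fin.ext h)), map_zero, zero_mul, ite_self]
  · rw [if_neg h2, add_zero, Finset.sum_eq_single (⟨1, by omega⟩ : Fin (k + 1))]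
    · simp [Fin.lt_def]
    · intro j _ hj
      rw [if_neg]
      simp only [Fin.lt_def, Fin.val_zero]
      intro h
      exact hj (Fin.ext (by simp; omega))
    · simp

lemma sum_upper_one {k : ℕ} (hk : 1 ≤ k) {b : Fin (k + 1) → F} (hb : SuppThree b)
    (v : Fin (k + 1) → F) :
    (∑ j, if (⟨1, by omega⟩ : Fin (k + 1)) < j then σ (b j) * v j else 0) =
      if 2 ≤ k then σ (b (Fin.last k)) * v (Fin.last k) else 0 := by
  by_cases h2 : 2 ≤ k
  · rw [if_pos h2, Finset.sum_eq_single (Fin.last k)]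
    · rw [if_pos]; simp [Fin.lt_def]; omega
    · intro j _ hl
      by_cases h1 : 1 < (j : ℕ)
      · rw [hb j (by omega) (by omega) (fun h => hl (Fin.ext h)), map_zero, zero_mul, ite_self]
      · rw [if_neg]; simpa [Fin.lt_def] using h1
    · simp
  · rw [if_neg h2]
    refine Finset.sum_eq_zero fun j _ => ?_
    rw [if_neg]
    simp only [Fin.lt_def]
    omega

lemma dot_supp {k : ℕ} (hk : 1 ≤ k) {b : Fin (k + 1) → F} (hb : SuppThree b)
    (v : Fin (k + 1) → F) :
    (σ ∘ b) ⬝ᵥ v = σ (b 0) * v 0 + σ (b ⟨1, by omega⟩) * v ⟨1, by omega⟩ +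
      if 2 ≤ k then σ (b (Fin.last k)) * v (Fin.last k) else 0 := by
  rw [add_assoc, ← sum_upper_zero hF hk hb v]
  simp only [dotProduct, Function.comp_apply]
  rw [← Finset.add_sum_erase Finset.univ _ (Finset.mem_univ (0 : Fin (k + 1))),
    ← Finset.add_sum_erase Finset.univ
      (fun j => if (0 : Fin (k + 1)) < j then σ (b j) * v j else 0) (Finset.mem_univ 0),
    if_neg (lt_irrefl _), zero_add]
  congr 1
  refine Finset.sum_congr rfl fun j hj => ?_
  rw [if_pos (Fin.pos_iff_ne_zero.2 (Finset.ne_of_mem_erase hj))]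

/-- Dimension three. -/
theorem exists_suReg_three {c : F} (hT : c + σ c ≠ 0) :
    ∃ (u : Cfsg.SU 3 F q) (e f : Fin 3 → F), IsSuReg u e f ∧
      Cfsg.hermForm 3 F q (((u.1 : Matrix.SpecialLinearGroup (Fin 3) F) :
        Matrix (Fin 3) (Fin 3) F) *ᵥ f) f = c ∧
      Cfsg.hermForm 3 F q (((u.1 : Matrix.SpecialLinearGroup (Fin 3) F) :
        Matrix (Fin 3) (Fin 3) F) *ᵥ (((u.1 : Matrix.SpecialLinearGroup (Fin 3) F) :
        Matrix (Fin 3) (Fin 3) F) *ᵥ f)) f = 3 * c + σ c := by
  obtain ⟨b0, hb0⟩ := exists_norm_eq hF (μ := -(c + σ c))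
    (by rw [← conjQ_apply hF, map_neg, map_add, conjQ_conjQ hF, add_comm])
  rw [pow_succ', ← conjQ_apply hF] at hb0
  have hb0' : b0 ≠ 0 := fun h => hT (by rw [h, zero_mul] at hb0; linear_combination hb0)
  obtain ⟨u, φ, hR, hform, hact⟩ := exists_suReg (k := 0) hF 3 rfl (fun _ => b0) (fun _ => c)
    (fun _ => by linear_combination hb0) hb0'
  refine ⟨u, _, _, hR, ?_, ?_⟩
  · rw [hact, hform, modelForm_F, model_orbit_one]; simp
  · rw [hact, hact, hform, modelForm_F, model_orbit_two]
    show (suA 0 F *ᵥ _) 0 = _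
    have hA : suA 0 F = 1 := by ext i j; fin_cases i; fin_cases j; simp [suA]
    rw [hA, Matrix.one_mulVec]
    have hlt : ∀ j : Fin 1, ¬ ((0 : Fin 1) < j) := fun j => by
      simp only [Fin.lt_def]; omega
    simp only [hlt, if_false, Pi.add_apply, Pi.smul_apply, smul_eq_mul, suS_row, Pi.single_eq_same, suR1,
      Fin.val_zero, pow_zero, Finset.univ_unique, Finset.sum_singleton, Fin.default_eq_zero,
      lt_irrefl, if_false, mul_zero, sub_zero, mul_one, Fin.not_lt_zero, Finset.sum_const_zero]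
    linear_combination -hb0

/-- Dimension at least five. -/
theorem exists_suReg_large (k : ℕ) (hk : 1 ≤ k) {c c₂ : F} (hT : c + σ c ≠ 0)
    (hK : c₂ + σ c₂ ≠ 4 * (c + σ c)) :
    ∃ (u : Cfsg.SU (2 * k + 3) F q) (e f : Fin (2 * k + 3) → F), IsSuReg u e f ∧
      Cfsg.hermForm (2 * k + 3) F q (((u.1 : Matrix.SpecialLinearGroup (Fin (2 * k + 3)) F) :
        Matrix (Fin (2 * k + 3)) (Fin (2 * k + 3)) F) *ᵥ f) f = c ∧
      Cfsg.hermForm (2 * k + 3) F q (((u.1 : Matrix.SpecialLinearGroup (Fin (2 * k + 3)) F) :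
        Matrix (Fin (2 * k + 3)) (Fin (2 * k + 3)) F) *ᵥ
        (((u.1 : Matrix.SpecialLinearGroup (Fin (2 * k + 3)) F) :
        Matrix (Fin (2 * k + 3)) (Fin (2 * k + 3)) F) *ᵥ f)) f = c₂ := by
  classical
  obtain ⟨b0, hb0⟩ := exists_norm_eq hF (μ := -(c + σ c))
    (by rw [← conjQ_apply hF, map_neg, map_add, conjQ_conjQ hF, add_comm])
  rw [pow_succ', ← conjQ_apply hF] at hb0
  obtain ⟨b1, hb1⟩ := exists_norm_eq hF (μ := c₂ + σ c₂ - 4 * (c + σ c))
    (by rw [← conjQ_apply hF]
        simp only [map_sub, map_mul, map_add, map_ofNat, conjQ_conjQ hF]; ring)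
  rw [pow_succ', ← conjQ_apply hF] at hb1
  have hb1' : b1 ≠ 0 := fun h => hK (sub_eq_zero.1 (by rw [← hb1, h, zero_mul]))
  obtain ⟨τ, hτ0, hτ⟩ := exists_trace_zero_ne_zero hF
  rw [← conjQ_apply hF] at hτ
  set bL : F := if b0 + b1 = 0 then 1 else σ (τ * (-1) ^ k / (b0 + b1)) with hbL
  have hbL0 : bL ≠ 0 := by
    rw [hbL]
    split_ifs with h
    · exact one_ne_zero
    · exact (map_ne_zero _).2 (div_ne_zero (mul_ne_zero hτ0 (pow_ne_zero _ (by simp))) h)
  set L : F := (b0 + b1) * σ bL * (-1) ^ k with hL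
  have hLtr : L + σ L = 0 := by
    have : L = if b0 + b1 = 0 then 0 else τ := by
      rw [hL, hbL]
      split_ifs with h
      · rw [h]; ring
      · rw [conjQ_conjQ hF]; field_simp; rw [← pow_mul, mul_comm k 2, pow_mul]; simp
    rw [this]
    split_ifs
    · simp
    · exact hτ
  set b : Fin (k + 1) → F := fun i =>
    if (i : ℕ) = 0 then b0 else if (i : ℕ) = 1 then b1 else if (i : ℕ) = k then bL else 0 with hb
  have hsupp : SuppThree b := fun i h0 h1 h2 => by
    simp only [hb]; rw [if_neg h0, if_neg h1, if_neg h2]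
  have htr : ∀ i, ∃ x : F, x + σ x = -(b i * σ (b i)) := fun i => by
    obtain ⟨x, hx⟩ := exists_trace_eq hF (a := -(b i * σ (b i)))
      (by rw [← conjQ_apply hF, map_neg, map_mul, conjQ_conjQ hF, mul_comm])
    exact ⟨x, by rwa [conjQ_apply]⟩
  choose t ht using htr
  set s1 : F := 3 * c + σ c + b0 * σ b1 - σ b0 * b1 - (if 2 ≤ k then L else 0) - c₂ with hs1
  set s : Fin (k + 1) → F := fun i => if (i : ℕ) = 0 then c else if (i : ℕ) = 1 then s1 else t i
    with hs
  have hbs : ∀ i, s i + σ (s i) + b i * σ (b i) = 0 := by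
    intro i
    by_cases h0 : (i : ℕ) = 0
    · simp only [hs, hb, h0, if_true]; linear_combination hb0
    by_cases h1 : (i : ℕ) = 1
    · simp only [hs, hb, h1, if_true, show (1 : ℕ) ≠ 0 from one_ne_zero, if_false, hs1]
      by_cases h2 : 2 ≤ k
      · simp only [if_pos h2, map_sub, map_add, map_mul, map_ofNat, conjQ_conjQ hF]
        linear_combination hb1 - hLtr
      · simp only [if_neg h2, map_sub, map_add, map_mul, map_ofNat, map_zero, conjQ_conjQ hF]
        linear_combination hb1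
    simp only [hs, h0, h1, if_false]
    linear_combination ht i
  have hlast : b (Fin.last k) ≠ 0 := by
    simp only [hb, Fin.val_last]
    split_ifs with h0 h1
    · omega
    · exact hb1'
    · exact hbL0
  obtain ⟨u, φ, hR, hform, hact⟩ := exists_suReg hF (2 * k + 3) rfl b s hbs hlast
  refine ⟨u, _, _, hR, ?_, ?_⟩
  · rw [hact, hform, modelForm_F, model_orbit_one]; simp [hs]
  · rw [hact, hact, hform, modelForm_F, model_orbit_two]
    show (suA k F *ᵥ _) 0 = _
    rw [suA_mulVec_zero_of hF hk]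
    simp only [Pi.add_apply, Pi.smul_apply, smul_eq_mul, suS_row, sum_upper_zero hF hk hsupp,
      sum_upper_one hF hk hsupp]
    have eb0 : b 0 = b0 := by simp only [hb, Fin.val_zero, if_true]
    have eb1 : b ⟨1, by omega⟩ = b1 := by simp only [hb, one_ne_zero, if_false, if_true]
    have es0 : s 0 = c := by simp only [hs, Fin.val_zero, if_true]
    have es1 : s ⟨1, by omega⟩ = s1 := by simp only [hs, one_ne_zero, if_false, if_true]
    have er0 : suR1 k F 0 = 1 := by simp only [suR1, Fin.val_zero, pow_zero]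
    have er1 : suR1 k F ⟨1, by omega⟩ = -1 := by simp only [suR1, pow_one]
    have erL : suR1 k F (Fin.last k) = (-1) ^ k := by simp only [suR1, Fin.val_last]
    have ep : (Pi.single (0 : Fin (k + 1)) c : Fin (k + 1) → F) ⟨1, by omega⟩ = 0 :=
      Pi.single_eq_of_ne (show (⟨1, by omega⟩ : Fin (k + 1)) ≠ 0 by simp [Fin.ext_iff]) c
    rw [eb0, eb1, es0, es1, er0, er1, erL, Pi.single_eq_same, ep, hs1]
    by_cases h2 : 2 ≤ k
    · have ebL : b (Fin.last k) = bL := by
        simp only [hb, Fin.val_last, show k ≠ 0 by omega, show k ≠ 1 by omega, if_false, if_true]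
      rw [if_pos h2, if_pos h2, ebL, hL]
      linear_combination -hb0
    · rw [if_neg h2, if_neg h2]
      linear_combination -hb0

/-- The two-element base field, dimension at least five. -/
theorem exists_suReg_qtwo (k : ℕ) (hk : 1 ≤ k) (h2 : (2 : F) = 0) {c : F} (hc : σ c = c + 1)
    (hcc : c * c + c + 1 = 0) :
    ∃ (u : Cfsg.SU (2 * k + 3) F q) (φ : SuModel k F ≃ₗ[F] (Fin (2 * k + 3) → F))
      (e f : Fin (2 * k + 3) → F) (M : Matrix (Fin (2 * k + 3)) (Fin (2 * k + 3)) F),
      M = ((u.1 : Matrix.SpecialLinearGroup (Fin (2 * k + 3)) F) :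
        Matrix (Fin (2 * k + 3)) (Fin (2 * k + 3)) F) ∧
      φ (modelF k F) = f ∧ IsSuReg u e f ∧
      Cfsg.hermForm (2 * k + 3) F q (M *ᵥ f) f = c ∧
      Cfsg.hermForm (2 * k + 3) F q (M *ᵥ (M *ᵥ f)) f = c + 1 ∧
      Cfsg.hermForm (2 * k + 3) F q (M *ᵥ (M *ᵥ (M *ᵥ f))) f = if k = 1 then c else 1 := by
  classical
  set b : Fin (k + 1) → F := fun i =>
    if (i : ℕ) = 0 then 1 else if (i : ℕ) = 1 then 1 else if (i : ℕ) = k then c + 1 else 0 with hb
  set s : Fin (k + 1) → F := fun i =>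
    if (i : ℕ) = 0 then c else if (i : ℕ) = 1 then c else if (i : ℕ) = k then c
      else if (i : ℕ) = 2 then 1 else 0 with hs
  have hsupp : SuppThree b := fun i h0 h1 h2 => by
    simp only [hb]; rw [if_neg h0, if_neg h1, if_neg h2]
  have hbs : ∀ i, s i + σ (s i) + b i * σ (b i) = 0 := by
    intro i
    simp only [hs, hb]
    split_ifs <;> simp only [map_one, map_zero, map_add, hc]
    · linear_combination (1 + c) * h2
    · linear_combination (1 + c) * h2
    · linear_combination hcc + (2 * c + 1) * h2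
    · linear_combination h2
    · ring
  have hlast : b (Fin.last k) ≠ 0 := by
    simp only [hb, Fin.val_last]
    split_ifs
    · exact one_ne_zero
    · exact one_ne_zero
    · intro h; rw [← hc, map_eq_zero] at h; rw [h] at hcc; simp at hcc
  obtain ⟨u, φ, hR, hform, hact⟩ := exists_suReg hF (2 * k + 3) rfl b s hbs hlast
  refine ⟨u, φ, _, _, _, rfl, rfl, hR, ?_, ?_, ?_⟩
  all_goals
    have eb0 : b 0 = 1 := by simp only [hb, Fin.val_zero, if_true]
    have eb1 : b ⟨1, by omega⟩ = 1 := by simp only [hb, one_ne_zero, if_false, if_true]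
    have es0 : s 0 = c := by simp only [hs, Fin.val_zero, if_true]
    have es1 : s ⟨1, by omega⟩ = c := by simp only [hs, one_ne_zero, if_false, if_true]
    have er0 : suR1 k F 0 = 1 := by simp only [suR1, Fin.val_zero, pow_zero]
    have er1 : suR1 k F ⟨1, by omega⟩ = 1 := by
      simp only [suR1, pow_one]; linear_combination -h2
    have erL : suR1 k F (Fin.last k) = 1 := by
      simp only [suR1, show (-1 : F) = 1 by linear_combination -h2, one_pow]
    have eq0 : suR2 k F 0 = 1 := by simp [suR2]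
    have eq1 : suR2 k F ⟨1, by omega⟩ = 0 := by
      simp only [suR2, pow_one, Nat.cast_one]; linear_combination -h2
    have ep : (Pi.single (0 : Fin (k + 1)) c : Fin (k + 1) → F) ⟨1, by omega⟩ = 0 :=
      Pi.single_eq_of_ne (show (⟨1, by omega⟩ : Fin (k + 1)) ≠ 0 by simp [Fin.ext_iff]) c
  · rw [hact, hform, modelForm_F, model_orbit_one, es0]; simp
  · rw [hact, hact, hform, modelForm_F, model_orbit_two]
    show (suA k F *ᵥ _) 0 = _
    rw [suA_mulVec_zero_of hF hk]
    simp only [Pi.add_apply, Pi.smul_apply, smul_eq_mul, suS_row, sum_upper_zero hF hk hsupp,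
      sum_upper_one hF hk hsupp]
    rw [eb0, eb1, es0, es1, er0, er1, erL, Pi.single_eq_same, ep, map_one]
    by_cases h2' : 2 ≤ k
    · rw [if_pos h2']
      linear_combination (c - 2 - σ (b (Fin.last k))) * h2
    · rw [if_neg h2']
      linear_combination (c - 2) * h2
  · rw [hact, hact, hact, hform, modelForm_F, model_orbit_two, modelMap_apply]
    show (suA k F *ᵥ _) 0 = _
    rw [suA_mulVec_zero_of hF hk]
    simp only [Pi.add_apply, Pi.smul_apply, smul_eq_mul, suS_row, sum_upper_zero hF hk hsupp,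
      sum_upper_one hF hk hsupp, dot_supp hF hk hsupp, suA_mulVec_zero_of hF hk]
    rcases (show k = 1 ∨ 2 ≤ k by omega) with hk1 | h2'
    · subst hk1
      have hA1 : ∀ X : Fin 2 → F, (suA 1 F *ᵥ X) ⟨1, by omega⟩ = X ⟨1, by omega⟩ := fun X => by
        simp [Matrix.mulVec, dotProduct, suA, Fin.sum_univ_two]
      simp only [hA1, Pi.add_apply, Pi.smul_apply, smul_eq_mul, suS_row,
        sum_upper_one hF hk hsupp, show ¬ (2 ≤ 1) by omega, if_false, if_true, eb0, eb1, es0, es1,
        er0, er1, eq0, eq1, Pi.single_eq_same, ep, map_one]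
      grind
    · have ebL : b (Fin.last k) = c + 1 := by
        simp only [hb, Fin.val_last, show k ≠ 0 by omega, show k ≠ 1 by omega, if_false, if_true]
      have hk1 : k ≠ 1 := by omega
      simp only [suA_mulVec_one_of hF h2', Pi.add_apply, Pi.smul_apply, smul_eq_mul, suS_row,
        sum_upper_one hF hk hsupp, if_pos h2', if_neg hk1, eb0, eb1, ebL, es0, es1, er0, er1, erL,
        eq0, eq1, Pi.single_eq_same, ep, map_one, map_add, hc]
      have ep2 : (Pi.single (0 : Fin (k + 1)) c : Fin (k + 1) → F) ⟨2, by omega⟩ = 0 :=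
        Pi.single_eq_of_ne (show (⟨2, by omega⟩ : Fin (k + 1)) ≠ 0 by simp [Fin.ext_iff]) c
      have er2 : suR1 k F ⟨2, by omega⟩ = 1 := by simp [suR1]
      rw [ep2, er2]
      rcases h2'.eq_or_lt with h | h
      · have hsum : (∑ j, if (⟨2, by omega⟩ : Fin (k + 1)) < j then σ (b j) * suR1 k F j else 0) = 0 :=
          Finset.sum_eq_zero fun j _ => if_neg (by simp only [Fin.lt_def]; omega)
        have es2 : s ⟨2, by omega⟩ = c := by simp only [hs]; split_ifs <;> first | rfl | omega
        have eb2 : b ⟨2, by omega⟩ = c + 1 := by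
          simp only [hb]; rw [if_neg (by norm_num), if_neg (by norm_num), if_pos h]
        rw [hsum, es2, eb2]
        grind
      · have es2 : s ⟨2, by omega⟩ = 1 := by
          simp only [hs]
          rw [if_neg (by norm_num), if_neg (by norm_num), if_neg (ne_of_lt h)]
          rfl
        have eb2 : b ⟨2, by omega⟩ = 0 := by
          simp only [hb]; rw [if_neg (by norm_num), if_neg (by norm_num), if_neg (ne_of_lt h)]
        rw [es2, eb2]
        grind

end Cfsg.Agent.H1
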