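import Cfsg.Agent.H3.RootElements

/-!
An explicit regular unipotent element of the odd-dimensional special unitary group.
-/

set_option autoImplicit false

namespace Cfsg.Agent.H1

open Matrix Cfsg.Agent.H3

/-- The data of a regular unipotent with its fixed vector and a cyclic vector. -/
structure IsSuReg {F : Type*} [Field F] {q n : ℕ} (u : Cfsg.SU n F q) (e f : Fin n → F) : Prop where
  fix : ((u.1 : Matrix.SpecialLinearGroup (Fin n) F) : Matrix (Fin n) (Fin n) F) *ᵥ e = e
  iso_e : Cfsg.hermForm n F q e e = 0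
  iso_f : Cfsg.hermForm n F q f f = 0
  pair : Cfsg.hermForm n F q e f = 1
  vanish : (((u.1 : Matrix.SpecialLinearGroup (Fin n) F) : Matrix (Fin n) (Fin n) F) - 1) ^ n = 0
  top : ∃ a : F, a ≠ 0 ∧
    (((u.1 : Matrix.SpecialLinearGroup (Fin n) F) : Matrix (Fin n) (Fin n) F) - 1) ^ (n - 1) *ᵥ f =
      a • e

variable {F : Type*} [Field F] {k : ℕ}

local notation "ι" => Fin (k + 1)

/-- The unipotent bidiagonal matrix. -/
def suA (k : ℕ) (F : Type*) [Field F] : Matrix (Fin (k + 1)) (Fin (k + 1)) F :=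
  Matrix.of fun i j => if j = i ∨ (j : ℕ) = i + 1 then 1 else 0

/-- The nilpotent shift. -/
def suN (k : ℕ) (F : Type*) [Field F] : Matrix (Fin (k + 1)) (Fin (k + 1)) F :=
  Matrix.of fun i j => if (j : ℕ) = i + 1 then 1 else 0

lemma suA_eq : suA k F = 1 + suN k F := by
  ext i j
  simp only [suA, suN, Matrix.of_apply, Matrix.add_apply, Matrix.one_apply]
  by_cases h : i = j
  · subst h; simp
  · simp [h, Ne.symm h]

lemma suN_pow (a : ℕ) :
    suN k F ^ a = Matrix.of fun i j : ι => if (j : ℕ) = i + a then 1 else 0 := by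
  induction a with
  | zero => ext i j; simp [Matrix.one_apply, Fin.ext_iff, eq_comm]
  | succ a ih =>
    rw [pow_succ, ih]
    ext i j
    simp only [Matrix.mul_apply, suN, Matrix.of_apply]
    by_cases h : (i : ℕ) + a < k + 1
    · rw [Finset.sum_eq_single (⟨i + a, h⟩ : ι)]
      · simp [add_assoc]
      · intro b _ hb
        rw [if_neg (fun hb' => hb (Fin.ext hb')), zero_mul]
      · simp
    · rw [Finset.sum_eq_zero (fun b _ => by rw [if_neg (by omega), zero_mul]),
        if_neg (by omega)]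

lemma suN_pow_eq_zero {a : ℕ} (h : k + 1 ≤ a) : suN k F ^ a = 0 := by
  rw [suN_pow]; ext i j; simp only [Matrix.of_apply, Matrix.zero_apply]
  rw [if_neg (by omega)]

lemma det_suA : (suA k F).det = 1 := by
  rw [Matrix.det_of_upperTriangular]
  · simp [suA]
  · intro i j (hij : j < i)
    simp only [suA, Matrix.of_apply]
    rw [if_neg]
    have : (j : ℕ) < i := hij
    rintro (rfl | h) <;> omega

lemma isUnit_det_suA : IsUnit (suA k F).det := by simp [det_suA]

lemma suA_map {σ : F →+* F} : (suA k F).map σ = suA k F := by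
  ext i j
  simp only [Matrix.map_apply, suA, Matrix.of_apply]
  split_ifs <;> simp

lemma suA_inv_map {σ : F →+* F} : ((suA k F)⁻¹).map σ = (suA k F)⁻¹ := by
  refine (Matrix.inv_eq_right_inv ?_).symm
  conv_lhs => arg 1; rw [← suA_map (σ := σ)]
  rw [← Matrix.map_mul, Matrix.mul_nonsing_inv _ isUnit_det_suA]
  exact Matrix.map_one _ (map_zero σ) (map_one σ)

lemma vecMul_suA (r : ι → F) (j : ι) :
    (r ᵥ* suA k F) j = r j + if h : (j : ℕ) = 0 then 0 else r ⟨j - 1, by omega⟩ := by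
  simp only [Matrix.vecMul, dotProduct, suA, Matrix.of_apply]
  split_ifs with h
  · rw [Finset.sum_eq_single j] <;> simp +contextual [Fin.ext_iff] <;> omega
  · rw [Finset.sum_eq_add_of_mem (a := j) (b := (⟨j - 1, by omega⟩ : ι)) (Finset.mem_univ _)
      (Finset.mem_univ _) (by simp [Fin.ext_iff]; omega)]
    · rw [if_pos (Or.inl rfl), if_pos (Or.inr (by simp; omega))]; ring
    · rintro b - ⟨hb1, hb2⟩
      rw [if_neg, mul_zero]
      rintro (rfl | hb)
      · exact hb1 rfl
      · exact hb2 (Fin.ext (by simp; omega))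

lemma suA_inv_transpose_mulVec {r s : ι → F} (h : s ᵥ* suA k F = r) :
    ((suA k F)⁻¹)ᵀ *ᵥ r = s := by
  rw [← h, Matrix.mulVec_transpose, Matrix.vecMul_vecMul,
    Matrix.mul_nonsing_inv _ isUnit_det_suA, Matrix.vecMul_one]

lemma suN_comm_inv : Commute (suN k F) ((suA k F)⁻¹) := by
  have hc : suA k F * suN k F = suN k F * suA k F := by
    rw [suA_eq, add_mul, mul_add, one_mul, mul_one]
  have h1 := Matrix.nonsing_inv_mul _ (isUnit_det_suA (k := k) (F := F))
  have h2 := Matrix.mul_nonsing_inv _ (isUnit_det_suA (k := k) (F := F))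
  show suN k F * (suA k F)⁻¹ = (suA k F)⁻¹ * suN k F
  calc suN k F * (suA k F)⁻¹
      = ((suA k F)⁻¹ * suA k F) * (suN k F * (suA k F)⁻¹) := by rw [h1, one_mul]
    _ = (suA k F)⁻¹ * (suA k F * suN k F) * (suA k F)⁻¹ := by simp only [mul_assoc]
    _ = (suA k F)⁻¹ * suN k F * (suA k F * (suA k F)⁻¹) := by rw [hc]; simp only [mul_assoc]
    _ = (suA k F)⁻¹ * suN k F := by rw [h2, mul_one]

lemma suN_pow_mul_suA {a : ℕ} (h : k ≤ a) : suN k F ^ a * suA k F = suN k F ^ a := by
  rw [suA_eq, mul_add, mul_one, ← pow_succ, suN_pow_eq_zero (by omega : k + 1 ≤ a + 1), add_zero]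

lemma suN_pow_mul_inv {a : ℕ} (h : k ≤ a) (b : ℕ) :
    suN k F ^ a * ((suA k F)⁻¹) ^ b = suN k F ^ a := by
  induction b with
  | zero => simp
  | succ b ih =>
    rw [pow_succ, ← mul_assoc, ih]
    nth_rewrite 1 [← suN_pow_mul_suA h]
    rw [mul_assoc, Matrix.mul_nonsing_inv _ isUnit_det_suA, mul_one]

variable [Fintype F] {q : ℕ} (hF : Fintype.card F = q ^ 2)

local notation "σ" => conjQ hF

attribute [-simp] conjQ_apply

/-- The carrier of the model. -/
abbrev SuModel (k : ℕ) (F : Type*) := (Fin (k + 1) → F) × F × (Fin (k + 1) → F)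

/-- The model Hermitian form. -/
def modelForm : SuModel k F →ₛₗ[σ] SuModel k F →ₗ[F] F :=
  LinearMap.mk₂'ₛₗ σ (RingHom.id F)
    (fun v w => w.1 ⬝ᵥ (σ ∘ v.2.2) + w.2.1 * σ v.2.1 + w.2.2 ⬝ᵥ (σ ∘ v.1))
    (fun v v' w => by
      simp only [Prod.fst_add, Prod.snd_add, dotProduct, Function.comp_apply, Pi.add_apply, map_add,
        mul_add, Finset.sum_add_distrib]
      ring)
    (fun c v w => by
      simp only [Prod.smul_fst, Prod.smul_snd, dotProduct, Function.comp_apply, Pi.smul_apply,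
        smul_eq_mul, map_mul, Finset.mul_sum, mul_add]
      congr 1
      · congr 1
        · exact Finset.sum_congr rfl fun i _ => by ring
        · ring
      · exact Finset.sum_congr rfl fun i _ => by ring)
    (fun v w w' => by
      simp only [Prod.fst_add, Prod.snd_add, add_dotProduct, add_mul]
      ring)
    (fun c v w => by
      simp only [Prod.smul_fst, Prod.smul_snd, smul_dotProduct, smul_eq_mul, RingHom.id_apply]
      ring)

lemma modelForm_apply (v w : SuModel k F) :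
    modelForm hF v w = w.1 ⬝ᵥ (σ ∘ v.2.2) + w.2.1 * σ v.2.1 + w.2.2 ⬝ᵥ (σ ∘ v.1) := rfl

lemma isHerm_modelForm : IsHerm (modelForm (k := k) hF) q := by
  refine ⟨hF, fun x => rfl, fun x y => ?_, fun x hx => ?_⟩
  · simp only [modelForm_apply, map_add, map_mul, dotProduct, map_sum, Function.comp_apply,
      conjQ_conjQ hF]
    simp only [mul_comm]
    ring
  · have h1 : ∀ i, x.1 i = 0 := fun i => by
      have := hx (0, 0, Pi.single i 1)
      simpa [modelForm_apply, single_dotProduct] using this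
    have h2 : x.2.1 = 0 := by
      have := hx (0, 1, 0)
      simpa [modelForm_apply] using this
    have h3 : ∀ i, x.2.2 i = 0 := fun i => by
      have := hx (Pi.single i 1, 0, 0)
      simpa [modelForm_apply, single_dotProduct] using this
    exact Prod.ext (funext h1) (Prod.ext h2 (funext h3))

/-- The upper triangular matrix `S`. -/
def suS (b s : ι → F) : Matrix ι ι F :=
  Matrix.of fun i j => if i = j then s i else if i < j then -(b i * σ (b j)) else 0

/-- The model regular unipotent. -/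
noncomputable def modelMap (b s : ι → F) : SuModel k F →ₗ[F] SuModel k F where
  toFun v := (suA k F *ᵥ (v.1 + v.2.1 • b + suS hF b s *ᵥ v.2.2),
    v.2.1 - (σ ∘ b) ⬝ᵥ v.2.2, ((suA k F)⁻¹)ᵀ *ᵥ v.2.2)
  map_add' v w := by
    refine Prod.ext ?_ (Prod.ext ?_ ?_)
    · simp only [Prod.fst_add, Prod.snd_add, Matrix.mulVec_add, add_smul]; abel
    · simp only [Prod.fst_add, Prod.snd_add, dotProduct_add]; ring
    · simp only [Prod.snd_add, Matrix.mulVec_add]
  map_smul' c v := by
    refine Prod.ext ?_ (Prod.ext ?_ ?_)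
    · simp only [Prod.smul_fst, Prod.smul_snd, RingHom.id_apply, Matrix.mulVec_add,
        Matrix.mulVec_smul, smul_eq_mul, ← smul_smul, smul_add]
    · simp only [Prod.smul_fst, Prod.smul_snd, RingHom.id_apply, dotProduct_smul, smul_eq_mul]; ring
    · simp only [Prod.smul_snd, RingHom.id_apply, Matrix.mulVec_smul]

lemma modelMap_apply (b s : ι → F) (X : ι → F) (z : F) (Y : ι → F) :
    modelMap hF b s (X, z, Y) = (suA k F *ᵥ (X + z • b + suS hF b s *ᵥ Y),
      z - (σ ∘ b) ⬝ᵥ Y, ((suA k F)⁻¹)ᵀ *ᵥ Y) := rfl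

lemma suA_pair (X Y : ι → F) :
    (suA k F *ᵥ X) ⬝ᵥ (σ ∘ (((suA k F)⁻¹)ᵀ *ᵥ Y)) = X ⬝ᵥ (σ ∘ Y) := by
  have h : σ ∘ (((suA k F)⁻¹)ᵀ *ᵥ Y) = ((suA k F)⁻¹)ᵀ *ᵥ (σ ∘ Y) := by
    ext i
    rw [Function.comp_apply, RingHom.map_mulVec, Matrix.transpose_map, suA_inv_map]
  rw [h, Matrix.dotProduct_mulVec, Matrix.vecMul_transpose, Matrix.mulVec_mulVec,
    Matrix.nonsing_inv_mul _ isUnit_det_suA, Matrix.one_mulVec]

lemma suS_add (b s : ι → F) (hbs : ∀ i, s i + σ (s i) + b i * σ (b i) = 0) (i j : ι) :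
    suS hF b s i j + σ (suS hF b s j i) + b i * σ (b j) = 0 := by
  simp only [suS, Matrix.of_apply]
  rcases lt_trichotomy i j with h | h | h
  · simp [h, h.ne, h.ne', not_lt.2 h.le]
  · subst h; simpa using hbs i
  · simp [h, h.ne, h.ne', not_lt.2 h.le, conjQ_conjQ hF]
    ring

lemma modelMap_preserves (b s : ι → F) (hbs : ∀ i, s i + σ (s i) + b i * σ (b i) = 0)
    (v w : SuModel k F) :
    modelForm hF (modelMap hF b s v) (modelMap hF b s w) = modelForm hF v w := by
  obtain ⟨X, z, Y⟩ := v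
  obtain ⟨X', z', Y'⟩ := w
  have flip : ∀ U W : ι → F, (((suA k F)⁻¹)ᵀ *ᵥ W) ⬝ᵥ (σ ∘ (suA k F *ᵥ U)) = W ⬝ᵥ (σ ∘ U) := by
    intro U W
    have := congrArg σ (suA_pair hF U W)
    simp only [dotProduct, map_sum, map_mul, Function.comp_apply, conjQ_conjQ hF] at this
    simp only [dotProduct, Function.comp_apply]
    simpa only [mul_comm] using this
  simp only [modelForm_apply, modelMap_apply, suA_pair, flip]
  have e : σ ∘ (X + z • b + suS hF b s *ᵥ Y) =
      σ ∘ X + σ z • (σ ∘ b) + σ ∘ (suS hF b s *ᵥ Y) := by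
    ext i
    simp only [Function.comp_apply, Pi.add_apply, Pi.smul_apply, smul_eq_mul, map_add, map_mul]
  have e2 : b ⬝ᵥ (σ ∘ Y) = σ ((σ ∘ b) ⬝ᵥ Y) := by
    simp only [dotProduct, map_sum, map_mul, Function.comp_apply, conjQ_conjQ hF]
  have key : (suS hF b s *ᵥ Y') ⬝ᵥ (σ ∘ Y) + Y' ⬝ᵥ (σ ∘ (suS hF b s *ᵥ Y)) +
      ((σ ∘ b) ⬝ᵥ Y') * σ ((σ ∘ b) ⬝ᵥ Y) = 0 := by
    have c1 : (suS hF b s *ᵥ Y') ⬝ᵥ (σ ∘ Y) = ∑ i, ∑ j, suS hF b s i j * Y' j * σ (Y i) := by
      simp only [dotProduct, Matrix.mulVec, Finset.sum_mul, Function.comp_apply]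
    have c2 : Y' ⬝ᵥ (σ ∘ (suS hF b s *ᵥ Y)) =
        ∑ i, ∑ j, σ (suS hF b s j i) * Y' j * σ (Y i) := by
      simp only [dotProduct, Matrix.mulVec, Finset.mul_sum, Function.comp_apply, map_sum, map_mul]
      rw [Finset.sum_comm]
      exact Finset.sum_congr rfl fun i _ => Finset.sum_congr rfl fun j _ => by ring
    have c3 : ((σ ∘ b) ⬝ᵥ Y') * σ ((σ ∘ b) ⬝ᵥ Y) =
        ∑ i, ∑ j, b i * σ (b j) * Y' j * σ (Y i) := by
      rw [← e2, dotProduct, dotProduct, Finset.sum_mul_sum, Finset.sum_comm]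
      simp only [Function.comp_apply]
      exact Finset.sum_congr rfl fun i _ => Finset.sum_congr rfl fun j _ => by ring
    rw [c1, c2, c3, ← Finset.sum_add_distrib, ← Finset.sum_add_distrib]
    refine Finset.sum_eq_zero fun i _ => ?_
    rw [← Finset.sum_add_distrib, ← Finset.sum_add_distrib]
    exact Finset.sum_eq_zero fun j _ => by
      linear_combination (Y' j * σ (Y i)) * suS_add hF b s hbs i j
  rw [e]
  simp only [add_dotProduct, dotProduct_add, smul_dotProduct, dotProduct_smul, smul_eq_mul, map_sub,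
    e2, dotProduct_comm Y' (σ ∘ b)]
  linear_combination key

/-- The fixed vector of the model. -/
def modelE (k : ℕ) (F : Type*) [Field F] : SuModel k F := (Pi.single 0 1, 0, 0)

/-- The cyclic vector of the model. -/
def modelF (k : ℕ) (F : Type*) [Field F] : SuModel k F := (0, 0, Pi.single 0 1)

lemma suA_mulVec_single_zero (a : F) : suA k F *ᵥ Pi.single (0 : ι) a = Pi.single 0 a := by
  ext i
  rw [Matrix.mulVec_single]
  simp only [Pi.smul_apply, Matrix.col_apply, suA, Matrix.of_apply, MulOpposite.smul_eq_mul_unop,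
    MulOpposite.unop_op, Pi.single_apply, Fin.ext_iff, Fin.val_zero]
  by_cases h : (i : ℕ) = 0
  · simp [h]
  · simp [h, Ne.symm h]

lemma modelMap_E (b s : ι → F) : modelMap hF b s (modelE k F) = modelE k F := by
  rw [modelE, modelMap_apply]
  simp only [zero_smul, Matrix.mulVec_zero, add_zero, suA_mulVec_single_zero, dotProduct_zero,
    sub_zero]

/-- First row of the inverse. -/
def suR1 (k : ℕ) (F : Type*) [Field F] : Fin (k + 1) → F := fun i => (-1) ^ (i : ℕ)

/-- First row of the inverse square. -/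
def suR2 (k : ℕ) (F : Type*) [Field F] : Fin (k + 1) → F :=
  fun i => ((i : ℕ) + 1) * (-1) ^ (i : ℕ)

lemma suA_inv_single : ((suA k F)⁻¹)ᵀ *ᵥ Pi.single 0 1 = suR1 k F := by
  refine suA_inv_transpose_mulVec (funext fun j => ?_)
  rw [vecMul_suA]
  obtain ⟨j, hj⟩ := j
  rcases j with _ | j
  · simp [suR1]
  · simp [suR1, Fin.ext_iff, pow_succ, Pi.single_apply]

lemma suA_inv_R1 : ((suA k F)⁻¹)ᵀ *ᵥ suR1 k F = suR2 k F := by
  refine suA_inv_transpose_mulVec (funext fun j => ?_)
  rw [vecMul_suA]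
  obtain ⟨j, hj⟩ := j
  rcases j with _ | j
  · simp [suR1, suR2]
  · simp [suR1, suR2, pow_succ]; ring

lemma suS_col_zero (b s : ι → F) : suS hF b s *ᵥ Pi.single 0 1 = Pi.single 0 (s 0) := by
  ext i
  rw [Matrix.mulVec_single_one, Matrix.col_apply]
  simp only [suS, Matrix.of_apply]
  by_cases h : i = 0
  · simp [h]
  · rw [if_neg h, if_neg (not_lt.2 (Fin.zero_le i)), Pi.single_eq_of_ne h]

lemma model_orbit_one (b s : ι → F) :
    modelMap hF b s (modelF k F) = (Pi.single 0 (s 0), -σ (b 0), suR1 k F) := by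
  rw [modelF, modelMap_apply, suA_inv_single, suS_col_zero, zero_smul, zero_add, zero_add,
    suA_mulVec_single_zero, dotProduct_single, mul_one, zero_sub]
  rfl

lemma model_orbit_two (b s : ι → F) :
    modelMap hF b s (modelMap hF b s (modelF k F)) =
      (suA k F *ᵥ (Pi.single 0 (s 0) + (-σ (b 0)) • b + suS hF b s *ᵥ suR1 k F),
        -σ (b 0) - (σ ∘ b) ⬝ᵥ suR1 k F, suR2 k F) := by
  rw [model_orbit_one, modelMap_apply, suA_inv_R1]

lemma modelForm_F (v : SuModel k F) : modelForm hF (modelF k F) v = v.1 0 := by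
  simp [modelForm_apply, modelF, dotProduct, Pi.single_apply, apply_ite, Finset.sum_ite_eq']

lemma modelForm_EE : modelForm hF (modelE k F) (modelE k F) = 0 := by
  simp [modelForm_apply, modelE, dotProduct]

lemma modelForm_FF : modelForm hF (modelF k F) (modelF k F) = 0 := by
  rw [modelForm_F]; rfl

lemma modelForm_FE : modelForm hF (modelF k F) (modelE k F) = 1 := by
  rw [modelForm_F]; simp [modelE]

lemma model_sub_apply (b s : ι → F) (X : ι → F) (z : F) (Y : ι → F) :
    (modelMap hF b s - 1) (X, z, Y) = (suN k F *ᵥ X + suA k F *ᵥ (z • b + suS hF b s *ᵥ Y),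
      -((σ ∘ b) ⬝ᵥ Y), (((suA k F)⁻¹)ᵀ - 1) *ᵥ Y) := by
  rw [LinearMap.sub_apply, modelMap_apply, Module.End.one_apply]
  refine Prod.ext ?_ (Prod.ext ?_ ?_)
  · simp only [Prod.fst_sub]
    rw [add_assoc, Matrix.mulVec_add]
    nth_rewrite 1 [suA_eq]
    rw [Matrix.add_mulVec, Matrix.one_mulVec]; abel
  · simp only [Prod.fst_sub, Prod.snd_sub]; ring
  · simp only [Prod.snd_sub]; rw [Matrix.sub_mulVec, Matrix.one_mulVec]

lemma model_pow_Y (b s : ι → F) (j : ℕ) (v : SuModel k F) :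
    (((modelMap hF b s - 1) ^ j) v).2.2 = (((suA k F)⁻¹)ᵀ - 1) ^ j *ᵥ v.2.2 := by
  induction j with
  | zero => simp
  | succ j ih =>
    rw [pow_succ', Module.End.mul_apply, model_sub_apply, ih, pow_succ', ← Matrix.mulVec_mulVec]

lemma model_pow_z (b s : ι → F) (j : ℕ) (v : SuModel k F) :
    (((modelMap hF b s - 1) ^ (j + 1)) v).2.1 =
      -((σ ∘ b) ⬝ᵥ ((((suA k F)⁻¹)ᵀ - 1) ^ j *ᵥ v.2.2)) := by
  rw [pow_succ', Module.End.mul_apply, model_sub_apply, model_pow_Y]

lemma model_pow_X (b s : ι → F) (j : ℕ) (X : ι → F) :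
    ((modelMap hF b s - 1) ^ j) (X, 0, 0) = (suN k F ^ j *ᵥ X, 0, 0) := by
  induction j with
  | zero => simp
  | succ j ih =>
    rw [pow_succ', Module.End.mul_apply, ih, model_sub_apply, pow_succ', ← Matrix.mulVec_mulVec]
    simp

lemma inv_sub_one_pow (a : ℕ) :
    (((suA k F)⁻¹)ᵀ - 1) ^ a = ((-1 : F) ^ a • (suN k F ^ a * ((suA k F)⁻¹) ^ a))ᵀ := by
  have h : ((suA k F)⁻¹)ᵀ - 1 = (-(suN k F * (suA k F)⁻¹))ᵀ := by
    rw [← Matrix.transpose_one, ← Matrix.transpose_sub]
    congr 1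
    have hI := Matrix.mul_nonsing_inv _ (isUnit_det_suA (k := k) (F := F))
    have hs : suN k F = suA k F - 1 := by rw [suA_eq]; abel
    rw [hs, sub_mul, hI, one_mul]; abel
  rw [h, ← Matrix.transpose_pow, ← neg_one_smul F (suN k F * (suA k F)⁻¹), smul_pow,
    suN_comm_inv.mul_pow]

lemma model_pow_half (b s : ι → F) (v : SuModel k F) :
    ∃ X z, ((modelMap hF b s - 1) ^ (k + 1)) v = (X, z, 0) := by
  refine ⟨_, _, Prod.ext rfl (Prod.ext rfl ?_)⟩
  rw [model_pow_Y, inv_sub_one_pow, suN_pow_eq_zero le_rfl, zero_mul, smul_zero,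
    Matrix.transpose_zero, Matrix.zero_mulVec]

lemma model_vanish (b s : ι → F) : (modelMap hF b s - 1) ^ (2 * k + 3) = 0 := by
  refine LinearMap.ext fun v => ?_
  obtain ⟨X, z, h⟩ := model_pow_half hF b s v
  rw [show 2 * k + 3 = (k + 1) + (k + 1 + 1) by omega, pow_add, pow_succ' _ (k + 1)]
  have hv : ((modelMap hF b s - 1) * (modelMap hF b s - 1) ^ (k + 1)) v =
      (modelMap hF b s - 1) (X, z, 0) := by rw [Module.End.mul_apply, h]
  rw [Module.End.mul_apply, hv, model_sub_apply]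
  simp only [Matrix.mulVec_zero, add_zero, dotProduct_zero, neg_zero]
  rw [model_pow_X, suN_pow_eq_zero le_rfl, Matrix.zero_mulVec]
  rfl

lemma model_top (b s : ι → F) :
    ((modelMap hF b s - 1) ^ (2 * k + 2)) (modelF k F) =
      (-((-1 : F) ^ k) * σ (b (Fin.last k)) * b (Fin.last k)) • modelE k F := by
  obtain ⟨X, z, h⟩ := model_pow_half hF b s (modelF k F)
  have hz : z = -((-1 : F) ^ k) * σ (b (Fin.last k)) := by
    have h' := model_pow_z hF b s k (modelF k F)
    rw [h, inv_sub_one_pow, suN_pow_mul_inv le_rfl] at h'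
    rw [show z = ((X, z, (0 : ι → F)) : SuModel k F).2.1 from rfl, h']
    simp only [modelF, Matrix.mulVec_single_one, Matrix.transpose_smul, dotProduct, Matrix.col_apply,
      Matrix.smul_apply, Matrix.transpose_apply, suN_pow, Matrix.of_apply, smul_eq_mul,
      Function.comp_apply]
    rw [Finset.sum_eq_single (Fin.last k)]
    · simp; ring
    · intro i _ hi
      simp only [Fin.val_zero, zero_add]
      rw [if_neg (fun h'' => hi (Fin.ext (by simpa using h''))), mul_zero, mul_zero]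
    · simp
  rw [show 2 * k + 2 = k + (k + 1 + 1) by omega, pow_add, pow_succ' _ (k + 1)]
  have hv : ((modelMap hF b s - 1) * (modelMap hF b s - 1) ^ (k + 1)) (modelF k F) =
      (modelMap hF b s - 1) (X, z, 0) := by rw [Module.End.mul_apply, h]
  rw [Module.End.mul_apply, hv, model_sub_apply]
  simp only [Matrix.mulVec_zero, add_zero, dotProduct_zero, neg_zero]
  rw [model_pow_X, Matrix.mulVec_add, Matrix.mulVec_mulVec, ← pow_succ, suN_pow_eq_zero le_rfl,
    Matrix.zero_mulVec, zero_add, Matrix.mulVec_mulVec, suN_pow_mul_suA le_rfl, Matrix.mulVec_smul,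
    modelE, Prod.smul_mk, Prod.smul_mk, smul_zero, smul_zero]
  congr 1
  ext i
  simp only [Pi.smul_apply, smul_eq_mul, Matrix.mulVec, dotProduct, suN_pow, Matrix.of_apply,
    Pi.single_apply]
  rw [hz]
  by_cases hi : i = 0
  · subst hi
    rw [Finset.sum_eq_single (Fin.last k)]
    · simp
    · intro j _ hj
      simp only [Fin.val_zero, zero_add]
      rw [if_neg (fun h'' => hj (Fin.ext (by simpa using h''))), zero_mul]
    · simp
  · have : (i : ℕ) ≠ 0 := fun h'' => hi (Fin.ext h'')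
    rw [Finset.sum_eq_zero fun j _ => by rw [if_neg (by omega), zero_mul]]
    simp [hi]

lemma det_one_add_nilpotent {n : ℕ} (N : Matrix (Fin n) (Fin n) F) (hN : IsNilpotent N) :
    (1 + N).det = 1 := by
  have h := Matrix.isNilpotent_charpoly_sub_pow_of_isNilpotent hN.neg
  rw [isNilpotent_iff_eq_zero, sub_eq_zero] at h
  have h' := Matrix.eval_charpoly (-N) 1
  rw [h, Polynomial.eval_pow, Polynomial.eval_X, one_pow, map_one, sub_neg_eq_add] at h'
  exact h'.symm

/-- Transport of the model into `SU n q`. -/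
theorem exists_suReg (n : ℕ) (hn : n = 2 * k + 3) (b s : ι → F)
    (hbs : ∀ i, s i + σ (s i) + b i * σ (b i) = 0) (hb : b (Fin.last k) ≠ 0) :
    ∃ (u : Cfsg.SU n F q) (φ : SuModel k F ≃ₗ[F] (Fin n → F)),
      IsSuReg u (φ (modelE k F)) (φ (modelF k F)) ∧
      (∀ v w, Cfsg.hermForm n F q (φ v) (φ w) = modelForm hF w v) ∧
      (∀ v, ((u.1 : Matrix.SpecialLinearGroup (Fin n) F) : Matrix (Fin n) (Fin n) F) *ᵥ φ v =
        φ (modelMap hF b s v)) := by
  have hfr : Module.finrank F (SuModel k F) = n := by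
    rw [Module.finrank_prod, Module.finrank_prod, Module.finrank_self, Module.finrank_fin_fun]
    omega
  obtain ⟨B, hB⟩ := (isHerm_modelForm (k := k) hF).exists_orth_basis hfr
  let φ := B.equivFun
  have hform : ∀ v w, Cfsg.hermForm n F q (φ v) (φ w) = modelForm hF w v := by
    intro v w
    conv_rhs => rw [← B.sum_equivFun w, map_sum, LinearMap.sum_apply]
    refine Finset.sum_congr rfl fun i _ => ?_
    conv_rhs => rw [LinearMap.map_smulₛₗ, LinearMap.smul_apply, ← B.sum_equivFun v, hB.apply_sum,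
      smul_eq_mul, conjQ_apply, mul_comm]
  let L : (Fin n → F) →ₗ[F] (Fin n → F) :=
    φ.toLinearMap.comp ((modelMap hF b s).comp φ.symm.toLinearMap)
  set M := LinearMap.toMatrix' L with hM
  have hMv : ∀ v, M *ᵥ φ v = φ (modelMap hF b s v) := fun v => by
    rw [hM, ← Matrix.toLin'_apply, Matrix.toLin'_toMatrix']
    simp [L]
  have hpow : ∀ j v, (M - 1) ^ j *ᵥ φ v = φ (((modelMap hF b s - 1) ^ j) v) := by
    intro j v
    induction j with
    | zero => simp
    | succ j ih =>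
      rw [pow_succ', ← Matrix.mulVec_mulVec, ih, pow_succ', Module.End.mul_apply, Matrix.sub_mulVec,
        Matrix.one_mulVec, hMv, LinearMap.sub_apply, Module.End.one_apply, map_sub]
  have hvan : (M - 1) ^ n = 0 := by
    refine Matrix.ext_of_mulVec_single fun i => ?_
    obtain ⟨v, hv⟩ := φ.surjective (Pi.single i 1)
    have hz : (modelMap hF b s - 1) ^ n = 0 := hn ▸ model_vanish hF b s
    rw [← hv, hpow, hz, LinearMap.zero_apply, map_zero, Matrix.zero_mulVec]
  have hdet : M.det = 1 := by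
    have := det_one_add_nilpotent (M - 1) ⟨n, hvan⟩
    rwa [add_sub_cancel] at this
  have hpres : ∀ x y, Cfsg.hermForm n F q (M *ᵥ x) (M *ᵥ y) = Cfsg.hermForm n F q x y := by
    intro x y
    obtain ⟨v, rfl⟩ := φ.surjective x
    obtain ⟨w, rfl⟩ := φ.surjective y
    rw [hMv, hMv, hform, hform, modelMap_preserves hF b s hbs]
  refine ⟨⟨⟨M, hdet⟩, mem_SU_iff.2 hpres⟩, φ, ?_, hform, hMv⟩
  refine ⟨by show M *ᵥ _ = _; rw [hMv, modelMap_E], by rw [hform, modelForm_EE],
    by rw [hform, modelForm_FF], by rw [hform, modelForm_FE], hvan,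
    -((-1 : F) ^ k) * σ (b (Fin.last k)) * b (Fin.last k), ?_, ?_⟩
  · exact mul_ne_zero (mul_ne_zero (neg_ne_zero.2 (pow_ne_zero _ (by simp)))
      ((map_ne_zero _).2 hb)) hb
  · show (M - 1) ^ (n - 1) *ᵥ _ = _
    rw [hpow, show n - 1 = 2 * k + 2 by omega, model_top, map_smul]

end Cfsg.Agent.H1
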