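import Cfsg.Agent.H3.RootElements

/-!
Field elements used for three-generation of special unitary groups: generators of the fixed field
with prescribed norm and trace properties.
-/

set_option autoImplicit false

namespace Cfsg.Agent.H1

open Cfsg.Agent.H3

variable {F : Type*} [Field F] [Fintype F] {q p e : ℕ} (hF : Fintype.card F = q ^ 2)

local notation "σ" => conjQ hF

attribute [-simp] conjQ_apply

include hF

omit [Fintype F] hF in
lemma pow_ne_of_half {z : F} (he : z ^ p ^ e = z)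
    (h : ∀ i, 1 ≤ i → 2 * i ≤ e → z ^ p ^ i ≠ z) : ∀ i, 1 ≤ i → i < e → z ^ p ^ i ≠ z := by
  intro i hi hie heq
  by_cases h2 : 2 * i ≤ e
  · exact h i hi h2 heq
  refine h (e - i) (by omega) (by omega) ?_
  conv_rhs => rw [← he, show e = i + (e - i) by omega, pow_add, pow_mul, heq]

/-- An element outside the proper subfields generates the fixed field. -/
lemma fixed_mem_of_generator [CharP F p] (hp : p.Prime) (hq : q = p ^ e) {z : F} (hz : σ z = z)
    (hgen : ∀ i, 1 ≤ i → 2 * i ≤ e → z ^ p ^ i ≠ z) (K : Subfield F) (hzK : z ∈ K) (x : F)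
    (hx : σ x = x) : x ∈ K := by
  classical
  haveI := Fact.mk hp
  set L := K ⊓ RingHom.eqLocusField (σ) (RingHom.id F) with hL
  obtain ⟨i, -, hcard⟩ := FiniteField.card L p
  have hi : 1 ≤ (i : ℕ) := i.2
  have hle : Fintype.card L ≤ q := by
    rw [← card_fixed hF, ← Nat.card_eq_fintype_card]
    refine Nat.card_le_card_of_injective (fun a : L => (⟨a.1, ?_⟩ : {x : F // x ^ q = x})) ?_
    · have := a.2.2
      rwa [← conjQ_apply hF]
    · exact fun a b hab => Subtype.ext (congrArg (fun t : {x : F // x ^ q = x} => t.1) hab)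
  have hie : (i : ℕ) ≤ e := by
    rw [hcard, hq] at hle
    exact (Nat.pow_le_pow_iff_right hp.one_lt).1 hle
  have hzL : z ∈ L := ⟨hzK, hz⟩
  have hpow : z ^ p ^ (i : ℕ) = z := by
    have := congrArg Subtype.val (FiniteField.pow_card (⟨z, hzL⟩ : L))
    rwa [hcard, SubmonoidClass.coe_pow] at this
  rcases hie.eq_or_lt with h | h
  · have hbij : Function.Bijective (fun a : L => (⟨a.1, by
        rw [← conjQ_apply hF]; exact a.2.2⟩ : {x : F // x ^ q = x})) := by
      refine (Fintype.bijective_iff_injective_and_card _).2 ⟨?_, ?_⟩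
      · exact fun a b hab => Subtype.ext (congrArg (fun t : {x : F // x ^ q = x} => t.1) hab)
      · rw [hcard, h, ← hq, ← Nat.card_eq_fintype_card, card_fixed hF]
    obtain ⟨a, ha⟩ := hbij.2 ⟨x, by rw [← conjQ_apply hF]; exact hx⟩
    have hax : a.1 = x := congrArg Subtype.val ha
    exact hax ▸ a.2.1
  · exact absurd hpow (pow_ne_of_half (by rw [← hq, ← conjQ_apply hF]; exact hz) hgen _ hi h)

/-- When `q` is prime the fixed field is the prime field. -/
lemma fixed_eq_natCast [CharP F p] (hp : p.Prime) (hq : q = p) {x : F} (hx : σ x = x) :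
    ∃ k : ℕ, (k : F) = x := by
  classical
  subst hq
  let φ : Fin q → {x : F // x ^ q = x} := fun k => ⟨((k : ℕ) : F), by
    rw [← conjQ_apply hF, map_natCast]⟩
  have hbij : Function.Bijective φ := by
    refine (Fintype.bijective_iff_injective_and_card _).2 ⟨fun a b hab => ?_, ?_⟩
    · refine Fin.ext (CharP.natCast_injOn_Iio F q a.2 b.2 ?_)
      exact congrArg Subtype.val hab
    · rw [Fintype.card_fin, ← Nat.card_eq_fintype_card, card_fixed hF]
  obtain ⟨k, hk⟩ := hbij.2 ⟨x, by rw [← conjQ_apply hF]; exact hx⟩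
  exact ⟨k, congrArg Subtype.val hk⟩

/-- An element of trace one. -/
lemma exists_trace_one : ∃ w : F, w + σ w = 1 := by
  obtain ⟨w, hw⟩ := exists_trace_eq hF (a := 1) (one_pow q)
  exact ⟨w, by rwa [conjQ_apply]⟩

lemma exists_units_order : ∃ η : Fˣ, orderOf η = (q - 1) * (q + 1) := by
  obtain ⟨η, hη⟩ := IsCyclic.exists_generator (α := Fˣ)
  exact ⟨η, by rw [orderOf_eq_card_of_forall_mem_zpowers hη, card_units_eq hF]⟩

/-- A primitive element of the fixed field, with a square root of opposite conjugate when `q`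
is odd. -/
lemma exists_fixed_primitive : ∃ x δ : F, x ≠ 0 ∧ δ ≠ 0 ∧ σ x = x ∧
    (∀ j, x ^ j = 1 → q - 1 ∣ j) ∧ (Odd q → δ * δ = x ∧ σ δ = -δ) := by
  obtain ⟨η, hη⟩ := exists_units_order hF
  have h2 := two_le_q hF
  refine ⟨(η : F) ^ (q + 1), (η : F) ^ ((q + 1) / 2), pow_ne_zero _ η.ne_zero,
    pow_ne_zero _ η.ne_zero, by rw [conjQ_apply]; exact norm_pow_q hF _, ?_, ?_⟩
  · intro j hj
    have h1 : η ^ ((q + 1) * j) = 1 := Units.ext (by
      rw [Units.val_pow_eq_pow_val, pow_mul, hj, Units.val_one])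
    have := orderOf_dvd_of_pow_eq_one h1
    rw [hη, mul_comm (q + 1) j] at this
    exact Nat.dvd_of_mul_dvd_mul_right (by omega) this
  · rintro ⟨m, hm⟩
    constructor
    · rw [← pow_add]; congr 1; omega
    · set δ := η ^ ((q + 1) / 2) with hδ
      have hsq : (δ ^ (q - 1)) ^ 2 = 1 := by
        rw [hδ, ← pow_mul, ← pow_mul, ← orderOf_dvd_iff_pow_eq_one, hη,
          show (q + 1) / 2 * ((q - 1) * 2) = (q - 1) * ((q + 1) / 2 * 2) by ring,
          show (q + 1) / 2 * 2 = q + 1 by omega]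
      have hne : δ ^ (q - 1) ≠ 1 := by
        intro h
        rw [hδ, ← pow_mul, ← orderOf_dvd_iff_pow_eq_one, hη] at h
        have := Nat.le_of_dvd (Nat.mul_pos (by omega) (by omega)) h
        rw [mul_comm (q - 1)] at this
        have := Nat.le_of_mul_le_mul_right this (by omega)
        omega
      have hval : (δ : F) ^ (q - 1) = -1 := by
        have h' : ((δ : F) ^ (q - 1)) ^ 2 = 1 := by
          have := congrArg Units.val hsq
          simpa using this
        exact (sq_eq_one_iff.1 h').resolve_left fun h => hne (Units.ext (by simpa using h))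
      have e1 : (η : F) ^ ((q + 1) / 2) = (δ : F) := by rw [hδ, Units.val_pow_eq_pow_val]
      rw [e1, conjQ_apply, show q = (q - 1) + 1 by omega, pow_succ, hval, neg_one_mul]

/-- Generators for the three-dimensional case in odd characteristic. -/
lemma exists_gen_odd [CharP F p] (hp : p.Prime) (hq : q = p ^ e) (he : 2 ≤ e) (h2 : (2 : F) ≠ 0) :
    ∃ D : F, D ≠ 0 ∧ σ D = -D ∧ ∀ i, 1 ≤ i → 2 * i ≤ e →
      ((-((1 + D) / 2 * ((1 - D) / 2)) / D ^ 2) ^ 2) ^ p ^ i ≠
        (-((1 + D) / 2 * ((1 - D) / 2)) / D ^ 2) ^ 2 := by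
  haveI := Fact.mk hp
  have hpodd : p ≠ 2 := by
    rintro rfl
    exact h2 (by simpa using CharP.cast_eq_zero F 2)
  have hqodd : Odd q := by rw [hq]; exact (hp.odd_of_ne_two hpodd).pow
  obtain ⟨x, δ, hx0, hδ0, hxf, hord, hodd⟩ := exists_fixed_primitive hF
  obtain ⟨hδ, hδσ⟩ := hodd hqodd
  have hq4 : 4 ≤ q := by
    rw [hq]
    calc 4 = 2 ^ 2 := rfl
      _ ≤ p ^ 2 := Nat.pow_le_pow_left hp.two_le 2
      _ ≤ p ^ e := Nat.pow_le_pow_right hp.pos he
  have key : ∀ D y : F, D ≠ 0 → D ^ 2 * y = 1 → (∀ j, y ^ j = 1 → q - 1 ∣ j) → ∀ i, 1 ≤ i →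
      2 * i ≤ e → ((-((1 + D) / 2 * ((1 - D) / 2)) / D ^ 2) ^ 2) ^ p ^ i =
        (-((1 + D) / 2 * ((1 - D) / 2)) / D ^ 2) ^ 2 → 2 * i = e ∧ y ^ p ^ i = 2 - y := by
    intro D y hD hDy hy i hi hie h
    have h4 : (4 : F) ≠ 0 := by
      rw [show (4 : F) = 2 * 2 by norm_num]; exact mul_ne_zero h2 h2
    have hy0 : y ≠ 0 := fun h => by rw [h, mul_zero] at hDy; exact zero_ne_one hDy
    have hz : -((1 + D) / 2 * ((1 - D) / 2)) / D ^ 2 = (1 - y) / 4 := by
      field_simp
      linear_combination 4 * hDy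
    rw [hz, ← pow_mul, mul_comm 2, pow_mul, ← iterateFrobenius_def] at h
    have hr2 : 2 ≤ p ^ i := le_trans hp.two_le (Nat.le_self_pow (by omega) p)
    have hrq : p ^ i * p ^ i ≤ q := by
      rw [hq, ← pow_add]; exact Nat.pow_le_pow_right hp.pos (by omega)
    have hlt : p ^ i < q := lt_of_lt_of_le (lt_mul_self (by omega)) hrq
    have hone : ∀ r, 2 ≤ r → r ≤ q → y ^ r = y → r = q := by
      intro r hr hrq hyr
      have : y ^ (r - 1) = 1 := by
        apply mul_right_cancel₀ hy0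
        rw [one_mul, ← pow_succ, Nat.sub_add_cancel (by omega), hyr]
      have := Nat.le_of_dvd (by omega) (hy _ this)
      omega
    rcases sq_eq_sq_iff_eq_or_eq_neg.1 h with h | h
    · rw [map_div₀, map_ofNat, div_left_inj' h4, map_sub, map_one, iterateFrobenius_def,
        sub_right_inj] at h
      have := hone _ hr2 hlt.le h
      omega
    · rw [map_div₀, map_ofNat, ← neg_div, div_left_inj' h4, map_sub, map_one,
        iterateFrobenius_def] at h
      have hyr : y ^ p ^ i = 2 - y := by linear_combination -h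
      refine ⟨?_, hyr⟩
      have hyy : y ^ (p ^ i * p ^ i) = y := by
        rw [pow_mul, hyr, ← iterateFrobenius_def, map_sub, map_ofNat, iterateFrobenius_def, hyr]
        ring
      have := hone _ (le_trans hr2 (Nat.le_mul_self _)) hrq hyy
      rw [hq, ← pow_add] at this
      have := Nat.pow_right_injective hp.two_le this
      omega
  have hord' : ∀ j, x⁻¹ ^ j = 1 → q - 1 ∣ j := fun j hj => hord j (by
    rw [inv_pow, inv_eq_one] at hj; exact hj)
  by_cases hb : ∃ i, 1 ≤ i ∧ 2 * i ≤ e ∧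
      ((-((1 + δ⁻¹) / 2 * ((1 - δ⁻¹) / 2)) / δ⁻¹ ^ 2) ^ 2) ^ p ^ i =
        (-((1 + δ⁻¹) / 2 * ((1 - δ⁻¹) / 2)) / δ⁻¹ ^ 2) ^ 2
  · obtain ⟨i, hi, hie, h⟩ := hb
    obtain ⟨hie2, hxr⟩ := key δ⁻¹ x (inv_ne_zero hδ0) (by rw [← hδ]; field_simp) hord i hi hie h
    refine ⟨δ, hδ0, hδσ, fun j hj hje h' => ?_⟩
    obtain ⟨hje2, hxr'⟩ := key δ x⁻¹ hδ0 (by rw [← hδ]; field_simp) hord' j hj hje h'
    obtain rfl : j = i := by omega
    rw [inv_pow, hxr] at hxr'
    have hne : (2 : F) - x ≠ 0 := hxr ▸ pow_ne_zero _ hx0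
    field_simp at hxr'
    have h0 : (x - 1) ^ 2 = 0 := by
      apply mul_left_cancel₀ h2
      linear_combination hxr'
    rw [sq_eq_zero_iff, sub_eq_zero] at h0
    have := Nat.le_of_dvd one_pos (hord 1 (by rw [h0, one_pow]))
    omega
  · push Not at hb
    exact ⟨δ⁻¹, inv_ne_zero hδ0, by rw [map_inv₀, hδσ, inv_neg], hb⟩

open Polynomial in
/-- Generators for the three-dimensional case in characteristic two. -/
lemma exists_gen_even (hq : q = 2 ^ e) (he : 2 ≤ e) (h2 : (2 : F) = 0) :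
    ∃ w : F, w + σ w = 1 ∧ ∀ i, 1 ≤ i → 2 * i ≤ e →
      (((w * w + w)) ^ 2) ^ 2 ^ i ≠ (w * w + w) ^ 2 := by
  classical
  haveI : CharP F 2 := CharTwo.of_one_ne_zero_of_two_eq_zero one_ne_zero h2
  let P : ℕ → F[X] := fun i => (X * X + X) ^ (2 ^ i - 1) - 1
  have hP : ∀ i, P i ≠ 0 ∨ i = 0 := fun i => by
    rcases Nat.eq_zero_or_pos i with h | h
    · exact Or.inr h
    · refine Or.inl fun h0 => ?_
      have := congrArg (eval 0) h0
      have h1 : 2 ^ i - 1 ≠ 0 := by have := Nat.one_lt_two_pow h.ne'; omega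
      simp [P, zero_pow h1] at this
  have hdeg : ∀ i, (P i).natDegree ≤ 2 * (2 ^ i - 1) := fun i => by
    refine (natDegree_sub_le _ _).trans (max_le ?_ (by simp))
    refine natDegree_pow_le.trans ?_
    rw [mul_comm 2]
    refine Nat.mul_le_mul_left _ ((natDegree_add_le _ _).trans (max_le ?_ (by simp)))
    refine natDegree_mul_le.trans ?_
    simp
  set S : Finset F := Finset.univ.filter fun w => w + σ w = 1 with hS
  have hcard : S.card = q := by
    obtain ⟨w₀, hw₀⟩ := exists_trace_one hF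
    rw [hS, ← Fintype.card_subtype, ← Nat.card_eq_fintype_card]
    refine Eq.trans ?_ (card_trace_zero hF)
    refine Nat.card_congr ((Equiv.subRight w₀).subtypeEquiv fun w => ?_)
    rw [← conjQ_apply hF, Equiv.subRight_apply, map_sub]
    constructor <;> intro h
    · linear_combination h - hw₀
    · linear_combination h + hw₀
  set B : Finset F := (Finset.Icc 1 (e / 2)).biUnion fun i => (P i).roots.toFinset with hB
  have hsum : ∀ h, ∑ i ∈ Finset.Icc 1 h, 2 * (2 ^ i - 1) + 4 + 2 * h = 2 ^ (h + 2) := by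
    intro h
    induction h with
    | zero => simp
    | succ h ih =>
      rw [Finset.sum_Icc_succ_top (by omega)]
      have : 1 ≤ 2 ^ (h + 1) := Nat.one_le_two_pow
      rw [pow_succ 2 (h + 2)]
      have : 2 ^ (h + 2) = 2 * 2 ^ (h + 1) := by ring
      omega
  have hBc : B.card < q := by
    refine lt_of_le_of_lt (Finset.card_biUnion_le.trans (Finset.sum_le_sum fun i _ =>
      ((Multiset.toFinset_card_le _).trans (card_roots' _)).trans (hdeg i))) ?_
    have h1 := hsum (e / 2)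
    rw [hq]
    rcases he.eq_or_lt with rfl | h3
    · simp
    · have : 2 ^ (e / 2 + 2) ≤ 2 ^ e := Nat.pow_le_pow_right (by norm_num) (by omega)
      omega
  obtain ⟨w, hwS, hwB⟩ : ∃ w ∈ S, w ∉ B := by
    by_contra h
    push Not at h
    exact absurd (Finset.card_le_card (s := S) (t := B) h) (by omega)
  rw [hS, Finset.mem_filter] at hwS
  refine ⟨w, hwS.2, fun i hi hie h => hwB ?_⟩
  have hi' : i ≠ 0 := by omega
  rw [hB, Finset.mem_biUnion]
  refine ⟨i, Finset.mem_Icc.2 ⟨hi, by omega⟩, ?_⟩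
  rw [Multiset.mem_toFinset, mem_roots ((hP i).resolve_right hi'), IsRoot]
  have h' : (w * w + w) ^ 2 ^ i = w * w + w := by
    rw [pow_right_comm] at h
    exact (frobenius_inj F 2) (by rw [frobenius_def, frobenius_def]; exact h)
  have h0 : w * w + w ≠ 0 := by
    intro h0
    rcases mul_eq_zero.1 (show w * (w + 1) = 0 by linear_combination h0) with h3 | h3
    · rw [h3, map_zero, add_zero] at hwS; exact zero_ne_one hwS.2
    · have : w = 1 := by linear_combination h3 - h2
      rw [this, map_one] at hwS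
      exact zero_ne_one (by linear_combination hwS.2 - h2)
  have h1 : (w * w + w) ^ (2 ^ i - 1) = 1 := by
    apply mul_right_cancel₀ h0
    rw [one_mul, ← pow_succ, Nat.sub_add_cancel Nat.one_le_two_pow, h']
  simp [P, h1]

open Polynomial in
/-- The invariant `c` in dimension at least five. -/
lemma exists_norm_avoid (hq : 4 ≤ q) {N μ : F} (hN : N ≠ 0) (hNf : σ N = N) (hμ : μ ≠ 0) :
    ∃ c : F, c * σ c = N ∧ c + σ c ≠ 0 ∧ μ * (c - σ c) + N - 4 ≠ 0 := by
  classical
  set A : F[X] := X ^ 2 + C N with hA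
  set B : F[X] := C μ * X ^ 2 + C (N - 4) * X + C (-(μ * N)) with hB
  have hA2 : A.natDegree = 2 := by rw [hA]; compute_degree!
  have hB2 : B.natDegree = 2 := natDegree_quadratic hμ
  have hA0 : A ≠ 0 := fun h => by rw [h] at hA2; simp at hA2
  have hB0 : B ≠ 0 := fun h => by rw [h] at hB2; simp at hB2
  set S : Finset F := Finset.univ.filter fun c => c ^ (q + 1) = N with hS
  have hc : S.card = q + 1 := by
    rw [hS, ← Fintype.card_subtype, ← Nat.card_eq_fintype_card,
      card_norm_eq hF hN (by rw [← conjQ_apply hF]; exact hNf)]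
  obtain ⟨c, hcS, hcB⟩ : ∃ c ∈ S, c ∉ (A * B).roots.toFinset := by
    by_contra h
    push Not at h
    have := ((Finset.card_le_card (s := S) h).trans (Multiset.toFinset_card_le _)).trans
      (card_roots' _)
    rw [natDegree_mul hA0 hB0, hA2, hB2] at this
    omega
  rw [hS, Finset.mem_filter] at hcS
  have hNc : c * σ c = N := by rw [conjQ_apply, ← pow_succ']; exact hcS.2
  have hc0 : c ≠ 0 := fun h => hN (by rw [← hNc, h, zero_mul])
  rw [Multiset.mem_toFinset, mem_roots (mul_ne_zero hA0 hB0), IsRoot, eval_mul, mul_eq_zero,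
    not_or] at hcB
  refine ⟨c, hNc, fun h => hcB.1 ?_, fun h => hcB.2 ?_⟩
  · simp only [hA, eval_add, eval_pow, eval_X, eval_C]
    linear_combination c * h - hNc
  · simp only [hB, eval_add, eval_mul, eval_pow, eval_X, eval_C]
    linear_combination c * h + μ * hNc

/-- The parameters in dimension at least five over a non-prime field. -/
lemma exists_gen_large [CharP F p] (hp : p.Prime) (hq : q = p ^ e) (he : 2 ≤ e) :
    ∃ ζ θ c μ : F, θ ≠ 0 ∧ θ + σ θ = 0 ∧ ζ ≠ 0 ∧ σ ζ = ζ ∧ μ ≠ 0 ∧ μ + σ μ = 0 ∧ c ≠ 0 ∧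
      c + σ c ≠ 0 ∧ μ * (c - σ c) + c * σ c - 4 ≠ 0 ∧
      θ * (θ * (c * σ c)) * ζ = (ζ - 1) ^ 2 ∧ θ * (c * σ c * μ) * ζ = ζ - 1 ∧
      ∀ i, 1 ≤ i → 2 * i ≤ e → (ζ ^ 2) ^ p ^ i ≠ ζ ^ 2 := by
  obtain ⟨ζ, δ, hζ0, -, hζf, hord, -⟩ := exists_fixed_primitive hF
  obtain ⟨θ, hθ0, hθ⟩ := exists_trace_zero_ne_zero hF
  rw [← conjQ_apply hF] at hθ
  have hq4 : 4 ≤ q := by
    rw [hq]
    calc 4 = 2 ^ 2 := rfl
      _ ≤ p ^ 2 := Nat.pow_le_pow_left hp.two_le 2
      _ ≤ p ^ e := Nat.pow_le_pow_right hp.pos he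
  have hζ1 : ζ - 1 ≠ 0 := fun h => by
    have := Nat.le_of_dvd one_pos (hord 1 (by rw [sub_eq_zero.1 h, one_pow]))
    omega
  have hσθ : σ θ = -θ := eq_neg_of_add_eq_zero_right hθ
  set N := (ζ - 1) ^ 2 / (θ ^ 2 * ζ) with hN
  set μ := (ζ - 1) / (θ * ζ) / N with hμ
  have hN0 : N ≠ 0 := div_ne_zero (pow_ne_zero _ hζ1) (mul_ne_zero (pow_ne_zero _ hθ0) hζ0)
  have hNf : σ N = N := by
    rw [hN, map_div₀, map_pow, map_sub, map_one, map_mul, map_pow, hζf, hσθ, neg_sq]
  have hμ0 : μ ≠ 0 := div_ne_zero (div_ne_zero hζ1 (mul_ne_zero hθ0 hζ0)) hN0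
  have hμt : μ + σ μ = 0 := by
    rw [hμ, map_div₀, map_div₀, map_sub, map_one, map_mul, hζf, hσθ, hNf, neg_mul, div_neg,
      neg_div, add_neg_cancel]
  obtain ⟨c, hc, hcT, hcK⟩ := exists_norm_avoid hF hq4 hN0 hNf hμ0
  refine ⟨ζ, θ, c, μ, hθ0, hθ, hζ0, hζf, hμ0, hμt, fun h => hN0 (by rw [← hc, h, zero_mul]),
    hcT, by rwa [hc], ?_, ?_, ?_⟩
  · rw [hc, hN]; field_simp
  · rw [hc, hμ]; field_simp
  · intro i hi hie h
    rw [← pow_mul] at h
    have h1 : ζ ^ (2 * p ^ i - 2) = 1 := by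
      apply mul_right_cancel₀ (pow_ne_zero 2 hζ0)
      rw [one_mul, ← pow_add, Nat.sub_add_cancel (by have := Nat.one_le_pow i p hp.pos; omega), h]
    have h2 : 2 ≤ p ^ i := le_trans hp.two_le (Nat.le_self_pow (by omega) p)
    have h3 : p ^ i * p ^ i ≤ q := by
      rw [hq, ← pow_add]; exact Nat.pow_le_pow_right hp.pos (by omega)
    have h4 : 2 * p ^ i ≤ p ^ i * p ^ i := Nat.mul_le_mul_right _ h2
    have := Nat.le_of_dvd (by omega) (hord _ h1)
    omega

end Cfsg.Agent.H1
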