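import Cfsg.Agent.H1.SuThreeGen
import Cfsg.Agent.H1.SuParams
import Cfsg.Agent.H1.SuThreeFields

/-!
Three conjugate regular unipotents generate `SU n q` for odd `n`: the cases.
-/

set_option autoImplicit false

namespace Cfsg.Agent.H1

open Matrix Cfsg.Agent.H3

variable {F : Type*} [Field F] [Fintype F] {q n : ℕ} (hF : Fintype.card F = q ^ 2)

local notation "h[" u ", " v "]" => Cfsg.hermForm n F q u v
local notation "σ" => conjQ hF
local notation "↟" g:max => ((Subtype.val g : Matrix.SpecialLinearGroup (Fin n) F) :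
  Matrix (Fin n) (Fin n) F)
local notation "𝕍" => Fin n → F

attribute [-simp] conjQ_apply

variable {u : Cfsg.SU n F q} {e f : Fin n → F} {H : Subgroup (Cfsg.SU n F q)}

include hF

/-- A unitary map can be corrected to determinant one along an anisotropic vector. -/
theorem exists_SU_of_GU (g : Cfsg.GU n F q) {w : 𝕍} (hw : h[w, w] ≠ 0) :
    ∃ g' : Cfsg.SU n F q, ∀ x, h[(g.1 : Matrix (Fin n) (Fin n) F) *ᵥ x, w] = 0 →
      ↟g' *ᵥ x = (g.1 : Matrix (Fin n) (Fin n) F) *ᵥ x := by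
  set M := (g.1 : Matrix (Fin n) (Fin n) F) with hM
  have hd : M.det ^ (q + 1) = 1 := det_GU hF g
  have hd0 : M.det ≠ 0 := fun h => by simp [h] at hd
  set l := M.det⁻¹ with hl
  have hl1 : l * σ l = 1 := by rw [conjQ_apply, ← pow_succ', hl, inv_pow, hd, inv_one]
  set k := (l - 1) / h[w, w] with hk
  set D := Cfsg.unitaryTransvection n q w k with hD
  have hdet : D.det = l := by
    have e1 : D = 1 + Matrix.replicateCol Unit (k • w) *
        Matrix.replicateRow Unit (fun i => w i ^ q) := by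
      refine Matrix.ext_of_mulVec_single fun i => ?_
      rw [hD, unitaryTransvection_mulVec, Matrix.add_mulVec, Matrix.one_mulVec,
        ← Matrix.mulVec_mulVec]
      congr 1
      ext j
      simp [Matrix.mulVec, dotProduct, Cfsg.hermForm, Pi.single_apply]
      ring
    rw [e1, Matrix.det_one_add_replicateCol_mul_replicateRow, dotProduct_smul,
      show (fun i => w i ^ q) ⬝ᵥ w = h[w, w] from
        Finset.sum_congr rfl fun i _ => mul_comm _ _, smul_eq_mul, hk, div_mul_cancel₀ _ hw]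
    ring
  have hpres : ∀ x y, h[D *ᵥ x, D *ᵥ y] = h[x, y] := by
    intro x y
    have hww : σ h[w, w] = h[w, w] := hf_self_fixed hF w
    have key : k + σ k + k * σ k * h[w, w] = 0 := by
      rw [hk, map_div₀, map_sub, map_one, hww]
      field_simp
      linear_combination hl1
    simp only [hD, unitaryTransvection_mulVec, hermForm_add_left hF, hermForm_add_right hF,
      hermForm_smul_left hF, hf_smul_right hF, map_mul, hf_symm hF y w]
    linear_combination (h[x, w] * h[w, y]) * key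
  refine ⟨⟨⟨D * M, by rw [Matrix.det_mul, hdet, hl, inv_mul_cancel₀ hd0]⟩,
    mem_SU_iff.2 fun x y => ?_⟩, fun x hx => ?_⟩
  · show h[(D * M) *ᵥ x, (D * M) *ᵥ y] = _
    rw [← Matrix.mulVec_mulVec, ← Matrix.mulVec_mulVec, hpres]
    exact GU_preserves g x y
  · show (D * M) *ᵥ x = _
    rw [← Matrix.mulVec_mulVec, hD, unitaryTransvection_mulVec, hx, mul_zero, zero_smul, add_zero]

lemma suTrans_mul_mem {x : 𝕍} {a b : F} (hx : h[x, x] = 0) (ha : a + a ^ q = 0)
    (hb : b + b ^ q = 0) (hma : suTrans hF x a hx ha ∈ H) (hmb : suTrans hF x b hx hb ∈ H) :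
    ∃ hab : a + b + (a + b) ^ q = 0, suTrans hF x (a + b) hx hab ∈ H := by
  have hab : a + b + (a + b) ^ q = 0 := by rw [add_pow_q hF]; linear_combination ha + hb
  refine ⟨hab, ?_⟩
  convert mul_mem hma hmb using 1
  refine SU_ext (Matrix.ext_of_mulVec_single fun i => ?_)
  rw [SU_mul_val, ← Matrix.mulVec_mulVec]
  show Cfsg.unitaryTransvection n q x (a + b) *ᵥ _ = Cfsg.unitaryTransvection n q x a *ᵥ
    (Cfsg.unitaryTransvection n q x b *ᵥ _)
  simp only [unitaryTransvection_mulVec, hermForm_add_left hF, hermForm_smul_left hF, hx]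
  module

lemma suTrans_neg_mem {x : 𝕍} {a b : F} (hx : h[x, x] = 0) (ha : a + a ^ q = 0)
    (hb : b + b ^ q = 0) (hma : suTrans hF x a hx ha ∈ H) (h : b = -a) :
    suTrans hF x b hx hb ∈ H := by
  subst h
  have : suTrans hF x (-a) hx hb = (suTrans hF x a hx ha)⁻¹ :=
    eq_inv_of_mul_eq_one_left (SU_ext (Matrix.ext_of_mulVec_single fun i => by
      rw [SU_mul_val, ← Matrix.mulVec_mulVec]
      show Cfsg.unitaryTransvection n q x (-a) *ᵥ (Cfsg.unitaryTransvection n q x a *ᵥ _) = _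
      simp only [unitaryTransvection_mulVec, hermForm_add_left hF, hermForm_smul_left hF, hx]
      refine Eq.trans ?_ (Matrix.one_mulVec _).symm
      module))
  rw [this]
  exact inv_mem hma

/-- Over a prime field one transvection makes its vector full. -/
lemma suFull_of_prime {p : ℕ} [CharP F p] (hp : p.Prime) (hq : q = p) {x : 𝕍} {θ : F}
    (hx : h[x, x] = 0) (hθ : θ + θ ^ q = 0) (hθ0 : θ ≠ 0) (hm : suTrans hF x θ hx hθ ∈ H) :
    SuFull H x := by
  refine SuFull.of_mem hF hx fun a ha => ?_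
  have hmul : ∀ k : ℕ, ∃ hk : (k : F) * θ + ((k : F) * θ) ^ q = 0,
      suTrans hF x ((k : F) * θ) hx hk ∈ H := by
    intro k
    induction k with
    | zero =>
      have h0 : ((0 : ℕ) : F) * θ + (((0 : ℕ) : F) * θ) ^ q = 0 := by
        rw [← conjQ_apply hF]; simp
      refine ⟨h0, ?_⟩
      have : suTrans hF x (((0 : ℕ) : F) * θ) hx h0 = 1 :=
        SU_ext (Matrix.ext_of_mulVec_single fun i => by
          show Cfsg.unitaryTransvection n q x _ *ᵥ _ = _
          rw [unitaryTransvection_mulVec, Nat.cast_zero, zero_mul, zero_mul, zero_smul, add_zero]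
          exact (Matrix.one_mulVec _).symm)
      rw [this]; exact one_mem H
    | succ k ih =>
      obtain ⟨hk, hk'⟩ := ih
      have e1 : ((k + 1 : ℕ) : F) * θ = (k : F) * θ + θ := by push_cast; ring
      obtain ⟨hs, hs'⟩ := suTrans_mul_mem hF hx hk hθ hk' hm
      simp only [e1]
      exact ⟨hs, hs'⟩
  have hfix : σ (a / θ) = a / θ := by
    rw [← conjQ_apply hF] at ha hθ
    rw [map_div₀, eq_neg_of_add_eq_zero_right ha, eq_neg_of_add_eq_zero_right hθ, neg_div_neg_eq]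
  obtain ⟨k, hk⟩ := fixed_eq_natCast hF hp hq hfix
  obtain ⟨h1, h2⟩ := hmul k
  have e1 : (k : F) * θ = a := by rw [hk, div_mul_cancel₀ _ hθ0]
  simp only [e1] at h2
  exact h2

/-- Finishing from the full plane, `q` at least three. -/
theorem suThree_top (hR : IsSuReg u e f) (hn : 3 ≤ n) (hq : 3 ≤ q) {c : F}
    (hc : h[↟u *ᵥ f, f] = c) (hT : c + σ c ≠ 0) (hu : u ∈ H)
    (hplane : ∀ α β : F, h[α • e + β • f, α • e + β • f] = 0 → SuFull H (α • e + β • f)) :
    H = ⊤ := by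
  obtain ⟨p, r, y, hp, hr, hy, -, -, -, -, -, -, he, hf, -⟩ := suReg_frame hF hR hc hT
  obtain ⟨nd, full, hd⟩ := suReg_seed hF hR hc hT hu hplane hp hr hy
  exact su_eq_top_of_full hF (by omega) (fun h => by omega) hu hR.fix hR.iso_e hR.iso_f hR.pair
    (suReg_cyclic hF hR) _ nd full he hf hd (Or.inl hq)

/-- Generation over a prime field with at least three elements. -/
theorem suThree_prime (hR : IsSuReg u e f) (hn : 3 ≤ n) {p : ℕ} [CharP F p] (hp : p.Prime)
    (hq : q = p) (hq3 : 3 ≤ q) {c : F} (hc : h[↟u *ᵥ f, f] = c) (hT : c + σ c ≠ 0) :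
    ∃ g g' : Cfsg.SU n F q,
      Subgroup.closure ({u, g * u * g⁻¹, g' * u * g'⁻¹} : Set (Cfsg.SU n F q)) = ⊤ := by
  have hc0 : c ≠ 0 := fun h => hT (by rw [h, map_zero, add_zero])
  obtain ⟨θ, hθ0, hθ⟩ := exists_trace_zero_ne_zero hF
  obtain ⟨g', hg'⟩ := suReg_conj hF hR hn hθ
  obtain ⟨g, l, hl, hv⟩ := suReg_exists_v hF hR hc hT hc0
  refine ⟨g, g', ?_⟩
  set H := Subgroup.closure ({u, g * u * g⁻¹, g' * u * g'⁻¹} : Set (Cfsg.SU n F q)) with hH
  have hu : u ∈ H := Subgroup.subset_closure (by simp)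
  have hv' : g * u * g⁻¹ ∈ H := Subgroup.subset_closure (by simp)
  have hw : g' * u * g'⁻¹ ∈ H := Subgroup.subset_closure (by simp)
  rw [hg'] at hw
  have he : suTrans hF e θ hR.iso_e hθ ∈ H := (mul_mem_cancel_right hu).1 hw
  have fe : SuFull H e := suFull_of_prime hF hp hq hR.iso_e hθ hθ0 he
  have ff : SuFull H f := by
    have := (fe.conj hF hv').smul hF l⁻¹
    rwa [hv, smul_smul, inv_mul_cancel₀ hl, one_smul] at this
  exact suThree_top hF hR hn hq3 hc hT hu fun α β hiso => fe.pair hF ff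
    (hR.pair.symm ▸ one_ne_zero) hiso

/-- Generation from a torus element in the plane. -/
theorem suThree_torus (hR : IsSuReg u e f) (hn : 3 ≤ n) (hq : 3 ≤ q) {g : Cfsg.SU n F q}
    {c μ θ ζ ε : F} (hc : h[↟u *ᵥ f, f] = c) (hT : c + σ c ≠ 0) (hθ0 : θ ≠ 0) (hθ : θ + σ θ = 0)
    (hζ : ζ ≠ 0) (hζf : σ ζ = ζ) (hμ0 : μ ≠ 0) (hμ : μ + σ μ = 0) (hε : ε = 1 ∨ ε = -1)
    (g0 : ↟g *ᵥ f = e) (g1 : ↟g *ᵥ (↟u *ᵥ f) = c • f)
    (g2 : ↟g *ᵥ ((σ c)⁻¹ • (↟u⁻¹ *ᵥ f) + μ • f) = ↟u *ᵥ f)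
    (h1 : θ * (ε * θ * (c * σ c)) * ζ = (ζ - 1) ^ 2)
    (h2 : θ * (c * σ c * μ) * ζ = ζ - 1)
    (hgen : ∀ K : Subfield F, ζ ^ 2 ∈ K → ∀ x : F, σ x = x → x ∈ K) :
    ∃ g g' : Cfsg.SU n F q,
      Subgroup.closure ({u, g * u * g⁻¹, g' * u * g'⁻¹} : Set (Cfsg.SU n F q)) = ⊤ := by
  have hc0 : c ≠ 0 := fun h => hT (by rw [h, map_zero, add_zero])
  have hσc : σ c ≠ 0 := fun h => hc0 (sigma_eq_zero hF h)
  set N := c * σ c with hN
  have hNσ : σ N = N := by rw [hN, map_mul, sigma_two, mul_comm]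
  have hθ' : θ + θ ^ q = 0 := by rwa [← conjQ_apply hF]
  obtain ⟨g', hg'⟩ := suReg_conj hF hR hn hθ'
  refine ⟨g, g', ?_⟩
  set H := Subgroup.closure ({u, g * u * g⁻¹, g' * u * g'⁻¹} : Set (Cfsg.SU n F q)) with hH
  have hu : u ∈ H := Subgroup.subset_closure (by simp)
  have hv' : g * u * g⁻¹ ∈ H := Subgroup.subset_closure (by simp)
  have hw : g' * u * g'⁻¹ ∈ H := Subgroup.subset_closure (by simp)
  rw [hg'] at hw
  have he : suTrans hF e θ hR.iso_e hθ' ∈ H := (mul_mem_cancel_right hu).1 hw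
  obtain ⟨hve, hvu⟩ := suReg_plane_act hF hc0 g0 g1 g2
  rw [← hN] at hvu
  have hθN : N * θ + (N * θ) ^ q = 0 := by
    rw [← conjQ_apply hF, map_mul, hNσ]; linear_combination N * hθ
  have hf : suTrans hF f (N * θ) hR.iso_f hθN ∈ H :=
    conj_mem_of_transv hF hv' hR.iso_e hθ' he hve hR.iso_f hθN
  have huu : h[↟u *ᵥ f, ↟u *ᵥ f] = 0 := by rw [mem_SU_iff.1 u.2]; exact hR.iso_f
  have e1 : (1 : F) * σ 1 * (N * θ) = N * θ := by rw [map_one]; ring
  have huf := conj_mem_of_transv hF hu hR.iso_f hθN hf (one_smul F (↟u *ᵥ f)).symm huu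
    (by rw [e1]; exact hθN)
  simp only [e1] at huf
  have hfe : h[f, e] = 1 := by rw [← hf_symm hF, hR.pair, map_one]
  have hiso : h[e + (N * μ) • f, e + (N * μ) • f] = 0 := by
    simp only [hermForm_add_left hF, hermForm_add_right hF, hermForm_smul_left hF,
      hf_smul_right hF, hR.iso_e, hR.iso_f, hR.pair, hfe, map_mul, hNσ]
    linear_combination N * hμ
  have e2 : (σ c)⁻¹ * σ ((σ c)⁻¹) * (N * θ) = θ := by
    rw [map_inv₀, sigma_two, hN]; field_simp
  have hm := conj_mem_of_transv hF hv' huu hθN huf hvu hiso (by rw [e2]; exact hθ')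
  simp only [e2] at hm
  have hb : ε * θ * N + (ε * θ * N) ^ q = 0 := by
    rw [← conjQ_apply hF, map_mul, map_mul, hNσ]
    rcases hε with rfl | rfl
    · rw [map_one]; linear_combination N * hθ
    · rw [map_neg, map_one]; linear_combination -N * hθ
  have hfb : suTrans hF f (ε * θ * N) hR.iso_f hb ∈ H := by
    rcases hε with rfl | rfl
    · have e3 : 1 * θ * N = N * θ := by ring
      simp only [e3]; exact hf
    · exact suTrans_neg_mem hF hR.iso_f hθN hb hf (by ring)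
  have hN0 : N ≠ 0 := mul_ne_zero hc0 hσc
  have hfull := suFull_torus hF hR hθ' hb hθ0 (m := N * μ)
    (by rw [map_mul, hNσ]; linear_combination N * hμ) hζ hζf h1 h2 hgen he hfb hiso hm
  exact suThree_top hF hR hn hq hc hT hu
    (suFull_plane hF hR hθ' hθ0 (mul_ne_zero hN0 hμ0) he hfull)

/-- In dimension three the plane element has determinant one. -/
lemma det_plane_three {u : Cfsg.SU 3 F q} {e f : Fin 3 → F} (hR : IsSuReg u e f) {c μ : F}
    (hc : Cfsg.hermForm 3 F q (((u.1 : Matrix.SpecialLinearGroup (Fin 3) F) :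
        Matrix (Fin 3) (Fin 3) F) *ᵥ f) f = c)
    (hc₂ : Cfsg.hermForm 3 F q (((u.1 : Matrix.SpecialLinearGroup (Fin 3) F) :
        Matrix (Fin 3) (Fin 3) F) *ᵥ (((u.1 : Matrix.SpecialLinearGroup (Fin 3) F) :
        Matrix (Fin 3) (Fin 3) F) *ᵥ f)) f = 3 * c + σ c)
    (hT : c + σ c ≠ 0) (hTN : c + σ c = c * σ c) (g : Cfsg.GU 3 F q)
    (g0 : (g.1 : Matrix (Fin 3) (Fin 3) F) *ᵥ f = e)
    (g1 : (g.1 : Matrix (Fin 3) (Fin 3) F) *ᵥ (((u.1 : Matrix.SpecialLinearGroup (Fin 3) F) :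
        Matrix (Fin 3) (Fin 3) F) *ᵥ f) = c • f)
    (g2 : (g.1 : Matrix (Fin 3) (Fin 3) F) *ᵥ ((σ c)⁻¹ •
        ((((u⁻¹).1 : Matrix.SpecialLinearGroup (Fin 3) F) :
        Matrix (Fin 3) (Fin 3) F) *ᵥ f) + μ • f) = ((u.1 : Matrix.SpecialLinearGroup (Fin 3) F) :
        Matrix (Fin 3) (Fin 3) F) *ᵥ f) :
    (g.1 : Matrix (Fin 3) (Fin 3) F).det = 1 := by
  set U := ((u.1 : Matrix.SpecialLinearGroup (Fin 3) F) : Matrix (Fin 3) (Fin 3) F) with hU
  set f' := (((u⁻¹).1 : Matrix.SpecialLinearGroup (Fin 3) F) : Matrix (Fin 3) (Fin 3) F) *ᵥ f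
    with hf'
  have hσc : σ c ≠ 0 := fun h => hT (by rw [h, sigma_eq_zero hF h, add_zero])
  have hue : Cfsg.hermForm 3 F q (U *ᵥ f) e = 1 := by
    have := suReg_pair_orbit hF hR 1
    rw [pow_one] at this
    rw [← hf_symm hF, this, map_one]
  have hfe : Cfsg.hermForm 3 F q f e = 1 := by rw [← hf_symm hF, hR.pair, map_one]
  have huf' : U *ᵥ f' = f := by
    rw [hU, hf', Matrix.mulVec_mulVec, ← SU_mul_val, mul_inv_cancel]; exact Matrix.one_mulVec f
  have li := suReg_li_efu hF hR hc hT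
  let B : Matrix (Fin 3) (Fin 3) F := Matrix.of fun i j => ![e, f, U *ᵥ f] j i
  have hcol : ∀ x : Fin 3 → F, B *ᵥ x = x 0 • e + x 1 • f + x 2 • (U *ᵥ f) := by
    intro x
    ext i
    simp [B, Matrix.mulVec, dotProduct, Fin.sum_univ_three, mul_comm]
  have hBu : IsUnit B := by
    rw [← Matrix.linearIndependent_cols_iff_isUnit]
    exact li
  have hBdet : B.det ≠ 0 := ((Matrix.isUnit_iff_isUnit_det B).1 hBu).ne_zero
  obtain ⟨x, hx⟩ := (Matrix.mulVec_surjective_iff_isUnit.2 hBu) f'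
  rw [hcol] at hx
  have hf'e : Cfsg.hermForm 3 F q f' e = 1 := by
    rw [← mem_SU_iff.1 u.2 f' e, ← hU, huf', hR.fix, hfe]
  have hf'f : Cfsg.hermForm 3 F q f' f = σ c := by
    rw [← mem_SU_iff.1 u.2 f' f, ← hU, huf', ← hc, hf_symm hF]
  have hf'u : Cfsg.hermForm 3 F q f' (U *ᵥ f) = σ (3 * c + σ c) := by
    rw [← mem_SU_iff.1 u.2 f' (U *ᵥ f), ← hU, huf', ← hc₂, hf_symm hF]
  rw [← hx] at hf'e hf'f hf'u
  have hfu : Cfsg.hermForm 3 F q f (U *ᵥ f) = σ c := by rw [← hf_symm hF, hc]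
  have heu : Cfsg.hermForm 3 F q e (U *ᵥ f) = 1 := by rw [← hf_symm hF, hue, map_one]
  have huu : Cfsg.hermForm 3 F q (U *ᵥ f) (U *ᵥ f) = 0 := by
    rw [hU, mem_SU_iff.1 u.2]; exact hR.iso_f
  simp only [hermForm_add_left hF, hermForm_smul_left hF, hR.iso_e, hR.iso_f, hR.pair, hfe, hue,
    hc, heu, hfu, huu, map_add, map_mul, map_ofNat, sigma_two] at hf'e hf'f hf'u
  have hx1 : x 1 = 2 := by
    apply mul_right_cancel₀ hT
    linear_combination c * hf'e - hf'f + hf'u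
  have hx2 : x 2 = -1 := by linear_combination hf'e - hx1
  have hx0 : x 0 = c + σ c := by linear_combination hf'f - c * hx2
  set T := c + σ c with hTdef
  have gf' : (g.1 : Matrix (Fin 3) (Fin 3) F) *ᵥ f' = σ c • (U *ᵥ f) - (σ c * μ) • e := by
    rw [Matrix.mulVec_add, Matrix.mulVec_smul, Matrix.mulVec_smul, g0] at g2
    rw [← g2, smul_add, smul_smul, smul_smul, mul_inv_cancel₀ hσc, one_smul]
    abel
  have ge : (g.1 : Matrix (Fin 3) (Fin 3) F) *ᵥ e =
      ((-σ c * μ - 2) / T) • e + (c / T) • f + (σ c / T) • (U *ᵥ f) := by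
    rw [← hx, hx0, hx1, hx2, Matrix.mulVec_add, Matrix.mulVec_add, Matrix.mulVec_smul,
      Matrix.mulVec_smul, Matrix.mulVec_smul, g0, g1] at gf'
    apply smul_right_injective _ hT
    show T • _ = T • _
    rw [eq_sub_of_add_eq (eq_sub_of_add_eq gf')]
    match_scalars <;> field_simp
  let M : Matrix (Fin 3) (Fin 3) F := !![(-σ c * μ - 2) / T, 1, 0; c / T, 0, c; σ c / T, 0, 0]
  have hgB : (g.1 : Matrix (Fin 3) (Fin 3) F) * B = B * M := by
    refine Matrix.ext_of_mulVec_single fun i => ?_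
    rw [← Matrix.mulVec_mulVec, ← Matrix.mulVec_mulVec, hcol, hcol]
    fin_cases i <;>
      simp [M, Matrix.mulVec_single, g0, g1, ge, Matrix.mulVec_add, Matrix.mulVec_smul]
  have hdet := congrArg Matrix.det hgB
  rw [Matrix.det_mul, Matrix.det_mul, mul_comm B.det] at hdet
  rw [mul_right_cancel₀ hBdet hdet, Matrix.det_fin_three]
  simp [M]
  rw [mul_div_assoc', div_eq_one_iff_eq hT]
  exact hTN.symm

end Cfsg.Agent.H1
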