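import Cfsg.Agent.H1.SuTransvClosure
import Cfsg.Agent.H1.SuRegular

/-!
Generation of odd-dimensional special unitary groups by three conjugate regular unipotents.
-/

set_option autoImplicit false

namespace Cfsg.Agent.H1

open Matrix Cfsg.Agent.H3

variable {F : Type*} [Field F] [Fintype F] {q n : ℕ} (hF : Fintype.card F = q ^ 2)

local notation "h[" u ", " v "]" => Cfsg.hermForm n F q u v
local notation "σ" => conjQ hF
local notation "↟" g:max => ((Subtype.val g : Matrix.SpecialLinearGroup (Fin n) F) :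
  Matrix (Fin n) (Fin n) F)
local notation "𝕍" => Fin n → F

attribute [-simp] conjQ_apply

variable {u : Cfsg.SU n F q} {e f : Fin n → F}

include hF

omit hF in
lemma suReg_e_ne_zero (hF : Fintype.card F = q ^ 2) (hR : IsSuReg u e f) : e ≠ 0 := fun h => by
  have := hR.pair
  rw [h, hermForm_zero_left hF] at this
  exact zero_ne_one this

lemma suReg_pow_high (hR : IsSuReg u e f) {j : ℕ} (hj : n ≤ j) (x : 𝕍) :
    (↟u - 1) ^ j *ᵥ x = 0 := by
  rw [← Nat.sub_add_cancel hj, pow_add, hR.vanish, mul_zero, Matrix.zero_mulVec]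

lemma suReg_peel (hR : IsSuReg u e f) {j : ℕ} (hj : j < n) {a : F} {x : 𝕍}
    (h : a • ((↟u - 1) ^ j *ᵥ f) + (↟u - 1) ^ (j + 1) *ᵥ x = 0) : a = 0 := by
  obtain ⟨a₀, ha₀, htop⟩ := hR.top
  have h1 := congrArg (fun v => (↟u - 1) ^ (n - 1 - j) *ᵥ v) h
  simp only [Matrix.mulVec_add, Matrix.mulVec_smul, Matrix.mulVec_mulVec, ← pow_add,
    Matrix.mulVec_zero] at h1
  rw [show n - 1 - j + j = n - 1 by omega, htop, suReg_pow_high hF hR (by omega), add_zero,
    smul_smul, smul_eq_zero] at h1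
  rcases h1 with h1 | h1
  · exact (mul_eq_zero.mp h1).resolve_right ha₀
  · exact absurd h1 (suReg_e_ne_zero hF hR)

omit hF in
lemma suReg_step (j : ℕ) :
    ↟u *ᵥ ((↟u - 1) ^ j *ᵥ f) = (↟u - 1) ^ j *ᵥ f + (↟u - 1) ^ (j + 1) *ᵥ f := by
  rw [pow_succ', ← Matrix.mulVec_mulVec, Matrix.sub_mulVec, Matrix.one_mulVec]; abel

lemma suReg_cyclic (hR : IsSuReg u e f) (T : Submodule F 𝕍) (hf : f ∈ T)
    (hinv : ∀ x ∈ T, ↟u *ᵥ x ∈ T) : T = ⊤ := by
  let w : Fin n → 𝕍 := fun i => (↟u - 1) ^ (i : ℕ) *ᵥ f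
  have hw : ∀ i, w i ∈ T := by
    suffices ∀ i : ℕ, (↟u - 1) ^ i *ᵥ f ∈ T from fun i => this i
    intro i
    induction i with
    | zero => simpa using hf
    | succ i ih =>
      have h := T.sub_mem (hinv _ ih) ih
      rw [suReg_step] at h
      simpa using h
  have li : LinearIndependent F w := by
    rw [Fintype.linearIndependent_iff]
    classical
    intro a ha
    by_contra hne
    push Not at hne
    obtain ⟨i, hi, hmin⟩ := (Finset.univ.filter fun i => a i ≠ 0).exists_min_image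
      (fun i : Fin n => (i : ℕ)) ⟨hne.choose, by simp [hne.choose_spec]⟩
    rw [Finset.mem_filter] at hi
    apply hi.2
    have ha' := (Finset.add_sum_erase Finset.univ (fun l => a l • w l) (Finset.mem_univ i)).trans ha
    refine suReg_peel hF hR (j := i) i.2
      (x := ∑ l ∈ Finset.univ.erase i, a l • ((↟u - 1) ^ ((l : ℕ) - (i + 1)) *ᵥ f)) ?_
    rw [Matrix.mulVec_sum]
    refine Eq.trans ?_ ha'
    congr 1
    refine Finset.sum_congr rfl fun l hl => ?_
    by_cases hal : a l = 0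
    · simp [hal]
    · have h1 := hmin l (by simp [hal])
      have h2 : (l : ℕ) ≠ i := fun h => (Finset.mem_erase.mp hl).1 (Fin.ext h)
      rw [Matrix.mulVec_smul, Matrix.mulVec_mulVec, ← pow_add]
      congr 3
      omega
  apply Submodule.eq_top_of_finrank_eq
  refine le_antisymm (Submodule.finrank_le T) ?_
  have h1 : Module.finrank F (Submodule.span F (Set.range w)) = n := by
    rw [finrank_span_eq_card li, Fintype.card_fin]
  have h3 := Submodule.finrank_mono
    (Submodule.span_le.mpr (Set.range_subset_iff.mpr hw) : Submodule.span F (Set.range w) ≤ T)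
  rw [Module.finrank_fintype_fun_eq_card, Fintype.card_fin]
  omega

lemma suReg_pair_orbit (hR : IsSuReg u e f) (j : ℕ) : h[e, (↟u ^ j) *ᵥ f] = 1 := by
  induction j with
  | zero => simpa using hR.pair
  | succ j ih =>
    rw [pow_succ', ← Matrix.mulVec_mulVec]
    conv_lhs => arg 4; rw [← hR.fix]
    rwa [mem_SU_iff.1 u.2]

lemma suReg_li_efu (hR : IsSuReg u e f) {c : F} (hc : h[↟u *ᵥ f, f] = c) (hT : c + σ c ≠ 0) :
    LinearIndependent F ![e, f, ↟u *ᵥ f] := by
  rw [Fintype.linearIndependent_iff]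
  intro a ha
  simp only [Fin.sum_univ_three, Matrix.cons_val_zero, Matrix.cons_val_one, Matrix.cons_val] at ha
  have he := suReg_pair_orbit hF hR 1
  rw [pow_one] at he
  have hfe : h[f, e] = 1 := by rw [← hf_symm hF, hR.pair, map_one]
  have hue : h[↟u *ᵥ f, e] = 1 := by rw [← hf_symm hF, he, map_one]
  have huu : h[↟u *ᵥ f, ↟u *ᵥ f] = 0 := by rw [mem_SU_iff.1 u.2]; exact hR.iso_f
  have hfu : h[f, ↟u *ᵥ f] = σ c := by rw [← hf_symm hF, hc]
  have e1 := congrArg (fun x => h[x, e]) ha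
  have e2 := congrArg (fun x => h[x, f]) ha
  have e3 := congrArg (fun x => h[x, ↟u *ᵥ f]) ha
  simp only [hermForm_add_left hF, hermForm_smul_left hF, hermForm_zero_left hF, hR.iso_e,
    hR.iso_f, hR.pair, hfe, hue, he, huu, hfu, hc] at e1 e2 e3
  have h2 : a 2 = 0 := by
    apply (mul_eq_zero.1 (?_ : (c + σ c) * a 2 = 0)).resolve_left hT
    linear_combination σ c * e1 + e2 - e3
  intro i
  fin_cases i
  · show a 0 = 0; linear_combination e2 - c * h2
  · show a 1 = 0; linear_combination e1 - h2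
  · exact h2

lemma suReg_li_fuu (hR : IsSuReg u e f) (hn : 3 ≤ n) :
    LinearIndependent F ![f, ↟u *ᵥ f, ↟u *ᵥ (↟u *ᵥ f)] := by
  rw [Fintype.linearIndependent_iff]
  intro a ha
  simp only [Fin.sum_univ_three, Matrix.cons_val_zero, Matrix.cons_val_one, Matrix.cons_val] at ha
  set D := ↟u - 1 with hD
  have h1 : ↟u *ᵥ f = f + D *ᵥ f := by rw [hD, Matrix.sub_mulVec, Matrix.one_mulVec]; abel
  have h2 : ↟u *ᵥ (↟u *ᵥ f) = f + (2 : F) • (D *ᵥ f) + D ^ 2 *ᵥ f := by
    simp only [hD, pow_two, ← Matrix.mulVec_mulVec, Matrix.sub_mulVec, Matrix.one_mulVec,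
      Matrix.mulVec_sub]
    module
  rw [h2, h1] at ha
  have e1 : a 0 + a 1 + a 2 = 0 := suReg_peel hF hR (j := 0) (by omega)
    (x := (a 1 + 2 * a 2) • f + a 2 • (D *ᵥ f)) (by
      rw [← hD, pow_zero, zero_add, pow_one, Matrix.one_mulVec, Matrix.mulVec_add,
        Matrix.mulVec_smul, Matrix.mulVec_smul, Matrix.mulVec_mulVec, ← pow_two, ← ha]
      module)
  have e2 : a 1 + 2 * a 2 = 0 := suReg_peel hF hR (j := 1) (by omega) (x := a 2 • f) (by
    rw [← hD, Matrix.mulVec_smul, pow_one]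
    refine Eq.trans ?_ ha
    have h0 : a 0 = -a 1 - a 2 := by linear_combination e1
    rw [h0]; module)
  have e3 : a 2 = 0 := suReg_peel hF hR (j := 2) (by omega) (x := 0) (by
    rw [← hD, Matrix.mulVec_zero, add_zero]
    refine Eq.trans ?_ ha
    have h1 : a 1 = -2 * a 2 := by linear_combination e2
    have h0 : a 0 = a 2 := by linear_combination e1 - e2
    rw [h0, h1]; module)
  intro i
  fin_cases i
  · show a 0 = 0; linear_combination e1 - e2 + e3
  · show a 1 = 0; linear_combination e2 - 2 * e3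
  · exact e3

/-- Conjugacy of `u` and `T(e,θ) u`. -/
theorem suReg_conj (hR : IsSuReg u e f) (hn : 3 ≤ n) {θ : F} (hθ : θ + θ ^ q = 0) :
    ∃ g : Cfsg.SU n F q, g * u * g⁻¹ = suTrans hF e θ hR.iso_e hθ * u := by
  obtain ⟨a, ha, htop⟩ := hR.top
  set w := (↟u - 1) ^ (n - 2) *ᵥ f with hw
  have huw : ↟u *ᵥ w = w + a • e := by
    rw [hw, suReg_step, show n - 2 + 1 = n - 1 by omega, htop]
  have hew : h[e, w] = 0 := by
    rw [hw, show n - 2 = (n - 3) + 1 by omega, pow_succ', ← Matrix.mulVec_mulVec, Matrix.sub_mulVec,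
      Matrix.one_mulVec, hermForm_sub_right hF, sub_eq_zero]
    conv_lhs => arg 4; rw [← hR.fix]
    rw [mem_SU_iff.1 u.2]
  obtain ⟨x₀, hx₀⟩ := exists_sub_eq hF hθ
  rw [← conjQ_apply hF] at hx₀
  set t := x₀ / a with ht
  set x := t • w with hx
  have hex : h[e, x] = 0 := by rw [hx, hf_smul_right hF, hew, mul_zero]
  obtain ⟨α, hα⟩ := exists_trace_eq hF (a := -h[x, x])
    (by rw [← conjQ_apply hF, map_neg, hf_self_fixed hF])
  have hα' : α + α ^ q + h[x, x] = 0 := by rw [hα]; ring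
  refine ⟨suRoot hF e x α hR.iso_e hex hα', ?_⟩
  rw [mul_inv_eq_iff_eq_mul]
  refine SU_ext (Matrix.ext_of_mulVec_single fun i => ?_)
  generalize (Pi.single i 1 : 𝕍) = y
  rw [SU_mul_val, SU_mul_val, SU_mul_val]
  show (rootMat q e x α * ↟u) *ᵥ y =
    (Cfsg.unitaryTransvection n q e θ * ↟u * rootMat q e x α) *ᵥ y
  have hux : ↟u *ᵥ x = x + (t * a) • e := by
    rw [hx, Matrix.mulVec_smul, huw, smul_add, smul_smul]
  have e1 : h[↟u *ᵥ y, e] = h[y, e] := by
    conv_lhs => arg 5; rw [← hR.fix]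
    exact mem_SU_iff.1 u.2 y e
  have e2 : h[y, x] = h[↟u *ᵥ y, x] + σ (t * a) * h[y, e] := by
    rw [← mem_SU_iff.1 u.2 y x, hux, hermForm_add_right hF, hf_smul_right hF _ _ e, e1]
  have e3 : h[x, e] = 0 := hf_orth_comm hF hex
  rw [← Matrix.mulVec_mulVec, ← Matrix.mulVec_mulVec, ← Matrix.mulVec_mulVec,
    unitaryTransvection_mulVec, rootMat_mulVec, rootMat_mulVec]
  simp only [Matrix.mulVec_add, Matrix.mulVec_sub, Matrix.mulVec_smul, hR.fix, hux,
    hermForm_add_left hF, hermForm_sub_left hF, hermForm_smul_left hF, hR.iso_e, e1, e2, e3]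
  have hta : t * a = x₀ := by rw [ht, div_mul_cancel₀ _ ha]
  rw [hta, ← hx₀]
  module

variable {H : Subgroup (Cfsg.SU n F q)}

/-- The first conjugate: sends `e` to a multiple of `f`. -/
lemma suReg_exists_v (hR : IsSuReg u e f) {c : F} (hc : h[↟u *ᵥ f, f] = c) (hT : c + σ c ≠ 0)
    (hc0 : c ≠ 0) :
    ∃ g : Cfsg.SU n F q, ∃ l : F, l ≠ 0 ∧ ↟(g * u * g⁻¹) *ᵥ e = l • f := by
  have hfe : h[f, e] = 1 := by rw [← hf_symm hF, hR.pair, map_one]
  have hli : LinearIndependent F ![f, ↟u *ᵥ f] := by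
    have := (suReg_li_efu hF hR hc hT).comp ![1, 2] (by
      intro i j h; fin_cases i <;> fin_cases j <;> simp_all)
    convert this using 1
    ext i; fin_cases i <;> rfl
  have hli' : LinearIndependent F ![e, f] := by
    have := (suReg_li_efu hF hR hc hT).comp ![0, 1] (by
      intro i j h; fin_cases i <;> fin_cases j <;> simp_all)
    convert this using 1
    ext i; fin_cases i <;> rfl
  obtain ⟨g, ⟨a, ha⟩, b, hb⟩ := exists_SU_map_pair hF hR.iso_f
    (by rw [mem_SU_iff.1 u.2]; exact hR.iso_f) hli hR.iso_e hR.iso_f hli' (by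
      rw [hR.pair]
      constructor
      · intro h
        exfalso
        exact hc0 (by rw [← hc, hf_orth_comm hF h])
      · exact fun h => absurd h one_ne_zero)
  have hinv : ∀ x, ↟g⁻¹ *ᵥ (↟g *ᵥ x) = x := fun x => by
    rw [Matrix.mulVec_mulVec, ← SU_mul_val, inv_mul_cancel]
    exact Matrix.one_mulVec x
  have ha0 : a ≠ 0 := fun h => by
    have := hinv f
    rw [ha, h, zero_smul, Matrix.mulVec_zero] at this
    have := hR.pair
    rw [← ‹0 = f›, hermForm_zero_right hF] at this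
    exact zero_ne_one this
  have hb0 : b ≠ 0 := fun h => by
    have := hinv (↟u *ᵥ f)
    rw [hb, h, zero_smul, Matrix.mulVec_zero] at this
    rw [← this, hermForm_zero_left hF] at hc
    exact hc0 hc.symm
  refine ⟨g, a⁻¹ * b, mul_ne_zero (inv_ne_zero ha0) hb0, ?_⟩
  have he : ↟g⁻¹ *ᵥ e = a⁻¹ • f := by
    have := hinv f
    rw [ha, Matrix.mulVec_smul] at this
    rw [← this, smul_smul, inv_mul_cancel₀ ha0, one_smul]
  rw [SU_mul_val, SU_mul_val, ← Matrix.mulVec_mulVec, ← Matrix.mulVec_mulVec, he,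
    Matrix.mulVec_smul, Matrix.mulVec_smul, hb, smul_smul]

/-- The conjugate giving the two further transvections in the plane. -/
theorem suReg_exists_plane (hR : IsSuReg u e f) (hn : 3 ≤ n) {c c₂ : F}
    (hc : h[↟u *ᵥ f, f] = c) (hc₂ : h[↟u *ᵥ (↟u *ᵥ f), f] = c₂) (hc0 : c ≠ 0)
    (hT : c + σ c ≠ 0) (hcond : σ c - c₂ / c ^ 2 + σ (σ c - c₂ / c ^ 2) = 0) :
    ∃ g : Cfsg.GU n F q, (g.1 : Matrix (Fin n) (Fin n) F) *ᵥ f = e ∧
      (g.1 : Matrix (Fin n) (Fin n) F) *ᵥ (↟u *ᵥ f) = c • f ∧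
      (g.1 : Matrix (Fin n) (Fin n) F) *ᵥ
        ((σ c)⁻¹ • (↟u⁻¹ *ᵥ f) + (c - σ c₂ / σ c ^ 2) • f) = ↟u *ᵥ f := by
  have hσc : σ c ≠ 0 := fun h => hc0 (sigma_eq_zero hF h)
  set f' := ↟u⁻¹ *ᵥ f with hf'
  have huf' : ↟u *ᵥ f' = f := by
    rw [hf', Matrix.mulVec_mulVec, ← SU_mul_val, mul_inv_cancel]; exact Matrix.one_mulVec f
  obtain ⟨μ, hμ⟩ : ∃ μ, μ = c - σ c₂ / σ c ^ 2 := ⟨_, rfl⟩
  have hσμ : σ μ = σ c - c₂ / c ^ 2 := by
    rw [hμ, map_sub, map_div₀, map_pow, sigma_two, sigma_two]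
  have huf : h[↟u *ᵥ f, ↟u *ᵥ f] = 0 := by rw [mem_SU_iff.1 u.2]; exact hR.iso_f
  have hff' : h[f, f'] = c := by rw [← mem_SU_iff.1 u.2, huf', hc]
  have huff' : h[↟u *ᵥ f, f'] = c₂ := by rw [← mem_SU_iff.1 u.2, huf', hc₂]
  have hf'f' : h[f', f'] = 0 := by rw [← mem_SU_iff.1 u.2, huf']; exact hR.iso_f
  have he := suReg_pair_orbit hF hR 1
  rw [pow_one] at he
  set y : Fin 3 → 𝕍 := ![f, c⁻¹ • (↟u *ᵥ f), (σ c)⁻¹ • f' + μ • f] with hy
  have liy : LinearIndependent F y := by
    rw [Fintype.linearIndependent_iff]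
    intro a ha
    have h := congrArg (fun x => ↟u *ᵥ x) ha
    simp only [hy, Fin.sum_univ_three, Matrix.mulVec_add, Matrix.mulVec_smul,
      Matrix.mulVec_zero, Matrix.cons_val_zero, Matrix.cons_val_one, Matrix.cons_val, huf'] at h
    have h' : (a 2 * (σ c)⁻¹) • f + (a 0 + a 2 * μ) • (↟u *ᵥ f) +
        (a 1 * c⁻¹) • (↟u *ᵥ (↟u *ᵥ f)) = 0 := by rw [← h]; module
    have := Fintype.linearIndependent_iff.mp (suReg_li_fuu hF hR hn)
      ![a 2 * (σ c)⁻¹, a 0 + a 2 * μ, a 1 * c⁻¹] (by simpa [Fin.sum_univ_three] using h')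
    have h0 := this 0; have h1 := this 1; have h2 := this 2
    simp [hc0, hσc] at h0 h1 h2
    intro i
    fin_cases i
    · simpa [h0] using h1
    · simpa using h2
    · simpa using h0
  obtain ⟨g, hg⟩ := exists_GU_witt hF y ![e, f, ↟u *ᵥ f] liy (suReg_li_efu hF hR hc hT) (by
    have hfu : h[f, ↟u *ᵥ f] = σ c := by rw [← hf_symm hF, hc]
    have hfe : h[f, e] = 1 := by rw [← hf_symm hF, hR.pair, map_one]
    have hue : h[↟u *ᵥ f, e] = 1 := by rw [← hf_symm hF, he, map_one]
    have hf'f : h[f', f] = σ c := by rw [← hf_symm hF, hff']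
    have hf'u : h[f', ↟u *ᵥ f] = σ c₂ := by rw [← hf_symm hF, huff']
    intro i j
    fin_cases i <;> fin_cases j
    all_goals simp only [hy, Matrix.cons_val_zero, Matrix.cons_val_one, Matrix.cons_val, Fin.isValue,
      Fin.zero_eta, Fin.mk_one, Fin.reduceFinMk, hermForm_add_left hF, hermForm_add_right hF,
      hermForm_smul_left hF, hf_smul_right hF, hR.iso_e, hR.iso_f, hR.pair, hfe, huf, hc, hff',
      huff', hf'f', he, hfu, hue, hf'f, hf'u, map_inv₀, sigma_two]
    all_goals (try simp only [hσμ])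
    all_goals (try simp only [hμ])
    all_goals (try field_simp)
    all_goals first
      | ring1
      | (rw [map_sub, map_div₀, map_pow, sigma_two] at hcond
         field_simp at hcond
         linear_combination hcond))
  have g0 : (g.1 : Matrix (Fin n) (Fin n) F) *ᵥ f = e := by simpa [hy] using hg 0
  have g1 : (g.1 : Matrix (Fin n) (Fin n) F) *ᵥ (c⁻¹ • (↟u *ᵥ f)) = f := by
    simpa [hy] using hg 1
  have g2 : (g.1 : Matrix (Fin n) (Fin n) F) *ᵥ ((σ c)⁻¹ • f' + μ • f) = ↟u *ᵥ f := by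
    simpa [hy] using hg 2
  have g1' : (g.1 : Matrix (Fin n) (Fin n) F) *ᵥ (↟u *ᵥ f) = c • f := by
    have := congrArg (fun x => c • x) g1
    simpa [Matrix.mulVec_smul, smul_smul, mul_inv_cancel₀ hc0] using this
  refine ⟨g, g0, g1', ?_⟩
  rw [← hμ]
  exact g2

/-- The action of the conjugate of `u` by the plane element. -/
lemma suReg_plane_act {g : Cfsg.SU n F q} {c μ : F} (hc0 : c ≠ 0) (g0 : ↟g *ᵥ f = e)
    (g1 : ↟g *ᵥ (↟u *ᵥ f) = c • f)
    (g2 : ↟g *ᵥ ((σ c)⁻¹ • (↟u⁻¹ *ᵥ f) + μ • f) = ↟u *ᵥ f) :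
    ↟(g * u * g⁻¹) *ᵥ e = c • f ∧
      ↟(g * u * g⁻¹) *ᵥ (↟u *ᵥ f) = (σ c)⁻¹ • (e + (c * σ c * μ) • f) := by
  have hσc : σ c ≠ 0 := fun h => hc0 (sigma_eq_zero hF h)
  have hinv : ∀ x, ↟g⁻¹ *ᵥ (↟g *ᵥ x) = x := fun x => by
    rw [Matrix.mulVec_mulVec, ← SU_mul_val, inv_mul_cancel]
    exact Matrix.one_mulVec x
  have huf' : ↟u *ᵥ (↟u⁻¹ *ᵥ f) = f := by
    rw [Matrix.mulVec_mulVec, ← SU_mul_val, mul_inv_cancel]; exact Matrix.one_mulVec f
  simp only [SU_mul_val, ← Matrix.mulVec_mulVec]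
  constructor
  · nth_rewrite 1 [← g0]
    rw [hinv, g1]
  · nth_rewrite 1 [← g2]
    rw [hinv, Matrix.mulVec_add, Matrix.mulVec_smul, huf', Matrix.mulVec_smul, Matrix.mulVec_add,
      Matrix.mulVec_smul, Matrix.mulVec_smul, g0, g1, smul_add, smul_smul, smul_smul]
    congr 2
    field_simp

variable {H : Subgroup (Cfsg.SU n F q)}

lemma conj_mem_of_transv {g : Cfsg.SU n F q} (hg : g ∈ H) {x : 𝕍} {a : F} (hx : h[x, x] = 0)
    (ha : a + a ^ q = 0) (hm : suTrans hF x a hx ha ∈ H) {y : 𝕍} {k : F}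
    (hgx : ↟g *ᵥ x = k • y) (hy : h[y, y] = 0) (hb : k * σ k * a + (k * σ k * a) ^ q = 0) :
    suTrans hF y (k * σ k * a) hy hb ∈ H := by
  have hgxx : h[↟g *ᵥ x, ↟g *ᵥ x] = 0 := by rw [mem_SU_iff.1 g.2]; exact hx
  have h := mul_mem (mul_mem hg hm) (inv_mem hg)
  rw [conj_suTrans hF g hx ha hgxx] at h
  convert h using 1
  refine SU_ext (Matrix.ext_of_mulVec_single fun i => ?_)
  show Cfsg.unitaryTransvection n q y (k * σ k * a) *ᵥ _ =
    Cfsg.unitaryTransvection n q (↟g *ᵥ x) a *ᵥ _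
  rw [unitaryTransvection_mulVec, unitaryTransvection_mulVec, hgx, hf_smul_right hF]
  module

/-- A full root group at an eigenline of a product of two root elements in the plane. -/
lemma suFull_torus (hR : IsSuReg u e f) {θ b ζ m : F} (hθ : θ + θ ^ q = 0) (hb : b + b ^ q = 0)
    (hθ0 : θ ≠ 0) (hm : m + σ m = 0) (hζ : ζ ≠ 0) (hζf : σ ζ = ζ)
    (h1 : θ * b * ζ = (ζ - 1) ^ 2) (h2 : θ * m * ζ = ζ - 1)
    (hgen : ∀ K : Subfield F, ζ ^ 2 ∈ K → ∀ x : F, σ x = x → x ∈ K)
    (he : suTrans hF e θ hR.iso_e hθ ∈ H) (hf : suTrans hF f b hR.iso_f hb ∈ H)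
    (hiso : h[e + m • f, e + m • f] = 0) (hm' : suTrans hF (e + m • f) θ hiso hθ ∈ H) :
    SuFull H (e + m • f) := by
  set R := e + m • f with hRdef
  set P := suTrans hF e θ hR.iso_e hθ * suTrans hF f b hR.iso_f hb with hP
  have hPH : P ∈ H := mul_mem he hf
  have hfe : h[f, e] = 1 := by rw [← hf_symm hF, hR.pair, map_one]
  have hPR : ↟P *ᵥ R = ζ • R := by
    rw [hP, SU_mul_val, ← Matrix.mulVec_mulVec]
    show Cfsg.unitaryTransvection n q e θ *ᵥ (Cfsg.unitaryTransvection n q f b *ᵥ R) = _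
    rw [unitaryTransvection_mulVec, unitaryTransvection_mulVec, hRdef]
    simp only [hermForm_add_left hF, hermForm_smul_left hF, hR.iso_e, hR.iso_f, hR.pair, hfe]
    match_scalars
    · apply mul_right_cancel₀ hζ
      linear_combination h1 + h2
    · apply mul_right_cancel₀ (mul_ne_zero hθ0 hζ)
      linear_combination h1 + (1 - ζ) * h2
  let A : AddSubgroup F :=
    { carrier := {a | ∃ ha : a + a ^ q = 0, suTrans hF R a hiso ha ∈ H}
      add_mem' := by
        rintro a a' ⟨ha, ha'⟩ ⟨hb', hb''⟩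
        have hs : a + a' + (a + a') ^ q = 0 := by rw [add_pow_q hF]; linear_combination ha + hb'
        refine ⟨hs, ?_⟩
        convert mul_mem ha' hb'' using 1
        refine SU_ext (Matrix.ext_of_mulVec_single fun i => ?_)
        rw [SU_mul_val, ← Matrix.mulVec_mulVec]
        show Cfsg.unitaryTransvection n q R (a + a') *ᵥ _ = Cfsg.unitaryTransvection n q R a *ᵥ
          (Cfsg.unitaryTransvection n q R a' *ᵥ _)
        simp only [unitaryTransvection_mulVec, hermForm_add_left hF, hermForm_smul_left hF, hiso]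
        module
      zero_mem' := by
        have h0 : (0 : F) + 0 ^ q = 0 := by rw [← conjQ_apply hF, map_zero, add_zero]
        refine ⟨h0, ?_⟩
        have : suTrans hF R 0 hiso h0 = 1 := SU_ext (Matrix.ext_of_mulVec_single fun i => by
          show Cfsg.unitaryTransvection n q R 0 *ᵥ _ = _
          rw [unitaryTransvection_mulVec, zero_mul, zero_smul, add_zero]
          exact (Matrix.one_mulVec _).symm)
        rw [this]; exact one_mem H
      neg_mem' := by
        rintro a ⟨ha, ha'⟩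
        have hs : -a + (-a) ^ q = 0 := by
          rw [← conjQ_apply hF, map_neg]; rw [← conjQ_apply hF] at ha; linear_combination -ha
        refine ⟨hs, ?_⟩
        have : suTrans hF R (-a) hiso hs = (suTrans hF R a hiso ha)⁻¹ :=
          eq_inv_of_mul_eq_one_left (SU_ext (Matrix.ext_of_mulVec_single fun i => by
            rw [SU_mul_val, ← Matrix.mulVec_mulVec]
            show Cfsg.unitaryTransvection n q R (-a) *ᵥ
              (Cfsg.unitaryTransvection n q R a *ᵥ _) = _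
            simp only [unitaryTransvection_mulVec, hermForm_add_left hF, hermForm_smul_left hF, hiso]
            refine Eq.trans ?_ (Matrix.one_mulVec _).symm
            module))
        rw [this]; exact inv_mem ha' }
  have step : ∀ a ∈ A, a * ζ ^ 2 ∈ A := by
    rintro a ⟨ha, ha'⟩
    have hs : a * ζ ^ 2 + (a * ζ ^ 2) ^ q = 0 := by
      rw [← conjQ_apply hF, map_mul, map_pow, hζf]
      rw [← conjQ_apply hF] at ha
      linear_combination ζ ^ 2 * ha
    refine ⟨hs, ?_⟩
    have h := conj_mem_of_transv hF hPH hiso ha ha' hPR hiso (by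
      rw [show ζ * σ ζ * a = a * ζ ^ 2 by rw [hζf]; ring]; exact hs)
    convert h using 2
    rw [hζf]; ring
  let K : Subfield F :=
    { carrier := {x | ∀ a ∈ A, a * x ∈ A}
      one_mem' := fun a ha => by rwa [mul_one]
      mul_mem' := fun {x y} hx hy a ha => by rw [← mul_assoc]; exact hy _ (hx a ha)
      zero_mem' := fun a _ => by rw [mul_zero]; exact zero_mem _
      add_mem' := fun {x y} hx hy a ha => by rw [mul_add]; exact add_mem (hx a ha) (hy a ha)
      neg_mem' := fun {x} hx a ha => by rw [mul_neg]; exact neg_mem (hx a ha)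
      inv_mem' := fun x hx a ha => by
        by_cases hx0 : x = 0
        · subst hx0; rw [_root_.inv_zero, mul_zero]; exact zero_mem _
        · have hall : ∀ j : ℕ, ∀ a ∈ A, a * x ^ j ∈ A := by
            intro j
            induction j with
            | zero => intro a ha; simpa using ha
            | succ j ih => intro a ha; rw [pow_succ, ← mul_assoc]; exact hx _ (ih a ha)
          have h1 := congrArg Units.val (pow_orderOf_eq_one (Units.mk0 x hx0))
          rw [Units.val_pow_eq_pow_val] at h1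
          have : x⁻¹ = x ^ (orderOf (Units.mk0 x hx0) - 1) := by
            refine inv_eq_of_mul_eq_one_right ?_
            rw [← pow_succ', Nat.sub_add_cancel (isOfFinOrder_of_finite _).orderOf_pos]
            exact h1
          rw [this]; exact hall _ a ha }
  refine SuFull.of_mem hF hiso fun x hx => ?_
  have hq : σ (x / θ) = x / θ := by
    rw [← conjQ_apply hF] at hx hθ
    rw [map_div₀, eq_neg_of_add_eq_zero_right hx, eq_neg_of_add_eq_zero_right hθ, neg_div_neg_eq]
  obtain ⟨h', h''⟩ := hgen K (fun a ha => step a ha) (x / θ) hq θ ⟨hθ, hm'⟩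
  convert h'' using 2
  rw [mul_div_cancel₀ _ hθ0]

/-- All isotropic points of the plane from one full point and a further transvection. -/
lemma suFull_plane (hR : IsSuReg u e f) {θ m : F} (hθ : θ + θ ^ q = 0) (hθ0 : θ ≠ 0)
    (hm : m ≠ 0) (he : suTrans hF e θ hR.iso_e hθ ∈ H) (hfull : SuFull H (e + m • f))
    (α β : F) (hiso : h[α • e + β • f, α • e + β • f] = 0) : SuFull H (α • e + β • f) := by
  have hfe : h[f, e] = 1 := by rw [← hf_symm hF, hR.pair, map_one]
  have hRe : h[e + m • f, e] = m := by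
    rw [hermForm_add_left hF, hermForm_smul_left hF, hR.iso_e, hfe]; ring
  have h2 := hfull.conj hF he
  rw [show ↟(suTrans hF e θ hR.iso_e hθ) *ᵥ (e + m • f) = (e + m • f) + (θ * m) • e from
    (unitaryTransvection_mulVec (q := q) e (e + m • f) θ).trans (by rw [hRe])] at h2
  have hne : h[e + m • f, e + m • f + (θ * m) • e] ≠ 0 := by
    rw [hermForm_add_right hF, hfull.1, hf_smul_right hF, hRe, zero_add]
    exact mul_ne_zero (fun h => mul_ne_zero hθ0 hm (sigma_eq_zero hF h)) hm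
  refine (hfull.of_dependent hF h2 hne hiso one_ne_zero
    (α := β / m - (α - β / m) / (θ * m)) (β := (α - β / m) / (θ * m)) ?_)
  match_scalars <;> field_simp <;> ring

lemma li_of_orth3 {p r y : 𝕍} (hp : h[p, p] ≠ 0) (hr : h[r, r] ≠ 0) (hy : h[y, y] ≠ 0)
    (hpr : h[p, r] = 0) (hpy : h[p, y] = 0) (hry : h[r, y] = 0) :
    LinearIndependent F ![p, r, y] ∧ SuNondeg q (Submodule.span F {p, r, y}) := by
  have key : ∀ a b c : F, (∀ z ∈ ({p, r, y} : Set 𝕍), h[a • p + b • r + c • y, z] = 0) →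
      a = 0 ∧ b = 0 ∧ c = 0 := by
    intro a b c h
    have e1 := h p (by simp)
    have e2 := h r (by simp)
    have e3 := h y (by simp)
    simp only [hermForm_add_left hF, hermForm_smul_left hF, hpr, hpy, hry, hf_orth_comm hF hpr,
      hf_orth_comm hF hpy, hf_orth_comm hF hry, mul_zero, add_zero, zero_add, mul_eq_zero, hp, hr,
      hy, or_false] at e1 e2 e3
    exact ⟨e1, e2, e3⟩
  constructor
  · rw [Fintype.linearIndependent_iff]
    intro a ha
    simp only [Fin.sum_univ_three, Matrix.cons_val_zero, Matrix.cons_val_one, Matrix.cons_val] at ha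
    obtain ⟨h1, h2, h3⟩ := key (a 0) (a 1) (a 2)
      (fun z _ => by rw [ha, hermForm_zero_left hF])
    intro i; fin_cases i <;> assumption
  · intro x hx h
    obtain ⟨a, w, hw, rfl⟩ := Submodule.mem_span_insert.1 hx
    obtain ⟨b, c, rfl⟩ := Submodule.mem_span_pair.1 hw
    rw [← add_assoc] at h ⊢
    obtain ⟨rfl, rfl, rfl⟩ := key a b c fun z hz => h z (Submodule.subset_span hz)
    simp

/-- An orthogonal basis of the space spanned by `e`, `f` and `u f`. -/
theorem suReg_frame (hR : IsSuReg u e f) {c : F} (hc : h[↟u *ᵥ f, f] = c) (hT : c + σ c ≠ 0) :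
    ∃ p r y : 𝕍, p = c • e + f ∧ r = f - σ c • e ∧ y = ↟u *ᵥ f - p ∧
      h[p, p] = c + σ c ∧ h[r, r] = -(c + σ c) ∧ h[y, y] = -(c + σ c) ∧
      h[p, r] = 0 ∧ h[p, y] = 0 ∧ h[r, y] = 0 ∧
      e ∈ Submodule.span F {p, r, y} ∧ f ∈ Submodule.span F {p, r, y} ∧
      ↟u *ᵥ f ∈ Submodule.span F {p, r, y} := by
  set p := c • e + f with hp
  set r := f - σ c • e with hr
  set y := ↟u *ᵥ f - p with hy
  set T := c + σ c with hTdef
  have hfe : h[f, e] = 1 := by rw [← hf_symm hF, hR.pair, map_one]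
  have he := suReg_pair_orbit hF hR 1
  rw [pow_one] at he
  have hue : h[↟u *ᵥ f, e] = 1 := by rw [← hf_symm hF, he, map_one]
  have hfu : h[f, ↟u *ᵥ f] = σ c := by rw [← hf_symm hF, hc]
  have huu : h[↟u *ᵥ f, ↟u *ᵥ f] = 0 := by rw [mem_SU_iff.1 u.2]; exact hR.iso_f
  have hpp : h[p, p] = T := by
    simp only [hp, hermForm_add_left hF, hermForm_add_right hF, hermForm_smul_left hF,
      hf_smul_right hF, hR.iso_e, hR.iso_f, hR.pair, hfe, hTdef]; ring
  have hrr : h[r, r] = -T := by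
    simp only [hr, hermForm_sub_left hF, hermForm_sub_right hF, hermForm_smul_left hF,
      hf_smul_right hF, hR.iso_e, hR.iso_f, hR.pair, hfe, sigma_two, hTdef]; ring
  have hpr : h[p, r] = 0 := by
    simp only [hp, hr, hermForm_add_left hF, hermForm_sub_right hF, hermForm_smul_left hF,
      hf_smul_right hF, hR.iso_e, hR.iso_f, hR.pair, hfe, sigma_two]; ring
  have hpy : h[p, y] = 0 := by
    rw [hy, hermForm_sub_right hF, hpp, hp, hermForm_add_left hF, hermForm_smul_left hF, he,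
      hfu, hTdef]
    ring
  have hry : h[r, y] = 0 := by
    rw [hy, hermForm_sub_right hF, hf_orth_comm hF hpr, hr, hermForm_sub_left hF,
      hermForm_smul_left hF, he, hfu]
    ring
  have hyy : h[y, y] = -T := by
    have h1 : h[↟u *ᵥ f, p] = T := by
      simp only [hp, hermForm_add_right hF, hf_smul_right hF, hue, hc, hTdef]; ring
    have h2 : h[p, ↟u *ᵥ f] = T := by
      simp only [hp, hermForm_add_left hF, hermForm_smul_left hF, he, hfu, hTdef]; ring
    simp only [hy, hermForm_sub_left hF, hermForm_sub_right hF, huu, h1, h2, hpp]; ring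
  have ef : f ∈ Submodule.span F {p, r, y} ∧ e ∈ Submodule.span F {p, r, y} := by
    have hp' : p ∈ Submodule.span F {p, r, y} := Submodule.subset_span (by simp)
    have hr' : r ∈ Submodule.span F {p, r, y} := Submodule.subset_span (by simp)
    constructor
    · have : f = T⁻¹ • (σ c • p + c • r) := by
        rw [eq_inv_smul_iff₀ hT, hp, hr, hTdef]; module
      rw [this]; exact Submodule.smul_mem _ _ (Submodule.add_mem _ (Submodule.smul_mem _ _ hp')
        (Submodule.smul_mem _ _ hr'))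
    · have : e = T⁻¹ • (p - r) := by rw [eq_inv_smul_iff₀ hT, hp, hr, hTdef]; module
      rw [this]; exact Submodule.smul_mem _ _ (Submodule.sub_mem _ hp' hr')
  refine ⟨p, r, y, rfl, rfl, rfl, hpp, hrr, hyy, hpr, hpy, hry, ef.2, ef.1, ?_⟩
  have : ↟u *ᵥ f = p + y := by rw [hy]; abel
  rw [this]
  exact Submodule.add_mem _ (Submodule.subset_span (by simp)) (Submodule.subset_span (by simp))

/-- The three-dimensional seed spanned by `e`, `f` and `u f`. -/
theorem suReg_seed (hR : IsSuReg u e f) {c : F} (hc : h[↟u *ᵥ f, f] = c) (hT : c + σ c ≠ 0)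
    (hu : u ∈ H) (hplane : ∀ α β : F, h[α • e + β • f, α • e + β • f] = 0 →
      SuFull H (α • e + β • f)) {p r y : 𝕍} (hp : p = c • e + f) (hr : r = f - σ c • e)
    (hy : y = ↟u *ᵥ f - p) :
    SuNondeg q (Submodule.span F {p, r, y}) ∧ SuFullSub H (Submodule.span F {p, r, y}) ∧
      3 ≤ Module.finrank F (Submodule.span F {p, r, y}) := by
  obtain ⟨p', r', y', ep, er, ey, hpp, hrr, hyy, hpr, hpy, hry, -, -, -⟩ := suReg_frame hF hR hc hT
  obtain rfl : p = p' := hp.trans ep.symm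
  obtain rfl : r = r' := hr.trans er.symm
  obtain rfl : y = y' := hy.trans ey.symm
  obtain ⟨li, nd⟩ := li_of_orth3 hF (hpp.symm ▸ hT) (hrr.symm ▸ neg_ne_zero.2 hT)
    (hyy.symm ▸ neg_ne_zero.2 hT) hpr hpy hry
  have hP : ∀ α β : F, h[α • p + β • r, α • p + β • r] = 0 → SuFull H (α • p + β • r) := by
    intro α β hab
    have e1 : α • p + β • r = (α * c - β * σ c) • e + (α + β) • f := by rw [hp, hr]; module
    rw [e1] at hab ⊢
    exact hplane _ _ hab
  have hff : SuFull H f := by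
    have := hplane 0 1 (by simpa using hR.iso_f)
    simpa using this
  have hq : SuFull H (p + y) := by
    rw [hy, add_sub_cancel]
    exact hff.conj hF hu
  refine ⟨nd, ?_, ?_⟩
  · intro x hx hxx
    obtain ⟨a, w, hw, rfl⟩ := Submodule.mem_span_insert.1 hx
    obtain ⟨b, d, rfl⟩ := Submodule.mem_span_pair.1 hw
    rw [← add_assoc] at hxx ⊢
    exact suFull_space3 hF hpr hpy hry (hpp.symm ▸ hT) (hrr.symm ▸ neg_ne_zero.2 hT)
      (by rw [hpp, hyy, add_neg_cancel]) hP hq a b d hxx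
  · have h1 := finrank_span_eq_card li
    rw [Fintype.card_fin] at h1
    refine le_trans (le_of_eq h1.symm) (Submodule.finrank_mono (Submodule.span_le.2 ?_))
    rintro _ ⟨i, rfl⟩
    refine Submodule.subset_span ?_
    fin_cases i <;> simp

end Cfsg.Agent.H1
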