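import Cfsg.Agent.H1.SuThreeTwo

/-!
Three conjugate regular unipotents generate `SU n q` for odd `n`.
-/

set_option autoImplicit false

namespace Cfsg.Agent.H1

open Matrix Cfsg.Agent.H3

variable {F : Type*} [Field F] [Fintype F] {q n : ℕ} (hF : Fintype.card F = q ^ 2)

local notation "h[" u ", " v "]" => Cfsg.hermForm n F q u v
local notation "σ" => conjQ hF
local notation "↟" g:max => ((Subtype.val g : Matrix.SpecialLinearGroup (Fin n) F) :
  Matrix (Fin n) (Fin n) F)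
local notation "𝕍" => Fin n → F

attribute [-simp] conjQ_apply

/-- There are a regular unipotent and two conjugates generating the group. -/
def SuThreeGenerated (n : ℕ) (F : Type*) [Field F] (q : ℕ) : Prop :=
  ∃ (u : Cfsg.SU n F q) (e f : Fin n → F), IsSuReg u e f ∧ ∃ g g' : Cfsg.SU n F q,
    Subgroup.closure ({u, g * u * g⁻¹, g' * u * g'⁻¹} : Set (Cfsg.SU n F q)) = ⊤

include hF

lemma suThree_three_of_param {p a : ℕ} [CharP F p] (hp : p.Prime) (hq : q = p ^ a) (ha : 2 ≤ a)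
    {w μ ζ : F} (hw : w + σ w = 1) (hμ : μ = 2 * w - 1) (hμ0 : μ ≠ 0)
    (hζ : ζ * μ ^ 2 = -(w * σ w))
    (hgen : ∀ i, 1 ≤ i → 2 * i ≤ a → (ζ ^ 2) ^ p ^ i ≠ ζ ^ 2) : SuThreeGenerated 3 F q := by
  have hζ0 : ζ ≠ 0 := fun h => hgen 1 le_rfl (by omega) (by
    rw [h, zero_pow two_ne_zero, zero_pow (pow_ne_zero _ hp.ne_zero)])
  have hζ1 : ζ - 1 ≠ 0 := fun h => hgen 1 le_rfl (by omega) (by
    rw [sub_eq_zero.1 h, one_pow, one_pow])
  have hw0 : w ≠ 0 := fun h => hζ0 (by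
    rw [h, zero_mul, neg_zero] at hζ
    exact (mul_eq_zero.1 hζ).resolve_right (pow_ne_zero _ hμ0))
  have hsw : σ w = 1 - w := by linear_combination hw
  have hsw0 : σ w ≠ 0 := fun h => hw0 (sigma_eq_zero hF h)
  have hμσ : σ μ = -μ := by rw [hμ, map_sub, map_mul, map_one, map_ofNat, hsw]; ring
  have hζf : σ ζ = ζ := by
    apply mul_right_cancel₀ (pow_ne_zero 2 hμ0)
    have h := congrArg σ hζ
    rw [map_mul, map_pow, hμσ, neg_sq, map_neg, map_mul, sigma_two, mul_comm (σ w)] at h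
    rw [h, hζ]
  set c := w⁻¹ with hc
  have hTN : c + σ c = c * σ c := by
    rw [hc, map_inv₀]; field_simp; linear_combination hw
  have hc0 : c ≠ 0 := inv_ne_zero hw0
  have hT : c + σ c ≠ 0 := by
    rw [hTN]; exact mul_ne_zero hc0 (fun h => hc0 (sigma_eq_zero hF h))
  have hform : c - σ (3 * c + σ c) / σ c ^ 2 = μ := by
    rw [hμ, map_add, map_mul, map_ofNat, sigma_two, hc, map_inv₀]
    field_simp
    rw [hsw]
    ring
  have hcond : σ c - (3 * c + σ c) / c ^ 2 + σ (σ c - (3 * c + σ c) / c ^ 2) = 0 := by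
    have e1 : σ c - (3 * c + σ c) / c ^ 2 = σ μ := by
      rw [← hform, map_sub σ, map_div₀, map_pow, sigma_two, sigma_two]
    rw [e1, sigma_two, hμσ, neg_add_cancel]
  obtain ⟨u, e, f, hR, hu1, hu2⟩ := exists_suReg_three hF hT
  obtain ⟨g, g0, g1, g2⟩ := suReg_exists_plane hF hR le_rfl hu1 hu2 hc0 hT hcond
  rw [hform] at g2
  have hdet := det_plane_three hF hR hu1 hu2 hT hTN g g0 g1 g2
  have hmem : g ∈ (suToGU 3 F q).range := by
    rw [range_suToGU]
    exact Units.ext hdet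
  obtain ⟨g', rfl⟩ := hmem
  have hq3 : 3 ≤ q := by
    rw [hq]
    calc 3 ≤ 2 ^ 2 := by norm_num
      _ ≤ p ^ 2 := Nat.pow_le_pow_left hp.two_le 2
      _ ≤ p ^ a := Nat.pow_le_pow_right hp.pos ha
  refine ⟨u, e, f, hR, suThree_torus hF hR le_rfl hq3 (g := g') (θ := -(μ * (ζ - 1))) (ζ := ζ)
    (ε := -1) hu1 hT (neg_ne_zero.2 (mul_ne_zero hμ0 hζ1)) ?_ hζ0 hζf hμ0 ?_ (Or.inr rfl) g0 g1 g2
    ?_ ?_ (fun K hK => fixed_mem_of_generator hF hp hq (by rw [map_pow, hζf]) hgen K hK)⟩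
  · rw [map_neg, map_mul, map_sub, map_one, hμσ, hζf]; ring
  · rw [hμσ, add_neg_cancel]
  · rw [hc, map_inv₀]; field_simp; linear_combination -hζ
  · rw [hc, map_inv₀]; field_simp; linear_combination -hζ

lemma suThree_large_of_param (k : ℕ) (hk : 1 ≤ k) {p a : ℕ} [CharP F p] (hp : p.Prime)
    (hq : q = p ^ a) (ha : 2 ≤ a) : SuThreeGenerated (2 * k + 3) F q := by
  obtain ⟨ζ, θ, c, μ, hθ0, hθ, hζ0, hζf, hμ0, hμ, hc0, hT, hK, h1, h2, hgen⟩ :=
    exists_gen_large hF hp hq ha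
  have hσc : σ c ≠ 0 := fun h => hc0 (sigma_eq_zero hF h)
  have hμσ : σ μ = -μ := eq_neg_of_add_eq_zero_right hμ
  set c₂ := (σ c + μ) * c ^ 2 with hc₂
  obtain ⟨u, e, f, hR, hu1, hu2⟩ := exists_suReg_large hF k hk (c := c) (c₂ := c₂) hT (by
    intro h
    apply mul_ne_zero hT hK
    rw [hc₂, map_mul, map_add, map_pow, sigma_two, hμσ] at h
    linear_combination h)
  have hform : c - σ c₂ / σ c ^ 2 = μ := by
    rw [hc₂, map_mul, map_add, map_pow, sigma_two, hμσ]; field_simp; ring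
  obtain ⟨g₀, g0, g1, g2⟩ := suReg_exists_plane hF hR (by omega) hu1 hu2 hc0 hT (by
    rw [hc₂, mul_div_cancel_right₀ _ (pow_ne_zero 2 hc0), sub_add_cancel_left, map_neg]
    linear_combination -hμ)
  rw [hform] at g2
  obtain ⟨P, R, Y, -, -, -, hpp, hrr, hyy, hpr, hpy, hry, heS, hfS, huS⟩ :=
    suReg_frame hF hR hu1 hT
  obtain ⟨-, hnd⟩ := li_of_orth3 hF (hpp.symm ▸ hT) (hrr.symm ▸ neg_ne_zero.2 hT)
    (hyy.symm ▸ neg_ne_zero.2 hT) hpr hpy hry
  have hS3 : Module.finrank F (Submodule.span F ({P, R, Y} : Set (Fin (2 * k + 3) → F))) ≤ 3 := by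
    classical
    refine (finrank_span_le_card (R := F) ({P, R, Y} : Set (Fin (2 * k + 3) → F))).trans ?_
    simpa using Finset.card_le_three (a := P) (b := R) (c := Y)
  obtain ⟨w, hw, hw0⟩ := exists_aniso_orth_top hF hnd (by omega)
  obtain ⟨g, hg⟩ := exists_SU_of_GU hF g₀ hw0
  have act : ∀ x y, (g₀.1 : Matrix (Fin (2 * k + 3)) (Fin (2 * k + 3)) F) *ᵥ x = y →
      y ∈ Submodule.span F ({P, R, Y} : Set (Fin (2 * k + 3) → F)) →
      ((g.1 : Matrix.SpecialLinearGroup (Fin (2 * k + 3)) F) :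
        Matrix (Fin (2 * k + 3)) (Fin (2 * k + 3)) F) *ᵥ x = y := fun x y hxy hy => by
    rw [hg x (by rw [hxy]; exact hf_orth_comm hF (hw y hy)), hxy]
  have hq3 : 3 ≤ q := by
    rw [hq]
    calc 3 ≤ 2 ^ 2 := by norm_num
      _ ≤ p ^ 2 := Nat.pow_le_pow_left hp.two_le 2
      _ ≤ p ^ a := Nat.pow_le_pow_right hp.pos ha
  exact ⟨u, e, f, hR, suThree_torus hF hR (by omega) hq3 (g := g) (ε := 1) hu1 hT hθ0 hθ hζ0 hζf
    hμ0 hμ (Or.inl rfl) (act _ _ g0 heS) (act _ _ g1 (Submodule.smul_mem _ c hfS))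
    (act _ _ g2 huS) (by rw [one_mul]; exact h1) h2
    (fun K hK => fixed_mem_of_generator hF hp hq (by rw [map_pow, hζf]) hgen K hK)⟩

/-- The generation theorem. -/
theorem su_three_regular_generate (k : ℕ) (h32 : ¬ (k = 0 ∧ q = 2)) :
    SuThreeGenerated (2 * k + 3) F q := by
  obtain ⟨p, a, hp, hchar, ha, hq⟩ := exists_q_eq_pow hF
  have hq2 := two_le_q hF
  rcases ha.eq_or_lt with ha1 | ha2
  · have hqp : q = p := by rw [hq, ← ha1, pow_one]
    by_cases hq3 : 3 ≤ q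
    · obtain ⟨w, hw⟩ := exists_trace_one hF
      have hT : w + σ w ≠ 0 := by rw [hw]; exact one_ne_zero
      rcases Nat.eq_zero_or_pos k with rfl | hk
      · obtain ⟨u, e, f, hR, hu1, -⟩ := exists_suReg_three hF hT
        exact ⟨u, e, f, hR, suThree_prime hF hR le_rfl hp hqp hq3 hu1 hT⟩
      · obtain ⟨u, e, f, hR, hu1, -⟩ := exists_suReg_large hF k hk (c₂ := 4 * w + w) hT (by
          rw [map_add, map_mul, map_ofNat]
          intro h
          exact one_ne_zero (show (1 : F) = 0 by linear_combination h - hw))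
        exact ⟨u, e, f, hR, suThree_prime hF hR (by omega) hp hqp hq3 hu1 hT⟩
    · have hq' : q = 2 := by omega
      have hk : 1 ≤ k := by omega
      obtain rfl : p = 2 := by omega
      have h2 : (2 : F) = 0 := CharTwo.two_eq_zero
      obtain ⟨c, hc, hcc⟩ := exists_qtwo_element hF hq' h2
      obtain ⟨u, φ, e, f, M, rfl, -, hR, hu1, hu2, hu3⟩ := exists_suReg_qtwo hF k hk h2 hc hcc
      refine ⟨u, e, f, hR, suThree_qtwo hF hR (by omega) hq' h2 hc hcc hu1 hu2 hu3 ?_⟩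
      by_cases h1 : k = 1
      · exact Or.inl (if_pos h1)
      · exact Or.inr (if_neg h1)
  · rcases Nat.eq_zero_or_pos k with rfl | hk
    · by_cases h2 : (2 : F) = 0
      · haveI : CharP F 2 := CharTwo.of_one_ne_zero_of_two_eq_zero one_ne_zero h2
        obtain rfl : p = 2 := CharP.eq F hchar inferInstance
        obtain ⟨w, hw, hgen⟩ := exists_gen_even hF hq ha2 h2
        refine suThree_three_of_param hF hp hq ha2 (μ := 1) (ζ := w * w + w) hw ?_ one_ne_zero ?_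
          hgen
        · linear_combination (1 - w) * h2
        · rw [show σ w = 1 - w by linear_combination hw]; linear_combination w * h2
      · obtain ⟨D, hD0, hDσ, hgen⟩ := exists_gen_odd hF hp hq ha2 h2
        have hsw : σ ((1 + D) / 2) = (1 - D) / 2 := by
          rw [map_div₀, map_add, map_one, map_ofNat, hDσ, sub_eq_add_neg]
        refine suThree_three_of_param hF hp hq ha2 (w := (1 + D) / 2) (μ := D)
          (ζ := -((1 + D) / 2 * ((1 - D) / 2)) / D ^ 2) ?_ ?_ hD0 ?_ hgen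
        · rw [hsw]; field_simp; ring
        · field_simp; ring
        · rw [hsw, div_mul_cancel₀ _ (pow_ne_zero 2 hD0)]
    · exact suThree_large_of_param hF k hk hp hq ha2

end Cfsg.Agent.H1
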