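import Cfsg.Agent.H1.SuThreeCases

/-!
Three conjugate regular unipotents over the two-element base field.
-/

set_option autoImplicit false

namespace Cfsg.Agent.H1

open Matrix Cfsg.Agent.H3

variable {F : Type*} [Field F] [Fintype F] {q n : ℕ} (hF : Fintype.card F = q ^ 2)

local notation "h[" u ", " v "]" => Cfsg.hermForm n F q u v
local notation "σ" => conjQ hF
local notation "↟" g:max => ((Subtype.val g : Matrix.SpecialLinearGroup (Fin n) F) :
  Matrix (Fin n) (Fin n) F)
local notation "𝕍" => Fin n → F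

attribute [-simp] conjQ_apply

variable {u : Cfsg.SU n F q} {e f : Fin n → F} {H : Subgroup (Cfsg.SU n F q)}

include hF

lemma suNondeg_top : SuNondeg q (⊤ : Submodule F 𝕍) := fun x _ hx =>
  (isHerm_hermB hF n).sep x fun z => hf_orth_comm hF (hx z trivial)

lemma exists_aniso_orth_top {T : Submodule F 𝕍} (hT : SuNondeg q T)
    (hlt : Module.finrank F T < n) : ∃ w : 𝕍, (∀ t ∈ T, h[w, t] = 0) ∧ h[w, w] ≠ 0 := by
  obtain ⟨w, -, hw⟩ := exists_aniso_orth hF (suNondeg_top hF) hT le_top
    (by rwa [finrank_top, Module.finrank_fintype_fun_eq_card, Fintype.card_fin])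
  exact ⟨w, hw⟩

lemma exists_qtwo_element (hq : q = 2) (h2 : (2 : F) = 0) :
    ∃ c : F, σ c = c + 1 ∧ c * c + c + 1 = 0 := by
  obtain ⟨c, hc⟩ := exists_trace_one hF
  refine ⟨c, by linear_combination hc - c * h2, ?_⟩
  rw [conjQ_apply, hq] at hc
  linear_combination hc + h2

lemma qtwo_norm (hq : q = 2) {t : F} (ht : t ≠ 0) : t * σ t = 1 := by
  have h := FiniteField.pow_card_sub_one_eq_one t ht
  rw [hF, hq] at h
  rw [conjQ_apply, hq]
  linear_combination h

lemma qtwo_cases (hq : q = 2) (h2 : (2 : F) = 0) {c t : F} (hcc : c * c + c + 1 = 0)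
    (ht : t ≠ 0) : t = 1 ∨ t = c ∨ t = c + 1 := by
  have h := qtwo_norm hF hq ht
  rw [conjQ_apply, hq] at h
  have : (t - 1) * ((t - c) * (t - (c + 1))) = 0 := by
    linear_combination h + (t - 1) * hcc + (-(1 + c) * t ^ 2 + c * t + 1) * h2
  rcases mul_eq_zero.1 this with h | h
  · exact Or.inl (sub_eq_zero.1 h)
  rcases mul_eq_zero.1 h with h | h
  · exact Or.inr (Or.inl (sub_eq_zero.1 h))
  · exact Or.inr (Or.inr (sub_eq_zero.1 h))

/-- All isotropic vectors of a four-space from seeds in the frames. -/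
theorem suTwo_four (hq : q = 2) (h2 : (2 : F) = 0) {c : F} (hc : σ c = c + 1)
    (hcc : c * c + c + 1 = 0) {p r y w : 𝕍} (hpp : h[p, p] = 1) (hrr : h[r, r] = 1)
    (hyy : h[y, y] = 1) (hpr : h[p, r] = 0) (hpy : h[p, y] = 0) (hry : h[r, y] = 0)
    (hS : SuFullSub H (Submodule.span F {p, r, y})) (hnd : SuNondeg q (Submodule.span F {p, r, y}))
    (hd : 2 ≤ Module.finrank F (Submodule.span F {p, r, y}))
    (hw : ∀ s ∈ Submodule.span F {p, r, y}, h[w, s] = 0) (hww : h[w, w] = 1)
    (hseed : SuFull H (p + c • r + y + w)) {a : 𝕍} (haS : a ∈ Submodule.span F {p, r, y})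
    (haN : h[a, a] = 1) (hap : h[p, a] = 0) (ha : SuFull H (a + w)) :
    SuFullSub H (Submodule.span F {p, r, y} ⊔ Submodule.span F {w}) := by
  set S := Submodule.span F {p, r, y} with hSdef
  have hpS : p ∈ S := Submodule.subset_span (by simp)
  have hrS : r ∈ S := Submodule.subset_span (by simp)
  have hyS : y ∈ S := Submodule.subset_span (by simp)
  have hrp := hf_orth_comm hF hpr
  have hyp := hf_orth_comm hF hpy
  have hyr := hf_orth_comm hF hry
  have hwp := hw p hpS
  have hwr := hw r hrS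
  have hwy := hw y hyS
  have hpw := hf_orth_comm hF hwp
  have hrw := hf_orth_comm hF hwr
  have hyw := hf_orth_comm hF hwy
  have hNy : (1 : F) + h[w, w] = 0 := by rw [hww]; linear_combination h2
  have hw0 : h[w, w] ≠ 0 := by rw [hww]; exact one_ne_zero
  have step := suFull_step hF hnd hS hd (N := 1) hw hw0 hNy
  have orth : ∀ A ∈ S, h[A, A] = 1 → SuFull H (A + w) → ∀ b ∈ S, h[b, b] = 1 → h[b, A] = 0 →
      SuFull H (b + w) := fun A hA hAN hAf b hb hbN hbA =>
    step A hA hAN hAf b hb hbN (Or.inl (by rw [hbA, zero_mul, one_mul]; exact one_ne_zero.symm))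
  have par : ∀ A ∈ S, h[A, A] = 1 → SuFull H (A + w) → ∀ k : F, k ≠ 0 →
      SuFull H (k • A + w) := fun A hA hAN hAf k hk =>
    step A hA hAN hAf (k • A) (S.smul_mem k hA)
      (by rw [hermForm_smul_left hF, hf_smul_right hF, hAN, mul_one, qtwo_norm hF hq hk])
      (Or.inr (by rw [hermForm_smul_left hF, hAN, mul_one, div_one]))
  have fp : SuFull H (p + w) := orth a haS haN ha p hpS hpp hap
  have hc0 : c ≠ 0 := fun h => by simp [h] at hcc
  have hc1 : c + 1 ≠ 0 := fun h => one_ne_zero (show (1 : F) = 0 by linear_combination hcc - c * h)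
  have hone : (1 : F) + σ 1 = 0 := by rw [map_one]; linear_combination h2
  have fc := hseed.move hF (par p hpS hpp fp c hc0) hone
  have fc1 := hseed.move hF (par p hpS hpp fp (c + 1) hc1) hone
  have e1 : h[p + c • r + y + w, c • p + w] = c := by
    simp only [hermForm_add_left hF, hermForm_add_right hF, hermForm_smul_left hF,
      hf_smul_right hF, hpp, hrp, hyp, hwp, hpw, hrw, hyw, hww, hc]
    linear_combination h2
  have e2 : h[p + c • r + y + w, (c + 1) • p + w] = c + 1 := by
    simp only [hermForm_add_left hF, hermForm_add_right hF, hermForm_smul_left hF,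
      hf_smul_right hF, hpp, hrp, hyp, hwp, hpw, hrw, hyw, hww, map_add, map_one, hc]
    linear_combination h2
  rw [e1, one_mul] at fc
  rw [e2, one_mul] at fc1
  have f2 : SuFull H ((c + 1) • (p + r + (c + 1) • y) + w) := by
    have := fc.smul hF c
    convert this using 1
    match_scalars
    · linear_combination -c * hcc + hcc + (c ^ 2 + 1) * h2 - c * h2 + (-1 + c - c ^ 2) * h2
    · linear_combination -hcc + (c + 1) * h2
    · linear_combination hcc
    · linear_combination -hcc + h2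
  have f0 : SuFull H (c • (p + (c + 1) • r + c • y) + w) := by
    have := fc1.smul hF (c + 1)
    convert this using 1
    match_scalars
    · linear_combination -(c + 1) * hcc - (c + 1) * h2 + hcc - c ^ 2 * h2
    · linear_combination 0 * hcc
    · linear_combination hcc - (c + 1) * h2
    · linear_combination -hcc - c * h2
  have N0 : ∀ β γ : F, β ≠ 0 → γ ≠ 0 → h[p + β • r + γ • y, p + β • r + γ • y] = 1 := by
    intro β γ hβ hγ
    simp only [hermForm_add_left hF, hermForm_add_right hF, hermForm_smul_left hF,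
      hf_smul_right hF, hpp, hrp, hyp, hpr, hpy, hrr, hyy, hry, hyr]
    linear_combination qtwo_norm hF hq hβ + qtwo_norm hF hq hγ + h2
  have memS : ∀ β γ : F, p + β • r + γ • y ∈ S := fun β γ =>
    S.add_mem (S.add_mem hpS (S.smul_mem β hrS)) (S.smul_mem γ hyS)
  have s1 : SuFull H (p + c • r + (1 : F) • y + w) := by rwa [one_smul]
  have s2 : SuFull H (p + (1 : F) • r + (c + 1) • y + w) := by
    have h := par _ (S.smul_mem _ (S.add_mem (S.add_mem hpS hrS) (S.smul_mem _ hyS))) (by
      rw [hermForm_smul_left hF, hf_smul_right hF, ← mul_assoc, qtwo_norm hF hq hc1, one_mul]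
      simpa using N0 1 (c + 1) one_ne_zero hc1) f2 c hc0
    rw [smul_smul, show c * (c + 1) = 1 by linear_combination hcc - h2, one_smul] at h
    rwa [one_smul]
  have s0 : SuFull H (p + (c + 1) • r + c • y + w) := by
    have h := par _ (S.smul_mem _ (memS (c + 1) c)) (by
      rw [hermForm_smul_left hF, hf_smul_right hF, ← mul_assoc, qtwo_norm hF hq hc0, one_mul]
      exact N0 _ _ hc1 hc0) f0 (c + 1) hc1
    rwa [smul_smul, show (c + 1) * c = 1 by linear_combination hcc - h2, one_smul] at h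
  refine suFullSub_sup_of_all hF hS (N := 1) hw hNy fun b hb hbN => ?_
  obtain ⟨α, z, hz, rfl⟩ := Submodule.mem_span_insert.1 hb
  obtain ⟨β, γ, rfl⟩ := Submodule.mem_span_pair.1 hz
  by_cases hα : α = 0
  · refine orth p hpS hpp fp _ hb hbN ?_
    simp [hermForm_add_left hF, hermForm_smul_left hF, hermForm_zero_left hF, hα, hrp, hyp]
  have hN' : α * σ α + β * σ β + γ * σ γ = 1 := by
    rw [← hbN]
    simp only [hermForm_add_left hF, hermForm_add_right hF, hermForm_smul_left hF,
      hf_smul_right hF, hpp, hrp, hyp, hpr, hpy, hrr, hyy, hry, hyr]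
    ring
  rw [qtwo_norm hF hq hα] at hN'
  by_cases hβ : β = 0
  · by_cases hγ : γ = 0
    · simpa [hβ, hγ] using par p hpS hpp fp α hα
    · rw [hβ, qtwo_norm hF hq hγ] at hN'
      exact absurd (show (1 : F) = 0 by linear_combination hN') one_ne_zero
  by_cases hγ : γ = 0
  · rw [hγ, qtwo_norm hF hq hβ] at hN'
    exact absurd (show (1 : F) = 0 by linear_combination hN') one_ne_zero
  have key : SuFull H (p + (β / α) • r + (γ / α) • y + w) := by
    have hβ' := div_ne_zero hβ hα
    have hγ' := div_ne_zero hγ hα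
    have go : ∀ β₀ γ₀ : F, β₀ ≠ 0 → γ₀ ≠ 0 → SuFull H (p + β₀ • r + γ₀ • y + w) →
        1 + β / α * σ β₀ + γ / α * σ γ₀ = 0 → SuFull H (p + (β / α) • r + (γ / α) • y + w) := by
      intro β₀ γ₀ h0 h0' hs h
      refine orth _ (memS β₀ γ₀) (N0 _ _ h0 h0') hs _ (memS _ _) (N0 _ _ hβ' hγ') ?_
      simp only [hermForm_add_left hF, hermForm_add_right hF, hermForm_smul_left hF,
        hf_smul_right hF, hpp, hrp, hyp, hpr, hpy, hrr, hyy, hry, hyr]
      linear_combination h
    rcases qtwo_cases hF hq h2 hcc hβ' with h | h | h <;>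
      rcases qtwo_cases hF hq h2 hcc hγ' with h' | h' | h'
    · refine go _ _ hc1 hc0 s0 ?_
      simp only [h, h', map_add, map_one, hc]; linear_combination (c + 2) * h2
    · refine go _ _ hc0 one_ne_zero s1 ?_
      simp only [h, h', map_one, hc]; linear_combination (c + 1) * h2
    · rw [h, h']; exact s2
    · rw [h, h']; exact s1
    · refine go _ _ one_ne_zero hc1 s2 ?_
      simp only [h, h', map_add, map_one, hc]; linear_combination hcc + c * h2 + h2 - h2
    · refine go _ _ hc1 hc0 s0 ?_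
      simp only [h, h', map_add, map_one, hc]; linear_combination 2 * hcc + c * h2
    · refine go _ _ one_ne_zero hc1 s2 ?_
      simp only [h, h', map_add, map_one, hc]; linear_combination (c + 2) * h2
    · rw [h, h']; exact s0
    · refine go _ _ hc0 one_ne_zero s1 ?_
      simp only [h, h', map_one, hc]; linear_combination hcc + (c + 1) * h2
  have h := par _ (memS (β / α) (γ / α)) (N0 _ _ (div_ne_zero hβ hα) (div_ne_zero hγ hα)) key α hα
  convert h using 1
  match_scalars <;> field_simp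

/-- Generation over the two-element base field in dimension at least five. -/
theorem suThree_qtwo (hR : IsSuReg u e f) (hn : 5 ≤ n) (hq : q = 2) (h2 : (2 : F) = 0) {c c₃ : F}
    (hc : σ c = c + 1) (hcc : c * c + c + 1 = 0) (hu1 : h[↟u *ᵥ f, f] = c)
    (hu2 : h[↟u *ᵥ (↟u *ᵥ f), f] = c + 1) (hu3 : h[↟u *ᵥ (↟u *ᵥ (↟u *ᵥ f)), f] = c₃)
    (hc3 : c₃ = c ∨ c₃ = 1) :
    ∃ g g' : Cfsg.SU n F q,
      Subgroup.closure ({u, g * u * g⁻¹, g' * u * g'⁻¹} : Set (Cfsg.SU n F q)) = ⊤ := by
  have hc0 : c ≠ 0 := fun h => by simp [h] at hcc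
  have hc1 : c + 1 ≠ 0 := fun h => one_ne_zero (show (1 : F) = 0 by linear_combination hcc - c * h)
  have hT1 : c + σ c = 1 := by rw [hc]; linear_combination c * h2
  have hT : c + σ c ≠ 0 := by rw [hT1]; exact one_ne_zero
  obtain ⟨p, r, y, hp, hr, hy, hpp, hrr, hyy, hpr, hpy, hry, heS, hfS, -⟩ :=
    suReg_frame hF hR hu1 hT
  rw [hT1] at hpp hrr hyy
  have hneg : (-1 : F) = 1 := by linear_combination -h2
  rw [hneg] at hrr hyy
  obtain ⟨-, hnd⟩ := li_of_orth3 hF (hpp.symm ▸ one_ne_zero) (hrr.symm ▸ one_ne_zero)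
    (hyy.symm ▸ one_ne_zero) hpr hpy hry
  set S := Submodule.span F {p, r, y} with hSdef
  have hS3 : Module.finrank F S ≤ 3 := by
    classical
    refine (finrank_span_le_card (R := F) ({p, r, y} : Set 𝕍)).trans ?_
    simpa using Finset.card_le_three (a := p) (b := r) (c := y)
  obtain ⟨w, hw, hw0⟩ := exists_aniso_orth_top hF hnd (by omega)
  have hww : h[w, w] = 1 := by
    have h := qtwo_norm hF hq hw0
    rw [hf_self_fixed hF, ← sq, sq_eq_one_iff] at h
    rcases h with h | h
    · exact h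
    · rw [h, hneg]
  have hpS : p ∈ S := Submodule.subset_span (by simp)
  have hrS : r ∈ S := Submodule.subset_span (by simp)
  have hyS : y ∈ S := Submodule.subset_span (by simp)
  have hrp := hf_orth_comm hF hpr
  have hyp := hf_orth_comm hF hpy
  have hyr := hf_orth_comm hF hry
  have hwp := hw p hpS
  have hwr := hw r hrS
  have hwy := hw y hyS
  have hpw := hf_orth_comm hF hwp
  have hrw := hf_orth_comm hF hwr
  have hyw := hf_orth_comm hF hwy
  have ee : e = p + r := by
    rw [hp, hr, hc]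
    match_scalars
    · linear_combination h2
    · linear_combination -h2
  have ef : f = (c + 1) • p + c • r := by
    rw [hp, hr, hc]
    match_scalars
    · linear_combination -c * h2
    · ring
  set X := p + c • r + y + w with hX
  obtain ⟨Y, hYS, hYY, hYe, hYf, hYX, a, haS, haN, hap, hY⟩ : ∃ Y,
      Y ∈ S ⊔ Submodule.span F {w} ∧ h[Y, Y] = 0 ∧ h[Y, e] = c₃ ∧ h[Y, f] = 1 ∧ h[Y, X] = c ∧
      ∃ a ∈ S, h[a, a] = 1 ∧ h[p, a] = 0 ∧ ∀ H : Subgroup (Cfsg.SU n F q),
        SuFull H X → SuFull H Y → SuFull H (a + w) := by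
    have hmem : ∀ α β γ δ : F, α • p + β • r + γ • y + δ • w ∈ S ⊔ Submodule.span F {w} :=
      fun α β γ δ => Submodule.add_mem_sup (S.add_mem (S.add_mem (S.smul_mem α hpS)
        (S.smul_mem β hrS)) (S.smul_mem γ hyS)) (Submodule.mem_span_singleton.2 ⟨δ, rfl⟩)
    rcases hc3 with rfl | rfl
    · refine ⟨(0 : F) • p + c₃ • r + (0 : F) • y + (c₃ + 1) • w, hmem _ _ _ _, ?_, ?_, ?_, ?_,
        (c₃ + 1) • r, S.smul_mem _ hrS, ?_, ?_, fun H _ hYf' => ?_⟩
      · simp only [hermForm_add_left hF, hermForm_add_right hF, hermForm_smul_left hF,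
          hf_smul_right hF, hpp, hrr, hyy, hww, hpr, hpy, hry, hrp, hyp, hyr, hwp, hwr, hwy, hpw,
          hrw, hyw, map_zero, map_add, map_one, hc]
        linear_combination 2 * hcc + h2 + (c₃ + 1) * h2 - (c₃ + 1) * h2 - h2 + (c₃ + 1) * h2 - (c₃ + 1) * h2 + c₃ * h2
      · simp only [ee, hermForm_add_left hF, hermForm_add_right hF, hermForm_smul_left hF,
          hrr, hpr, hrp, hyp, hyr, hwp, hwr]
        ring
      · simp only [ef, hermForm_add_left hF, hermForm_add_right hF, hermForm_smul_left hF,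
          hf_smul_right hF, hrr, hpr, hrp, hyp, hyr, hwp, hwr, hc]
        linear_combination hcc - h2
      · simp only [hX, hermForm_add_left hF, hermForm_add_right hF, hermForm_smul_left hF,
          hf_smul_right hF, hrr, hpr, hrp, hyp, hyr, hry, hrw, hww, hwp, hwr, hwy, hc]
        linear_combination hcc + c₃ * h2 - c₃ * h2
      · rw [hermForm_smul_left hF, hf_smul_right hF, hrr, mul_one, qtwo_norm hF hq hc1]
      · rw [hf_smul_right hF, hpr, mul_zero]
      · have := hYf'.smul hF c₃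
        convert this using 1
        match_scalars
        · linear_combination -hcc + (c₃ + 1) * h2
        · linear_combination -hcc + h2
        · ring
        · ring
    · refine ⟨c • p + (c + 1) • r + (1 : F) • y + (c + 1) • w, hmem _ _ _ _, ?_, ?_, ?_, ?_,
        (c + 1) • y, S.smul_mem _ hyS, ?_, ?_, fun H hXf hYf' => ?_⟩
      · simp only [hermForm_add_left hF, hermForm_add_right hF, hermForm_smul_left hF,
          hf_smul_right hF, hpp, hrr, hyy, hww, hpr, hpy, hry, hrp, hyp, hyr, hwp, hwr, hwy, hpw,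
          hrw, hyw, map_add, map_one, hc]
        linear_combination 3 * hcc + h2 * c + (1 + c) * h2
      · simp only [ee, hermForm_add_left hF, hermForm_add_right hF, hermForm_smul_left hF,
          hpp, hrr, hpr, hrp, hyp, hyr, hwp, hwr]
        linear_combination c * h2
      · simp only [ef, hermForm_add_left hF, hermForm_add_right hF, hermForm_smul_left hF,
          hf_smul_right hF, hpp, hrr, hpr, hrp, hyp, hyr, hwp, hwr, map_add, map_one, hc]
        linear_combination 2 * hcc + (c - 1) * h2 - (c - 1) * h2 + (-1 + c) * h2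
      · simp only [hX, hermForm_add_left hF, hermForm_add_right hF, hermForm_smul_left hF,
          hf_smul_right hF, hpp, hrr, hyy, hww, hpr, hpy, hry, hrp, hyp, hyr, hwp, hwr, hwy, hpw,
          hrw, hyw, hc]
        linear_combination hcc + (c + 1) * h2
      · rw [hermForm_smul_left hF, hf_smul_right hF, hyy, mul_one, qtwo_norm hF hq hc1]
      · rw [hf_smul_right hF, hpy, mul_zero]
      · have hone : (1 : F) + σ 1 = 0 := by rw [map_one]; linear_combination h2
        have h := hXf.move hF (hYf'.smul hF c) hone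
        rw [one_mul, hf_smul_right hF] at h
        have hXY : h[X, c • p + (c + 1) • r + (1 : F) • y + (c + 1) • w] = σ c := by
          rw [← hf_symm hF _ X]
          congr 1
          simp only [hX, hermForm_add_left hF, hermForm_add_right hF, hermForm_smul_left hF,
            hf_smul_right hF, hpp, hrr, hyy, hww, hpr, hpy, hry, hrp, hyp, hyr, hwp, hwr, hwy, hpw,
            hrw, hyw, hc]
          linear_combination hcc + (c + 1) * h2
        rw [hXY, hc] at h
        have h' := h.smul hF c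
        convert h' using 1
        rw [hX]
        match_scalars
        · linear_combination -(c + 1) * hcc + (c + 1) * h2 - c ^ 2 * hcc + c ^ 2 * h2
        · linear_combination -(c + 1) * hcc + (c + 1) * h2 - (c ^ 3 + c) * hcc + (c ^ 2 - c ^ 4) * h2
        · linear_combination -(c + 1) * hcc + (c + 1) * h2 - (c ^ 3 + c ^ 2 + 1) * hcc + (c ^ 3 + 2 * c ^ 2) * h2
        · linear_combination -(c + 1) * hcc + (c + 1) * h2 - (c ^ 3 + c + 1) * hcc + (-c ^ 4 + c ^ 2 + c) * h2
  have hXX : h[X, X] = 0 := by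
    simp only [hX, hermForm_add_left hF, hermForm_add_right hF, hermForm_smul_left hF,
      hf_smul_right hF, hpp, hrr, hyy, hww, hpr, hpy, hry, hrp, hyp, hyr, hwp, hwr, hwy, hpw, hrw,
      hyw, hc]
    linear_combination hcc + h2
  have hXe : h[X, e] = c + 1 := by
    simp only [hX, ee, hermForm_add_left hF, hermForm_add_right hF, hermForm_smul_left hF,
      hpp, hrr, hpr, hrp, hyp, hyr, hwp, hwr]
    ring
  have hXf : h[X, f] = c + 1 := by
    simp only [hX, ef, hermForm_add_left hF, hermForm_add_right hF, hermForm_smul_left hF,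
      hf_smul_right hF, hpp, hrr, hpr, hrp, hyp, hyr, hwp, hwr, map_add, map_one, hc]
    linear_combination hcc
  have hXS : X ∈ S ⊔ Submodule.span F {w} := Submodule.add_mem_sup
    (S.add_mem (S.add_mem hpS (S.smul_mem c hrS)) hyS) (Submodule.mem_span_singleton_self w)
  set f₁ := ↟u *ᵥ f with hf₁
  set f₂ := ↟u *ᵥ f₁ with hf₂
  set f₃ := ↟u *ᵥ f₂ with hf₃
  have pres : ∀ a b, h[↟u *ᵥ a, ↟u *ᵥ b] = h[a, b] := mem_SU_iff.1 u.2
  have g21 : h[f₂, f₁] = c := by rw [hf₂]; nth_rw 2 [hf₁]; rw [pres]; exact hu1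
  have g31 : h[f₃, f₁] = c + 1 := by rw [hf₃]; nth_rw 1 [hf₁]; rw [pres]; exact hu2
  have g32 : h[f₃, f₂] = c := by rw [hf₃]; nth_rw 2 [hf₂]; rw [pres]; exact g21
  have g11 : h[f₁, f₁] = 0 := by rw [hf₁, pres]; exact hR.iso_f
  have g22 : h[f₂, f₂] = 0 := by rw [hf₂, pres]; exact g11
  have g33 : h[f₃, f₃] = 0 := by rw [hf₃, pres]; exact g22
  have hfe : h[f, e] = 1 := by rw [← hf_symm hF, hR.pair, map_one]
  let G : Matrix (Fin 4) (Fin 4) F :=
    !![0, 1, σ (c + 1), σ c₃; 1, 0, σ (c + 1), 1; c + 1, c + 1, 0, σ c; c₃, 1, c, 0]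
  have gsrc : ∀ i j, h[![f, c⁻¹ • f₁, f₂, f₃] i, ![f, c⁻¹ • f₁, f₂, f₃] j] = G i j := by
    have hci : σ c⁻¹ = (c + 1)⁻¹ := by rw [map_inv₀, hc]
    have d10 : h[c⁻¹ • f₁, f] = 1 := by rw [hermForm_smul_left hF, hu1, inv_mul_cancel₀ hc0]
    have d20 : h[f₂, f] = c + 1 := hu2
    have d30 : h[f₃, f] = c₃ := hu3
    have d21 : h[f₂, c⁻¹ • f₁] = c + 1 := by
      rw [hf_smul_right hF, g21, hci]
      field_simp
      linear_combination -hcc
    have d31 : h[f₃, c⁻¹ • f₁] = 1 := by rw [hf_smul_right hF, g31, hci, inv_mul_cancel₀ hc1]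
    intro i j
    fin_cases i <;> fin_cases j
    · exact hR.iso_f
    · show h[f, c⁻¹ • f₁] = 1; rw [← hf_symm hF, d10, map_one]
    · show h[f, f₂] = σ (c + 1); rw [← hf_symm hF, d20]
    · show h[f, f₃] = σ c₃; rw [← hf_symm hF, d30]
    · exact d10
    · show h[c⁻¹ • f₁, c⁻¹ • f₁] = 0; rw [hermForm_smul_left hF, hf_smul_right hF, g11]; ring
    · show h[c⁻¹ • f₁, f₂] = σ (c + 1); rw [← hf_symm hF, d21]
    · show h[c⁻¹ • f₁, f₃] = 1; rw [← hf_symm hF, d31, map_one]
    · exact d20
    · exact d21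
    · exact g22
    · show h[f₂, f₃] = σ c; rw [← hf_symm hF, g32]
    · exact d30
    · exact d31
    · exact g32
    · exact g33
  have gtgt : ∀ i j, h[![e, f, X, Y] i, ![e, f, X, Y] j] = G i j := by
    intro i j
    fin_cases i <;> fin_cases j
    · exact hR.iso_e
    · exact hR.pair
    · show h[e, X] = σ (c + 1); rw [← hf_symm hF, hXe]
    · show h[e, Y] = σ c₃; rw [← hf_symm hF, hYe]
    · exact hfe
    · exact hR.iso_f
    · show h[f, X] = σ (c + 1); rw [← hf_symm hF, hXf]
    · show h[f, Y] = 1; rw [← hf_symm hF, hYf, map_one]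
    · exact hXe
    · exact hXf
    · exact hXX
    · show h[X, Y] = σ c; rw [← hf_symm hF, hYX]
    · exact hYe
    · exact hYf
    · exact hYX
    · exact hYY
  have gli : ∀ v : Fin 4 → 𝕍, (∀ i j, h[v i, v j] = G i j) → LinearIndependent F v := by
    intro v hv
    rw [Fintype.linearIndependent_iff]
    intro z hz
    have eq : ∀ j, z 0 * G 0 j + z 1 * G 1 j + z 2 * G 2 j + z 3 * G 3 j = 0 := fun j => by
      have h := congrArg (fun x => h[x, v j]) hz
      simpa [Fin.sum_univ_four, hermForm_add_left hF, hermForm_smul_left hF, hv,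
        hermForm_zero_left hF] using h
    have e0 : z 1 + z 2 * (c + 1) + z 3 * c₃ = 0 := by simpa [G] using eq 0
    have e1 : z 0 + z 2 * (c + 1) + z 3 = 0 := by simpa [G] using eq 1
    have e2 : z 0 * c + z 1 * c + z 3 * c = 0 := by
      have h := eq 2
      simp [G, hc] at h
      linear_combination h - (z 0 + z 1) * h2
    have e3 : z 0 * σ c₃ + z 1 + z 2 * (c + 1) = 0 := by simpa [G, hc] using eq 3
    have e2' : z 0 + z 1 + z 3 = 0 := by
      apply mul_left_cancel₀ hc0
      linear_combination e2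
    rcases hc3 with rfl | rfl
    · rw [hc] at e3
      have a1 : z 0 = z 1 := by
        apply mul_left_cancel₀ hc0
        linear_combination e0 - e1 - (c₃ - 1) * e2' + (c₃ * z 0 - z 1) * h2
      have a3 : z 3 = 0 := by linear_combination e2' + a1 - z 0 * h2
      have a0 : z 0 = 0 := by
        have hk : (c₃ + 1) * z 0 = 0 := by linear_combination e3 - e1 + a1 + a3
        exact (mul_eq_zero.1 hk).resolve_left hc1
      have a2 : z 2 = 0 := by
        apply (mul_eq_zero.1 (show (c₃ + 1) * z 2 = 0 by linear_combination e1 - a0 - a3)).resolve_left hc1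
      intro i; fin_cases i
      · exact a0
      · exact a1 ▸ a0
      · exact a2
      · exact a3
    · rw [map_one] at e3
      have a1 : z 0 = z 1 := by linear_combination e1 - e0
      have a3 : z 3 = 0 := by linear_combination e2' + a1 - z 0 * h2
      have a2 : z 2 = 0 := by
        apply (mul_eq_zero.1 (show (c + 1) * z 2 = 0 by
          linear_combination e3 + a1 - z 0 * h2)).resolve_left hc1
      have a0 : z 0 = 0 := by linear_combination e1 - (c + 1) * a2 - a3
      intro i; fin_cases i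
      · exact a0
      · exact a1 ▸ a0
      · exact a2
      · exact a3
  obtain ⟨g₀, hg₀⟩ := exists_GU_witt hF ![f, c⁻¹ • f₁, f₂, f₃] ![e, f, X, Y] (gli _ gsrc)
    (gli _ gtgt) (fun i j => (gsrc i j).trans (gtgt i j).symm)
  have hnd4 : SuNondeg q (S ⊔ Submodule.span F {w}) := suNondeg_sup hF hnd hw hw0
  have hd4 : Module.finrank F (S ⊔ Submodule.span F {w} : Submodule F 𝕍) ≤ 4 :=
    (Submodule.finrank_add_le_finrank_add_finrank S (Submodule.span F {w})).trans
      (by have := finrank_span_one_le (F := F) w; omega)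
  obtain ⟨w', hw', hw'0⟩ := exists_aniso_orth_top hF hnd4 (by omega)
  obtain ⟨g, hg⟩ := exists_SU_of_GU hF g₀ hw'0
  have act : ∀ x y, (g₀.1 : Matrix (Fin n) (Fin n) F) *ᵥ x = y → y ∈ S ⊔ Submodule.span F {w} →
      ↟g *ᵥ x = y := fun x y hxy hy => by
    rw [hg x (by rw [hxy]; exact hf_orth_comm hF (hw' y hy)), hxy]
  have a0 : ↟g *ᵥ f = e := act _ _ (hg₀ 0) (Submodule.mem_sup_left heS)
  have a1 : ↟g *ᵥ (c⁻¹ • f₁) = f := act _ _ (hg₀ 1) (Submodule.mem_sup_left hfS)
  have a2 : ↟g *ᵥ f₂ = X := act _ _ (hg₀ 2) hXS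
  have a3 : ↟g *ᵥ f₃ = Y := act _ _ (hg₀ 3) hYS
  have hinv : ∀ x, ↟g⁻¹ *ᵥ (↟g *ᵥ x) = x := fun x => by
    rw [Matrix.mulVec_mulVec, ← SU_mul_val, inv_mul_cancel]
    exact Matrix.one_mulVec x
  obtain ⟨θ, hθ0, hθ⟩ := exists_trace_zero_ne_zero hF
  obtain ⟨g', hg'⟩ := suReg_conj hF hR (by omega) hθ
  refine ⟨g, g', ?_⟩
  set H := Subgroup.closure ({u, g * u * g⁻¹, g' * u * g'⁻¹} : Set (Cfsg.SU n F q)) with hH
  have hu : u ∈ H := Subgroup.subset_closure (by simp)
  have hv' : g * u * g⁻¹ ∈ H := Subgroup.subset_closure (by simp)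
  have hw2 : g' * u * g'⁻¹ ∈ H := Subgroup.subset_closure (by simp)
  rw [hg'] at hw2
  have he : suTrans hF e θ hR.iso_e hθ ∈ H := (mul_mem_cancel_right hu).1 hw2
  haveI : CharP F 2 := CharTwo.of_one_ne_zero_of_two_eq_zero one_ne_zero h2
  have fe : SuFull H e := suFull_of_prime hF Nat.prime_two hq hR.iso_e hθ hθ0 he
  have v0 : ↟(g * u * g⁻¹) *ᵥ e = c • f := by
    simp only [SU_mul_val, ← Matrix.mulVec_mulVec]
    nth_rewrite 1 [← a0]
    rw [hinv, ← hf₁, ← a1, Matrix.mulVec_smul, smul_smul, mul_inv_cancel₀ hc0, one_smul]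
  have v1 : ↟(g * u * g⁻¹) *ᵥ f = c⁻¹ • X := by
    simp only [SU_mul_val, ← Matrix.mulVec_mulVec]
    nth_rewrite 1 [← a1]
    rw [hinv, Matrix.mulVec_smul, ← hf₂, Matrix.mulVec_smul, a2]
  have v2 : ↟(g * u * g⁻¹) *ᵥ X = Y := by
    simp only [SU_mul_val, ← Matrix.mulVec_mulVec]
    nth_rewrite 1 [← a2]
    rw [hinv, ← hf₃, a3]
  have ff : SuFull H f := by
    have := (fe.conj hF hv').smul hF c⁻¹
    rwa [v0, smul_smul, inv_mul_cancel₀ hc0, one_smul] at this
  have fX : SuFull H X := by
    have := (ff.conj hF hv').smul hF c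
    rwa [v1, smul_smul, mul_inv_cancel₀ hc0, one_smul] at this
  have fY : SuFull H Y := v2 ▸ fX.conj hF hv'
  obtain ⟨-, hfull, hd3⟩ := suReg_seed hF hR hu1 hT hu (fun α β hiso => fe.pair hF ff
    (hR.pair.symm ▸ one_ne_zero) hiso) hp hr hy
  have h4 := suTwo_four hF hq h2 hc hcc hpp hrr hyy hpr hpy hry hfull hnd (by omega) hw hww fX haS
    haN hap (hY H fX fY)
  have hlt : Module.finrank F S < Module.finrank F (S ⊔ Submodule.span F {w} : Submodule F 𝕍) :=
    Submodule.finrank_lt_finrank_of_lt (lt_of_le_of_ne le_sup_left fun h => hw0 (hw w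
      (h ▸ Submodule.mem_sup_right (Submodule.mem_span_singleton_self w))))
  have hd3' : 3 ≤ Module.finrank F S := hd3
  exact su_eq_top_of_full hF (by omega) (fun h => by omega) hu hR.fix hR.iso_e hR.iso_f hR.pair
    (suReg_cyclic hF hR) _ hnd4 h4 (Submodule.mem_sup_left heS) (Submodule.mem_sup_left hfS)
    (by omega) (Or.inr (by omega))

end Cfsg.Agent.H1
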