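import Cfsg.Agent.H1.SuTransvBasic

/-!
A criterion for a subgroup of the special unitary group to contain all transvections: growing a
non-degenerate subspace all of whose isotropic vectors are full.
-/

set_option autoImplicit false

namespace Cfsg.Agent.H1

open Matrix Cfsg.Agent.H3

variable {F : Type*} [Field F] [Fintype F] {q n : ℕ} (hF : Fintype.card F = q ^ 2)

local notation "h[" u ", " v "]" => Cfsg.hermForm n F q u v
local notation "σ" => conjQ hF
local notation "↟" g:max => ((Subtype.val g : Matrix.SpecialLinearGroup (Fin n) F) :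
  Matrix (Fin n) (Fin n) F)
local notation "𝕍" => Fin n → F

attribute [-simp] conjQ_apply

/-- The restriction of the form to `S` is non-degenerate. -/
def SuNondeg (q : ℕ) (S : Submodule F (Fin n → F)) : Prop :=
  ∀ x ∈ S, (∀ s ∈ S, Cfsg.hermForm n F q x s = 0) → x = 0

/-- All isotropic vectors of `S` are full. -/
def SuFullSub (H : Subgroup (Cfsg.SU n F q)) (S : Submodule F (Fin n → F)) : Prop :=
  ∀ x ∈ S, h[x, x] = 0 → SuFull H x

variable {H : Subgroup (Cfsg.SU n F q)} {S : Submodule F (Fin n → F)}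

include hF

lemma hf_orth_comm {u v : 𝕍} (h : h[u, v] = 0) : h[v, u] = 0 := (hermForm_eq_zero_comm hF).1 h

lemma SuNondeg.exists_proj (hS : SuNondeg q S) (x : 𝕍) :
    ∃ p ∈ S, ∀ s ∈ S, h[x - p, s] = 0 := by
  let B : S →ₛₗ[σ] S →ₗ[F] F := ((hermB hF n).comp S.subtype).compl₂ S.subtype
  have hB : IsHerm B q := by
    refine ⟨hF, fun a => rfl, fun a b => hf_symm hF (b : 𝕍) (a : 𝕍), fun a ha => ?_⟩
    refine Subtype.ext (hS a.1 a.2 fun s hs => ?_)
    exact hf_orth_comm hF (ha ⟨s, hs⟩)
  obtain ⟨p, hp⟩ := hB.exists_repr ((hermB hF n x).comp S.subtype)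
  refine ⟨p, p.2, fun s hs => hf_orth_comm hF ?_⟩
  have h : h[s, (p : 𝕍)] = h[s, x] := hp ⟨s, hs⟩
  rw [hermForm_sub_right hF, h, sub_self]

lemma exists_aniso_orth (hS : SuNondeg q S) {T : Submodule F 𝕍} (hT : SuNondeg q T) (hTS : T ≤ S)
    (hlt : Module.finrank F T < Module.finrank F S) :
    ∃ w ∈ S, (∀ t ∈ T, h[w, t] = 0) ∧ h[w, w] ≠ 0 := by
  let W : Submodule F 𝕍 :=
    { carrier := {w | w ∈ S ∧ ∀ t ∈ T, h[w, t] = 0}
      add_mem' := fun ha hb => ⟨S.add_mem ha.1 hb.1, fun t ht => by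
        rw [hermForm_add_left hF, ha.2 t ht, hb.2 t ht, add_zero]⟩
      zero_mem' := ⟨S.zero_mem, fun t _ => hermForm_zero_left hF t⟩
      smul_mem' := fun c _ ha => ⟨S.smul_mem c ha.1, fun t ht => by
        rw [hermForm_smul_left hF, ha.2 t ht, mul_zero]⟩ }
  by_contra hcon
  push Not at hcon
  have h0 := eq_zero_of_self_eq_zero (conjQ_ne_id hF) (isHerm_hermB hF n).symm W
    (fun v hv => hcon v hv.1 hv.2)
  have hle : S ≤ T := by
    intro s hs
    obtain ⟨t, ht, hst⟩ := hT.exists_proj hF s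
    have hsW : s - t ∈ W := ⟨S.sub_mem hs (hTS ht), hst⟩
    have : s - t = 0 := hS _ hsW.1 fun s' hs' => by
      obtain ⟨t', ht', hst'⟩ := hT.exists_proj hF s'
      have h1 : h[s - t, s' - t'] = 0 :=
        h0 (s' - t') ⟨S.sub_mem hs' (hTS ht'), hst'⟩ (s - t) hsW
      rwa [hermForm_sub_right hF, hst t' ht', sub_zero] at h1
    rwa [sub_eq_zero.1 this]
  have := Submodule.finrank_mono hle
  omega

lemma suNondeg_span_one {p : 𝕍} (hp : h[p, p] ≠ 0) : SuNondeg q (Submodule.span F {p}) := by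
  intro x hx h
  obtain ⟨a, rfl⟩ := Submodule.mem_span_singleton.1 hx
  have := h p (Submodule.mem_span_singleton_self p)
  rw [hermForm_smul_left hF] at this
  rw [(mul_eq_zero.1 this).resolve_right hp, zero_smul]

lemma suNondeg_hyp {v w : 𝕍} (hv : h[v, v] = 0) (hw : h[w, w] = 0) (hvw : h[v, w] ≠ 0) :
    SuNondeg q (Submodule.span F {v, w}) := by
  intro x hx h
  obtain ⟨a, b, rfl⟩ := Submodule.mem_span_pair.1 hx
  have h1 := h v (Submodule.subset_span (by simp))
  have h2 := h w (Submodule.subset_span (by simp))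
  rw [hermForm_add_left hF, hermForm_smul_left hF, hermForm_smul_left hF] at h1 h2
  rw [hv, mul_zero, zero_add] at h1
  rw [hw, mul_zero, add_zero] at h2
  rw [(mul_eq_zero.1 h1).resolve_right (hf_ne_comm hF hvw), (mul_eq_zero.1 h2).resolve_right hvw,
    zero_smul, zero_smul, add_zero]

omit hF in
lemma finrank_span_one_le (p : 𝕍) : Module.finrank F (Submodule.span F {p}) ≤ 1 := by
  classical
  simpa using finrank_span_le_card (R := F) ({p} : Set 𝕍)

omit hF in
lemma finrank_span_two_le (p r : 𝕍) : Module.finrank F (Submodule.span F {p, r}) ≤ 2 := by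
  classical
  refine (finrank_span_le_card (R := F) ({p, r} : Set 𝕍)).trans ?_
  simpa using Finset.card_le_two (a := p) (b := r)

/-- A hyperbolic partner inside `S`, orthogonal to `p`. -/
lemma exists_partner_orth (hS : SuNondeg q S) {p r : 𝕍} (hp : h[p, p] ≠ 0) (hpS : p ∈ S)
    (hr : r ∈ S) (hr0 : r ≠ 0) (hrr : h[r, r] = 0) (hrp : h[r, p] = 0) :
    ∃ r' ∈ S, h[r', r'] = 0 ∧ h[r', p] = 0 ∧ h[r', r] = 1 := by
  obtain ⟨s, hs, hsr⟩ : ∃ s ∈ S, h[s, r] ≠ 0 := by
    by_contra h
    push Not at h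
    exact hr0 (hS r hr fun s hs => hf_orth_comm hF (h s hs))
  set s₁ := s - (h[s, p] / h[p, p]) • p with hs₁
  have h1p : h[s₁, p] = 0 := by
    rw [hs₁, hermForm_sub_left hF, hermForm_smul_left hF, div_mul_cancel₀ _ hp, sub_self]
  have h1r : h[s₁, r] = h[s, r] := by
    rw [hs₁, hermForm_sub_left hF, hermForm_smul_left hF, hf_orth_comm hF hrp, mul_zero, sub_zero]
  obtain ⟨s₂, hs₂, h2p, h2r⟩ : ∃ x ∈ S, h[x, p] = 0 ∧ h[x, r] = 1 :=
    ⟨h[s, r]⁻¹ • s₁, S.smul_mem _ (S.sub_mem hs (S.smul_mem _ hpS)),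
      by rw [hermForm_smul_left hF, h1p, mul_zero],
      by rw [hermForm_smul_left hF, h1r, inv_mul_cancel₀ hsr]⟩
  obtain ⟨t, ht⟩ := exists_trace_eq hF (a := -h[s₂, s₂])
    (by rw [← conjQ_apply hF, map_neg, hf_self_fixed hF])
  rw [← conjQ_apply hF] at ht
  refine ⟨s₂ + t • r, S.add_mem hs₂ (S.smul_mem _ hr),
    ?_, ?_, ?_⟩
  · have h2r' : h[r, s₂] = 1 := by rw [← hf_symm hF, h2r, map_one]
    rw [hermForm_add_left hF, hermForm_add_right hF, hermForm_add_right hF, hermForm_smul_left hF,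
      hermForm_smul_left hF, hf_smul_right hF, hf_smul_right hF, h2r, h2r', hrr]
    linear_combination ht
  · rw [hermForm_add_left hF, hermForm_smul_left hF, h2p, hrp, mul_zero, add_zero]
  · rw [hermForm_add_left hF, hermForm_smul_left hF, h2r, hrr, mul_zero, add_zero]

lemma exists_norm_not (hq : 3 ≤ q) {M : F} (hM : M ≠ 0) :
    ∃ μ : F, μ ≠ 0 ∧ μ * σ μ ≠ M := by
  classical
  by_contra h
  push Not at h
  have hc : Fintype.card {μ : F // μ ≠ 0} ≤ q + 1 := by
    by_cases hMf : σ M = M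
    · have h1 := card_norm_eq hF hM (show M ^ q = M from hMf)
      rw [← h1, Nat.card_eq_fintype_card]
      refine Fintype.card_le_of_injective (fun μ => ⟨μ.1, ?_⟩) fun a b hab => ?_
      · have := h μ.1 μ.2
        rwa [conjQ_apply, ← pow_succ'] at this
      · exact Subtype.ext (congrArg Subtype.val hab :)
    · exfalso
      apply hMf
      rw [← h 1 one_ne_zero, map_mul, map_one, map_one]
  rw [Fintype.card_subtype_compl, Fintype.card_subtype_eq, hF] at hc
  obtain ⟨m, rfl⟩ := Nat.exists_eq_add_of_le hq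
  ring_nf at hc
  omega

/-- One step between norm `N` vectors spanning a non-degenerate plane. -/
theorem suFull_step (hS : SuNondeg q S) (hfull : SuFullSub H S) (hd : 2 ≤ Module.finrank F S)
    {y : 𝕍} {N : F} (hy : ∀ s ∈ S, h[y, s] = 0) (hyy : h[y, y] ≠ 0) (hNy : N + h[y, y] = 0) :
    ∀ a ∈ S, h[a, a] = N → SuFull H (a + y) → ∀ b ∈ S, h[b, b] = N →
      (h[b, a] * h[a, b] ≠ N * N ∨ b = (h[b, a] / N) • a) → SuFull H (b + y) := by
  have hy' : ∀ s ∈ S, h[s, y] = 0 := fun s hs => hf_orth_comm hF (hy s hs)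
  have hN0 : N ≠ 0 := fun h => hyy (by linear_combination hNy - h)
  intro a ha haN haf b hb hbN hab
  set r₀ := b - (h[b, a] / N) • a with hr₀
  have hr₀a : h[r₀, a] = 0 := by
    rw [hr₀, hermForm_sub_left hF, hermForm_smul_left hF, haN, div_mul_cancel₀ _ hN0, sub_self]
  obtain ⟨r, hr, hra, hrr, l, hl⟩ : ∃ r ∈ S, h[r, a] = 0 ∧ h[r, r] ≠ 0 ∧
      ∃ l : F, b = (h[b, a] / N) • a + l • r := by
    rcases hab with hab | hab
    · refine ⟨r₀, S.sub_mem hb (S.smul_mem _ ha), hr₀a, ?_, 1, by rw [one_smul, hr₀]; abel⟩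
      have e : h[r₀, r₀] = h[r₀, b] := by
        conv_lhs => arg 5; rw [hr₀]
        rw [hermForm_sub_right hF, hf_smul_right hF, hr₀a, mul_zero, sub_zero]
      rw [e, hr₀, hermForm_sub_left hF, hermForm_smul_left hF, hbN]
      intro h
      apply hab
      field_simp at h
      linear_combination -h
    · obtain ⟨w, hw, hwa, hww⟩ := exists_aniso_orth hF hS (suNondeg_span_one hF (haN.symm ▸ hN0))
        ((Submodule.span_singleton_le_iff_mem a S).2 ha)
        (lt_of_le_of_lt (finrank_span_one_le a) (by omega))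
      exact ⟨w, hw, hwa a (Submodule.mem_span_singleton_self a), hww, 0,
        by rw [zero_smul, add_zero]; exact hab⟩
  have h := suFull_space3 hF (hf_orth_comm hF hra) (hy' a ha) (hy' r hr) (haN.symm ▸ hN0) hrr
    (by rw [haN]; exact hNy)
    (fun α β h => hfull _ (S.add_mem (S.smul_mem α ha) (S.smul_mem β hr)) h) haf
    (h[b, a] / N) l 1 (by
      rw [one_smul, ← hl, hermForm_add_left hF, hermForm_add_right hF, hermForm_add_right hF,
        hbN, hy b hb, hy' b hb]
      linear_combination hNy)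
  rwa [one_smul, ← hl] at h

/-- From all norm `N` translates to the enlarged subspace. -/
theorem suFullSub_sup_of_all (hfull : SuFullSub H S) {y : 𝕍} {N : F}
    (hy : ∀ s ∈ S, h[y, s] = 0) (hNy : N + h[y, y] = 0)
    (all : ∀ b ∈ S, h[b, b] = N → SuFull H (b + y)) :
    SuFullSub H (S ⊔ Submodule.span F {y}) := by
  have hy' : ∀ s ∈ S, h[s, y] = 0 := fun s hs => hf_orth_comm hF (hy s hs)
  intro x hx hxx
  obtain ⟨s, hs, t, ht, rfl⟩ := Submodule.mem_sup.1 hx
  obtain ⟨β, rfl⟩ := Submodule.mem_span_singleton.1 ht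
  by_cases hβ : β = 0
  · subst hβ
    rw [zero_smul, add_zero] at hxx ⊢
    exact hfull s hs hxx
  have hσβ : σ β ≠ 0 := fun h => hβ (sigma_eq_zero hF h)
  have := (all (β⁻¹ • s) (S.smul_mem _ hs) (by
    rw [hermForm_add_left hF, hermForm_add_right hF, hermForm_add_right hF, hermForm_smul_left hF,
      hermForm_smul_left hF, hf_smul_right hF, hf_smul_right hF, hy s hs, hy' s hs] at hxx
    rw [hermForm_smul_left hF, hf_smul_right hF, map_inv₀]
    field_simp
    linear_combination hxx - β * σ β * hNy)).smul hF β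
  rwa [smul_add, smul_smul, mul_inv_cancel₀ hβ, one_smul] at this


/-- Extension by an anisotropic direction. -/
theorem suFullSub_extend (hS : SuNondeg q S) (hfull : SuFullSub H S)
    (hd : 3 ≤ Module.finrank F S) (hq4 : 3 ≤ q ∨ 4 ≤ Module.finrank F S) {p y : 𝕍} (hp : p ∈ S)
    (hy : ∀ s ∈ S, h[y, s] = 0) (hyy : h[y, y] ≠ 0) (hpy : SuFull H (p + y)) :
    SuFullSub H (S ⊔ Submodule.span F {y}) := by
  have hy' : ∀ s ∈ S, h[s, y] = 0 := fun s hs => hf_orth_comm hF (hy s hs)
  set N := h[p, p] with hN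
  have hNy : N + h[y, y] = 0 := by
    have := hpy.1
    rw [hermForm_add_left hF, hermForm_add_right hF, hermForm_add_right hF, hy p hp, hy' p hp] at this
    linear_combination this
  have hN0 : N ≠ 0 := fun h => hyy (by linear_combination hNy - h)
  have hNσ : σ N = N := hf_self_fixed hF p
  have step := suFull_step hF hS hfull (by omega) hy hyy hNy
  have all : ∀ b ∈ S, h[b, b] = N → SuFull H (b + y) := by
    intro b hb hbN
    by_cases h1 : h[b, p] * h[p, b] ≠ N * N
    · exact step p hp rfl hpy b hb hbN (Or.inl h1)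
    push Not at h1
    by_cases h2 : b = (h[b, p] / N) • p
    · exact step p hp rfl hpy b hb hbN (Or.inr h2)
    set c := h[b, p] / N with hc
    set r := b - c • p with hr
    have hrS : r ∈ S := S.sub_mem hb (S.smul_mem _ hp)
    have hrp : h[r, p] = 0 := by
      rw [hr, hermForm_sub_left hF, hermForm_smul_left hF, hc, div_mul_cancel₀ _ hN0, sub_self]
    have hrr : h[r, r] = 0 := by
      have e : h[r, r] = h[r, b] := by
        conv_lhs => arg 5; rw [hr]
        rw [hermForm_sub_right hF, hf_smul_right hF, hrp, mul_zero, sub_zero]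
      rw [e, hr, hermForm_sub_left hF, hermForm_smul_left hF, hbN, hc]
      field_simp
      linear_combination -h1
    have hr0 : r ≠ 0 := fun h => h2 (sub_eq_zero.1 h)
    obtain ⟨r', hr'S, hr'r', hr'p, hr'r⟩ := exists_partner_orth hF hS hN0 hp hrS hr0 hrr hrp
    have hrr' : h[r, r'] = 1 := by rw [← hf_symm hF, hr'r, map_one]
    obtain ⟨z, hzS, hzN, hzp, hzr⟩ : ∃ z ∈ S, h[z, z] = N ∧ h[z, p] = 0 ∧
        h[r, z] * h[z, r] ≠ N * N := by
      by_cases hq : 3 ≤ q
      · obtain ⟨μ, hμ0, hμ⟩ := exists_norm_not hF hq (mul_ne_zero hN0 hN0)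
        obtain ⟨x, hx⟩ := exists_trace_eq hF (a := N) (by rw [← conjQ_apply hF, hNσ])
        rw [← conjQ_apply hF] at hx
        have hμs : σ μ ≠ 0 := fun h => hμ0 (sigma_eq_zero hF h)
        refine ⟨(x / σ μ) • r + μ • r', S.add_mem (S.smul_mem _ hrS) (S.smul_mem _ hr'S), ?_, ?_, ?_⟩
        · rw [hermForm_add_left hF, hermForm_add_right hF, hermForm_add_right hF,
            hermForm_smul_left hF, hermForm_smul_left hF, hermForm_smul_left hF,
            hermForm_smul_left hF, hf_smul_right hF, hf_smul_right hF, hf_smul_right hF,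
            hf_smul_right hF, hrr, hr'r', hrr', hr'r, map_div₀, sigma_two]
          field_simp
          linear_combination (μ * σ μ) * hx
        · rw [hermForm_add_left hF, hermForm_smul_left hF, hermForm_smul_left hF, hrp, hr'p]; ring
        · rw [hermForm_add_right hF, hermForm_add_left hF, hermForm_smul_left hF,
            hermForm_smul_left hF, hf_smul_right hF, hf_smul_right hF, hrr, hrr', hr'r]
          intro h
          exact hμ (by linear_combination h)
      · have hd4 : 4 ≤ Module.finrank F S := hq4.resolve_left hq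
        have hT : SuNondeg q (Submodule.span F {p, r, r'}) := by
          intro x hx h
          obtain ⟨a, y', hy'', rfl⟩ := Submodule.mem_span_insert.1 hx
          obtain ⟨b', c', rfl⟩ := Submodule.mem_span_pair.1 hy''
          have e1 := h p (Submodule.subset_span (by simp))
          have e2 := h r (Submodule.subset_span (by simp))
          have e3 := h r' (Submodule.subset_span (by simp))
          simp only [hermForm_add_left hF, hermForm_smul_left hF, hrp, hr'p, hrr, hr'r', hrr', hr'r,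
            hf_orth_comm hF hrp, hf_orth_comm hF hr'p, mul_zero, mul_one, add_zero, zero_add] at e1 e2 e3
          rw [e2, e3, (mul_eq_zero.1 e1).resolve_right hN0]
          simp
        classical
        have hle : Module.finrank F (Submodule.span F {p, r, r'}) ≤ 3 := by
          refine (finrank_span_le_card (R := F) ({p, r, r'} : Set 𝕍)).trans ?_
          simpa using Finset.card_le_three (a := p) (b := r) (c := r')
        obtain ⟨w, hwS, hw, hww⟩ := exists_aniso_orth hF hS hT (Submodule.span_le.2 (by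
          intro x hx
          simp only [Set.mem_insert_iff, Set.mem_singleton_iff] at hx
          rcases hx with rfl | rfl | rfl <;> assumption)) (by omega)
        obtain ⟨k, hk⟩ := exists_norm_eq hF (μ := N / h[w, w])
          (by rw [← conjQ_apply hF, map_div₀, hNσ, hf_self_fixed hF])
        rw [pow_succ', ← conjQ_apply hF] at hk
        refine ⟨k • w, S.smul_mem _ hwS, ?_, ?_, ?_⟩
        · rw [hermForm_smul_left hF, hf_smul_right hF, ← mul_assoc, hk, div_mul_cancel₀ _ hww]
        · rw [hermForm_smul_left hF, hw p (Submodule.subset_span (by simp)), mul_zero]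
        · rw [hermForm_smul_left hF, hw r (Submodule.subset_span (by simp)), mul_zero, mul_zero]
          exact (mul_ne_zero hN0 hN0).symm
    have hzf : SuFull H (z + y) := step p hp rfl hpy z hzS hzN (Or.inl (by
      rw [hzp, zero_mul]; exact (mul_ne_zero hN0 hN0).symm))
    refine step z hzS hzN hzf b hb hbN (Or.inl ?_)
    have e1 : h[b, z] = h[r, z] := by
      rw [hr, hermForm_sub_left hF, hermForm_smul_left hF, hf_orth_comm hF hzp, mul_zero, sub_zero]
    rw [e1, ← hf_symm hF b z, e1, hf_symm hF r z]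
    exact hzr
  exact suFullSub_sup_of_all hF hfull hy hNy all

/-- Sum of a non-degenerate subspace and an orthogonal anisotropic line. -/
lemma suNondeg_sup (hS : SuNondeg q S) {y : 𝕍} (hy : ∀ s ∈ S, h[y, s] = 0) (hyy : h[y, y] ≠ 0) :
    SuNondeg q (S ⊔ Submodule.span F {y}) := by
  intro x hx h
  obtain ⟨s, hs, t, ht, rfl⟩ := Submodule.mem_sup.1 hx
  obtain ⟨β, rfl⟩ := Submodule.mem_span_singleton.1 ht
  have h1 := h y (Submodule.mem_sup_right (Submodule.mem_span_singleton_self y))
  rw [hermForm_add_left hF, hermForm_smul_left hF, hf_orth_comm hF (hy s hs), zero_add] at h1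
  have hβ : β = 0 := (mul_eq_zero.1 h1).resolve_right hyy
  subst hβ
  rw [zero_smul, add_zero] at h ⊢
  exact hS s hs fun s' hs' => h s' (Submodule.mem_sup_left hs')

/-- An isotropic vector of `S` non-orthogonal to two given non-zero vectors. -/
lemma exists_iso_nonorth (hS : SuNondeg q S) (hfull : SuFullSub H S) {e f : 𝕍} (he : e ∈ S)
    (hf : f ∈ S) (hee : h[e, e] = 0) (hff : h[f, f] = 0) (hef : h[e, f] = 1) {x₁ x₂ : 𝕍}
    (h1 : x₁ ∈ S) (h1' : x₁ ≠ 0) (h2 : x₂ ∈ S) (h2' : x₂ ≠ 0) :
    ∃ s ∈ S, h[s, s] = 0 ∧ h[s, x₁] ≠ 0 ∧ h[s, x₂] ≠ 0 := by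
  have hfe : h[f, e] = 1 := by rw [← hf_symm hF, hef, map_one]
  obtain ⟨τ, hτ0, hτ⟩ := exists_trace_zero_ne_zero hF
  rw [← conjQ_apply hF] at hτ
  have one : ∀ x ∈ S, x ≠ 0 → ∃ s ∈ S, h[s, s] = 0 ∧ h[s, x] ≠ 0 := by
    intro x hx hx0
    by_contra hcon
    push Not at hcon
    apply hx0
    refine hS x hx fun s hs => ?_
    have hxe : h[e, x] = 0 := hcon e he hee
    have hxf : h[f, x] = 0 := hcon f hf hff
    set w := s - h[s, f] • e - h[s, e] • f with hw
    have hwe : h[w, e] = 0 := by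
      rw [hw, hermForm_sub_left hF, hermForm_sub_left hF, hermForm_smul_left hF,
        hermForm_smul_left hF, hee, hfe]; ring
    have hwf : h[w, f] = 0 := by
      rw [hw, hermForm_sub_left hF, hermForm_sub_left hF, hermForm_smul_left hF,
        hermForm_smul_left hF, hef, hff]; ring
    obtain ⟨γ, hγ⟩ := exists_trace_eq hF (a := -h[w, w])
      (by rw [← conjQ_apply hF, map_neg, hf_self_fixed hF])
    rw [← conjQ_apply hF] at hγ
    have hwS : w ∈ S := S.sub_mem (S.sub_mem hs (S.smul_mem _ he)) (S.smul_mem _ hf)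
    have hiso : h[f + γ • e + w, f + γ • e + w] = 0 := by
      simp only [hermForm_add_left hF, hermForm_add_right hF, hermForm_smul_left hF,
        hf_smul_right hF, hee, hff, hef, hfe, hwe, hwf, hf_orth_comm hF hwe, hf_orth_comm hF hwf]
      linear_combination hγ
    have hwx := hcon _ (S.add_mem (S.add_mem hf (S.smul_mem γ he)) hwS) hiso
    rw [hermForm_add_left hF, hermForm_add_left hF, hermForm_smul_left hF, hxe, hxf] at hwx
    simp only [mul_zero, add_zero, zero_add] at hwx
    refine hf_orth_comm hF ?_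
    have es : s = w + h[s, f] • e + h[s, e] • f := by rw [hw]; abel
    rw [es, hermForm_add_left hF, hermForm_add_left hF, hermForm_smul_left hF,
      hermForm_smul_left hF, hwx, hxe, hxf]
    ring
  obtain ⟨a, ha, haa, ha1⟩ := one x₁ h1 h1'
  by_cases ha2 : h[a, x₂] ≠ 0
  · exact ⟨a, ha, haa, ha1, ha2⟩
  push Not at ha2
  obtain ⟨b, hb, hbb, hb2⟩ := one x₂ h2 h2'
  by_cases hb1 : h[b, x₁] ≠ 0
  · exact ⟨b, hb, hbb, hb1, hb2⟩
  push Not at hb1
  by_cases hab : h[a, b] = 0
  · refine ⟨a + b, S.add_mem ha hb, ?_, ?_, ?_⟩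
    · rw [hermForm_add_left hF, hermForm_add_right hF, hermForm_add_right hF, haa, hbb, hab,
        hf_orth_comm hF hab]; ring
    · rw [hermForm_add_left hF, hb1, add_zero]; exact ha1
    · rw [hermForm_add_left hF, ha2, zero_add]; exact hb2
  · refine ⟨a + (τ * h[a, b]) • b, S.add_mem ha (S.smul_mem _ hb),
      ((hfull a ha haa).move hF (hfull b hb hbb) hτ).1, ?_, ?_⟩
    · rw [hermForm_add_left hF, hermForm_smul_left hF, hb1, mul_zero, add_zero]; exact ha1
    · rw [hermForm_add_left hF, hermForm_smul_left hF, ha2, zero_add]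
      exact mul_ne_zero (mul_ne_zero hτ0 hab) hb2

/-- The generation criterion. -/
theorem su_eq_top_of_full (hn : 2 ≤ n) (h32 : ¬ (n = 3 ∧ q = 2)) {u : Cfsg.SU n F q} (hu : u ∈ H)
    {e f : 𝕍} (hue : ↟u *ᵥ e = e) (hee : h[e, e] = 0) (hff : h[f, f] = 0) (hef : h[e, f] = 1)
    (hcyc : ∀ T : Submodule F 𝕍, f ∈ T → (∀ x ∈ T, ↟u *ᵥ x ∈ T) → T = ⊤)
    (S₀ : Submodule F 𝕍) (hS₀ : SuNondeg q S₀) (hfull₀ : SuFullSub H S₀)
    (he : e ∈ S₀) (hf : f ∈ S₀) (hd : 3 ≤ Module.finrank F S₀)
    (hq4 : 3 ≤ q ∨ 4 ≤ Module.finrank F S₀) : H = ⊤ := by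
  obtain ⟨S, ⟨hle, hS, hfull⟩, hmax⟩ := (wellFounded_gt (α := Submodule F 𝕍)).has_min
    {S | S₀ ≤ S ∧ SuNondeg q S ∧ SuFullSub H S} ⟨S₀, le_rfl, hS₀, hfull₀⟩
  have hmono := Submodule.finrank_mono hle
  have hfe : h[f, e] = 1 := by rw [← hf_symm hF, hef, map_one]
  obtain ⟨τ, hτ0, hτ⟩ := exists_trace_zero_ne_zero hF
  rw [← conjQ_apply hF] at hτ
  have htriv : ∀ p ∈ S, ∀ y : 𝕍, (∀ s ∈ S, h[y, s] = 0) → SuFull H (p + y) → h[y, y] = 0 := by
    intro p hp y hy hpy
    by_contra hyy
    refine hmax (S ⊔ Submodule.span F {y})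
      ⟨hle.trans le_sup_left, suNondeg_sup hF hS hy hyy,
        suFullSub_extend hF hS hfull (by omega) (by omega) hp hy hyy hpy⟩
      (lt_of_le_of_ne le_sup_left fun h => hyy ?_)
    exact hy y (h ▸ Submodule.mem_sup_right (Submodule.mem_span_singleton_self y))
  -- the components of mixed full vectors
  let W : Set 𝕍 := {y | (∀ s ∈ S, h[y, s] = 0) ∧ ∃ p ∈ S, p ≠ 0 ∧ SuFull H (p + y)}
  have mixed : ∀ x, SuFull H x → h[x, e] ≠ 0 → x ∈ S ⊔ Submodule.span F W := by
    intro x hx hxe
    obtain ⟨p, hp, hxp⟩ := hS.exists_proj hF x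
    have hp0 : p ≠ 0 := by
      rintro rfl
      rw [sub_zero] at hxp
      exact hxe (hxp e (hle he))
    have hxW : x - p ∈ W := ⟨hxp, p, hp, hp0, by rwa [add_sub_cancel]⟩
    have := Submodule.add_mem_sup (show p ∈ S from hp) (Submodule.subset_span hxW)
    rwa [add_sub_cancel] at this
  have uinv : ∀ x, h[↟u *ᵥ x, e] = h[x, e] := fun x => by
    conv_lhs => arg 5; rw [← hue]
    exact mem_SU_iff.1 u.2 x e
  set T := S ⊔ Submodule.span F W with hT
  have e0 : e ≠ 0 := fun h => by rw [h, hermForm_zero_left hF] at hef; exact zero_ne_one hef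
  have invS : ∀ s ∈ S, h[s, s] = 0 → ↟u *ᵥ s ∈ T := by
    have isoNE : ∀ s ∈ S, h[s, s] = 0 → h[s, e] ≠ 0 → ↟u *ᵥ s ∈ T := fun s hs hss hse =>
      mixed _ ((hfull s hs hss).conj hF hu) (by rwa [uinv])
    intro s hs hss
    by_cases hse : h[s, e] ≠ 0
    · exact isoNE s hs hss hse
    push Not at hse
    by_cases hs0 : s = 0
    · subst hs0; rw [Matrix.mulVec_zero]; exact T.zero_mem
    obtain ⟨b, hb, hbb, hbs, hbe⟩ := exists_iso_nonorth hF hS hfull (hle he) (hle hf) hee hff hef
      hs hs0 (hle he) e0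
    have h' := (hfull s hs hss).move hF (hfull b hb hbb) hτ
    have hne : h[s + (τ * h[s, b]) • b, e] ≠ 0 := by
      rw [hermForm_add_left hF, hermForm_smul_left hF, hse, zero_add]
      exact mul_ne_zero (mul_ne_zero hτ0 (hf_ne_comm hF hbs)) hbe
    have m1 := isoNE _ (S.add_mem hs (S.smul_mem _ hb)) h'.1 hne
    have m2 := isoNE b hb hbb hbe
    rw [Matrix.mulVec_add, Matrix.mulVec_smul] at m1
    simpa using T.sub_mem m1 (T.smul_mem (τ * h[s, b]) m2)
  have invSall : ∀ s ∈ S, ↟u *ᵥ s ∈ T := by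
    intro s hs
    set w := s - h[s, f] • e - h[s, e] • f with hw
    have hwe : h[w, e] = 0 := by
      rw [hw, hermForm_sub_left hF, hermForm_sub_left hF, hermForm_smul_left hF,
        hermForm_smul_left hF, hee, hfe]; ring
    have hwf : h[w, f] = 0 := by
      rw [hw, hermForm_sub_left hF, hermForm_sub_left hF, hermForm_smul_left hF,
        hermForm_smul_left hF, hef, hff]; ring
    obtain ⟨γ, hγ⟩ := exists_trace_eq hF (a := -h[w, w])
      (by rw [← conjQ_apply hF, map_neg, hf_self_fixed hF])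
    rw [← conjQ_apply hF] at hγ
    have hwS : w ∈ S := S.sub_mem (S.sub_mem hs (S.smul_mem _ (hle he))) (S.smul_mem _ (hle hf))
    have hiso : h[f + γ • e + w, f + γ • e + w] = 0 := by
      simp only [hermForm_add_left hF, hermForm_add_right hF, hermForm_smul_left hF,
        hf_smul_right hF, hee, hff, hef, hfe, hwe, hwf, hf_orth_comm hF hwe, hf_orth_comm hF hwf]
      linear_combination hγ
    have m1 := invS _ (S.add_mem (S.add_mem (hle hf) (S.smul_mem γ (hle he))) hwS) hiso
    have m2 := invS f (hle hf) hff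
    have m3 := invS e (hle he) hee
    rw [Matrix.mulVec_add, Matrix.mulVec_add, Matrix.mulVec_smul] at m1
    have m4 : ↟u *ᵥ w ∈ T := by simpa using T.sub_mem m1 (T.add_mem m2 (T.smul_mem γ m3))
    have es : s = w + h[s, f] • e + h[s, e] • f := by rw [hw]; abel
    rw [es, Matrix.mulVec_add, Matrix.mulVec_add, Matrix.mulVec_smul, Matrix.mulVec_smul]
    exact T.add_mem (T.add_mem m4 (T.smul_mem _ m3)) (T.smul_mem _ m2)
  have htop : T = ⊤ := by
    refine hcyc T (Submodule.mem_sup_left (hle hf)) fun x hx => ?_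
    have hmap : T ≤ T.comap (Matrix.toLin' (↟u)) := by
      refine sup_le (fun s hs => by simpa using invSall s hs) (Submodule.span_le.2 ?_)
      rintro y ⟨hy, p, hp, hp0, hpy⟩
      have goal : ↟u *ᵥ (p + y) ∈ T := by
        by_cases hpe : h[p + y, e] ≠ 0
        · exact mixed _ (hpy.conj hF hu) (by rwa [uinv])
        push Not at hpe
        obtain ⟨b, hb, hbb, hbp, hbe⟩ := exists_iso_nonorth hF hS hfull (hle he) (hle hf) hee hff hef
          hp hp0 (hle he) e0
        have h' := hpy.move hF (hfull b hb hbb) hτ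
        have hpb : h[p + y, b] ≠ 0 := by
          rw [hermForm_add_left hF, hy b hb, add_zero]; exact hf_ne_comm hF hbp
        have m1 := mixed _ (h'.conj hF hu) (by
          rw [uinv, hermForm_add_left hF, hermForm_smul_left hF, hpe, zero_add]
          exact mul_ne_zero (mul_ne_zero hτ0 hpb) hbe)
        rw [Matrix.mulVec_add, Matrix.mulVec_smul] at m1
        simpa using T.sub_mem m1 (T.smul_mem (τ * h[p + y, b]) (invSall b hb))
      rw [Matrix.mulVec_add] at goal
      simpa using T.sub_mem goal (invSall p hp)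
    simpa using hmap hx
  -- two mixed vectors with non-orthogonal components cannot exist
  have horth : ∀ y₁ ∈ W, ∀ y₂ ∈ W, h[y₁, y₂] = 0 := by
    rintro y₁ ⟨hy₁, p₁, hp₁, hp₁0, hf₁⟩ y₂ ⟨hy₂, p₂, hp₂, hp₂0, hf₂⟩
    by_contra hY
    set Y := h[y₁, y₂] with hYdef
    have piso : ∀ p ∈ S, ∀ y, (∀ s ∈ S, h[y, s] = 0) → SuFull H (p + y) → h[p, p] = 0 := by
      intro p hp y hy hpy
      have := hpy.1
      rw [hermForm_add_left hF, hermForm_add_right hF, hermForm_add_right hF, hy p hp,
        hf_orth_comm hF (hy p hp), htriv p hp y hy hpy] at this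
      linear_combination this
    have hp₁i := piso p₁ hp₁ y₁ hy₁ hf₁
    have hp₂i := piso p₂ hp₂ y₂ hy₂ hf₂
    -- moving the first component
    have moveS : ∀ p ∈ S, SuFull H (p + y₁) → ∀ b ∈ S, h[b, b] = 0 → ∀ a, a + σ a = 0 →
        p + (a * h[p, b]) • b ∈ S ∧ SuFull H (p + (a * h[p, b]) • b + y₁) := by
      intro p hp hpy b hb hbb a ha
      refine ⟨S.add_mem hp (S.smul_mem _ hb), ?_⟩
      have h := hpy.move hF (hfull b hb hbb) ha
      rwa [hermForm_add_left hF, hy₁ b hb, add_zero, add_right_comm] at h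
    obtain ⟨p, hpS, hpy, hZ⟩ : ∃ p ∈ S, SuFull H (p + y₁) ∧ h[p, p₂] ≠ 0 := by
      by_cases hZ : h[p₁, p₂] ≠ 0
      · exact ⟨p₁, hp₁, hf₁, hZ⟩
      push Not at hZ
      obtain ⟨b, hb, hbb, hb1, hb2⟩ := exists_iso_nonorth hF hS hfull (hle he) (hle hf) hee hff hef
        hp₁ hp₁0 hp₂ hp₂0
      obtain ⟨m1, m2⟩ := moveS p₁ hp₁ hf₁ b hb hbb τ hτ
      refine ⟨_, m1, m2, ?_⟩
      rw [hermForm_add_left hF, hermForm_smul_left hF, hZ, zero_add]
      exact mul_ne_zero (mul_ne_zero hτ0 (hf_ne_comm hF hb1)) hb2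
    obtain ⟨p', hp'S, hp'y, hgood⟩ : ∃ p' ∈ S, SuFull H (p' + y₁) ∧
        h[p', p₂] * σ Y ≠ σ (h[p', p₂] * σ Y) := by
      by_cases hg : h[p, p₂] * σ Y = σ (h[p, p₂] * σ Y)
      · have hpi := piso p hpS y₁ hy₁ hpy
        classical
        obtain ⟨w, hwS, hw, hww⟩ := exists_aniso_orth hF hS (suNondeg_hyp hF hpi hp₂i hZ)
          (Submodule.span_le.2 (by
            intro x hx
            simp only [Set.mem_insert_iff, Set.mem_singleton_iff] at hx
            rcases hx with rfl | rfl <;> assumption))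
          (lt_of_le_of_lt (finrank_span_two_le p p₂) (by omega))
        have hwp : h[w, p] = 0 := hw p (Submodule.subset_span (by simp))
        have hwp2 : h[w, p₂] = 0 := hw p₂ (Submodule.subset_span (by simp))
        obtain ⟨x, hx⟩ := exists_trace_eq hF (a := -h[w, w])
          (by rw [← conjQ_apply hF, map_neg, hf_self_fixed hF])
        rw [← conjQ_apply hF] at hx
        set Z := h[p, p₂] with hZdef
        have hZ2 : h[p₂, p] = σ Z := (hf_symm hF p p₂).symm
        have hsZ : σ Z ≠ 0 := fun h => hZ (sigma_eq_zero hF h)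
        set b := p + (σ x / σ Z) • p₂ + w with hb
        have hbS : b ∈ S := S.add_mem (S.add_mem hpS (S.smul_mem _ hp₂)) hwS
        have hbb : h[b, b] = 0 := by
          simp only [hb, hermForm_add_left hF, hermForm_add_right hF, hermForm_smul_left hF,
            hf_smul_right hF, hpi, hp₂i, ← hZdef, hZ2, hwp, hwp2, hf_orth_comm hF hwp,
            hf_orth_comm hF hwp2, map_div₀, sigma_two]
          field_simp
          linear_combination (Z * σ Z) * hx
        have hpb : h[p, b] = x := by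
          simp only [hb, hermForm_add_right hF, hf_smul_right hF, hpi, ← hZdef,
            hf_orth_comm hF hwp, map_div₀, sigma_two, zero_add, add_zero]
          exact div_mul_cancel₀ x hZ
        have hbp2 : h[b, p₂] = Z := by
          simp only [hb, hermForm_add_left hF, hermForm_smul_left hF, hp₂i, hwp2, mul_zero,
            add_zero, ← hZdef]
        obtain ⟨m1, m2⟩ := moveS p hpS hpy b hbS hbb τ hτ
        refine ⟨_, m1, m2, ?_⟩
        rw [hermForm_add_left hF, hermForm_smul_left hF, hpb, hbp2, ← hZdef]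
        intro h
        have h0 : Z * σ Y ≠ 0 := mul_ne_zero hZ (fun h => hY (sigma_eq_zero hF h))
        have e1 : (Z + τ * x * Z) * σ Y = (1 + τ * x) * (Z * σ Y) := by ring
        rw [e1, map_mul, map_add, map_one, map_mul, ← hg] at h
        have e2 := mul_right_cancel₀ h0 h
        have : τ * h[w, w] = 0 := by linear_combination τ * hx - e2 - σ x * hτ
        exact mul_ne_zero hτ0 hww this
      · exact ⟨p, hpS, hpy, hg⟩
    have hp12 : h[p' + y₁, p₂ + y₂] = h[p', p₂] + Y := by
      rw [hermForm_add_left hF, hermForm_add_right hF, hermForm_add_right hF, hy₁ p₂ hp₂,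
        hf_orth_comm hF (hy₂ p' hp'S), ← hYdef]
      ring
    have hx := hp'y.move hF hf₂ hτ
    rw [hp12] at hx
    set k := τ * (h[p', p₂] + Y) with hk
    have ex : p' + y₁ + k • (p₂ + y₂) = (p' + k • p₂) + (y₁ + k • y₂) := by module
    rw [ex] at hx
    have hyk : ∀ s ∈ S, h[y₁ + k • y₂, s] = 0 := fun s hs => by
      rw [hermForm_add_left hF, hermForm_smul_left hF, hy₁ s hs, hy₂ s hs, mul_zero, add_zero]
    have h0 := htriv _ (S.add_mem hp'S (S.smul_mem _ hp₂)) _ hyk hx
    rw [hermForm_add_left hF, hermForm_add_right hF, hermForm_add_right hF, hermForm_smul_left hF,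
      hermForm_smul_left hF, hf_smul_right hF, hf_smul_right hF, htriv p₁ hp₁ y₁ hy₁ hf₁,
      htriv p₂ hp₂ y₂ hy₂ hf₂, ← hYdef, ← hf_symm hF y₁ y₂, ← hYdef, hk, map_mul, map_add] at h0
    apply hgood
    rw [map_mul, sigma_two]
    apply mul_left_cancel₀ hτ0
    linear_combination h0 - (σ h[p', p₂] * Y + σ Y * Y) * hτ
  have hW : ∀ y ∈ W, y = 0 := by
    intro y hy
    refine (isHerm_hermB hF n).sep y fun z => ?_
    show h[z, y] = 0
    have hz : z ∈ T := htop ▸ trivial
    obtain ⟨s, hs, w, hw, rfl⟩ := Submodule.mem_sup.1 hz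
    rw [hermForm_add_left hF, hf_orth_comm hF (hy.1 s hs), zero_add]
    clear hz
    induction hw using Submodule.span_induction with
    | mem x hx => exact horth x hx y hy
    | zero => exact hermForm_zero_left hF y
    | add a b _ _ ha hb => rw [hermForm_add_left hF, ha, hb, add_zero]
    | smul c a _ ha => rw [hermForm_smul_left hF, ha, mul_zero]
  have hStop : S = ⊤ := by
    rw [← htop, hT, sup_eq_left.2]
    exact Submodule.span_le.2 fun y hy => by rw [hW y hy]; exact S.zero_mem
  rw [eq_top_iff, ← su_closure_eq_top hF hn h32, Subgroup.closure_le]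
  rintro g ⟨v, c, hv, hg⟩
  by_cases hv0 : v = 0
  · have : g = 1 := SU_ext (by
      rw [hg, hv0]
      refine Matrix.ext_of_mulVec_single fun i => ?_
      rw [unitaryTransvection_mulVec, smul_zero, add_zero]
      exact (Matrix.one_mulVec _).symm)
    rw [this]; exact one_mem H
  · have hc := trace_zero_of_transvection_preserves hF hv0 hv (c := c) fun x z => by
      rw [← hg]; exact mem_SU_iff.1 g.2 x z
    exact (hfull v (hStop ▸ trivial) hv).2 c g hc hg

end Cfsg.Agent.H1
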